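import Cfsg.Agent.L0.FXs

/-!
# The Sims–Glauberman lemma
-/

set_option autoImplicit false

namespace Cfsg.Agent.L0

open Subgroup Cfsg.Agent.H24
open Cfsg.Agent.H23.LF (eq_of_card_le sup_zp_of_card le_norm_of_card mul_card_le' zp_of_card exists_ne_one_of_card)
open scoped commutatorElement

variable {G : Type*} [Group G] {p t : ℕ} {P C : Subgroup G} {h x c w : G}

/-- `P ∩ P^h ∩ … ∩ P^(h^m)`. -/
def sD (P : Subgroup G) (h : G) : ℕ → Subgroup G
  | 0 => P
  | m + 1 => P ⊓ cj (sD P h m) h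

theorem sD_succ_le (m : ℕ) : sD P h (m + 1) ≤ sD P h m := by
  induction m with
  | zero => exact inf_le_left
  | succ m ih => exact inf_le_inf_left _ (cj_mono ih h)

theorem sD_anti : Antitone (sD P h) := antitone_nat_of_succ_le sD_succ_le

theorem sD_succ (m : ℕ) : sD P h (m + 1) = sD P h m ⊓ cj (sD P h m) h :=
  le_antisymm (le_inf (sD_succ_le m) inf_le_right) (inf_le_inf_right _ (sD_anti (Nat.zero_le m)))

/-- The window of size `s` ending at `b`. -/
def sV (P : Subgroup G) (h : G) (t : ℕ) (b : ℤ) (s : ℕ) : Subgroup G := cj (sD P h (t - s)) (h ^ b)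

theorem sV_mono (b : ℤ) : Monotone (sV P h t b) := fun _ _ e => cj_mono (sD_anti (by omega)) _

theorem sV_inf (b : ℤ) {s : ℕ} (hs : s < t) : sV P h t (b - 1) s = sV P h t (b - 1) (s + 1) ⊓ sV P h t b (s + 1) := by
  rw [sV, sV, sV, show t - s = t - (s + 1) + 1 by omega, sD_succ, cj_inf, cj_cj, ← zpow_add_one, sub_add_cancel]

theorem sV_le (b : ℤ) {s : ℕ} (hs : s < t) : sV P h t (b - 1) s ≤ sV P h t b (s + 1) :=
  (sV_inf b hs).le.trans inf_le_right

variable [Finite G] [hp : Fact p.Prime]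

/-- The chain has length `t` with factors of order `p`. -/
structure SC (p t : ℕ) (P : Subgroup G) (h : G) : Prop where
  pg : IsPGroup p P
  card : ∀ m < t, Nat.card (sD P h m) = p * Nat.card (sD P h (m + 1))

namespace SC

variable (a : SC p t P h)
include a

omit [Finite G] hp in
theorem pV (b : ℤ) (s : ℕ) : IsPGroup p (sV P h t b s) := (a.pg.to_le (sD_anti (Nat.zero_le _))).cj _

omit [Finite G] hp in
theorem cV (b b' : ℤ) {s : ℕ} (hs : s < t) : Nat.card (sV P h t b (s + 1)) = p * Nat.card (sV P h t b' s) := by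
  rw [sV, sV, card_cj, card_cj, a.card _ (by omega), show t - (s + 1) + 1 = t - s by omega]

theorem sup (b : ℤ) {s : ℕ} (hs : s + 1 < t) :
    sV P h t b (s + 1) ⊔ sV P h t (b - 1) (s + 1) = sV P h t b (s + 1 + 1) := by
  refine eq_of_card_le (a.pV _ _) (lt_of_le_of_ne le_sup_left fun e => ?_)
    (sup_le (sV_mono b (by omega)) (sV_le b hs)) (a.cV b b hs).le
  have h1 := a.cV (b - 1) (b - 1) (show s < t by omega)
  rw [sV_inf b (show s < t by omega), inf_eq_left.2 (le_sup_right.trans e.ge)] at h1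
  have := hp.out.two_le
  have : 0 < Nat.card (sV P h t (b - 1) (s + 1)) := Nat.card_pos
  nlinarith

theorem gen {s : ℕ} (hs : s < t) : ∀ b : ℤ, (∀ j, b - s ≤ j → j ≤ b → sV P h t j 1 ≤ C) →
    sV P h t b (s + 1) ≤ C := by
  induction s with
  | zero => exact fun b e => e b (by simp) le_rfl
  | succ s ih =>
    intro b e
    rw [← a.sup b hs]
    exact sup_le (ih (by omega) b fun j h1 h2 => e j (by omega) h2)
      (ih (by omega) _ fun j h1 h2 => e j (by omega) (by omega))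

omit [Finite G] hp a in
theorem mem {s : ℕ} (hs : s < t) : ∀ b j : ℤ, b - s ≤ j → j ≤ b → sV P h t j 1 ≤ sV P h t b (s + 1) := by
  induction s with
  | zero => exact fun b j h1 h2 => by rw [show j = b by omega]
  | succ s ih =>
    intro b j h1 h2
    rcases h2.eq_or_lt with rfl | h2
    · exact sV_mono _ (by omega)
    · exact (ih (by omega) (b - 1) j (by omega) (by omega)).trans (sV_le b hs)

theorem nrm (ht : 0 < t) (e : cj (sD P h t) h = sD P h t) : P ≤ 𝐍[sD P h t] := by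
  have := a.gen (C := 𝐍[sD P h t]) (s := t - 1) (by omega) 0 fun j _ _ => by
    have h1 := le_norm_of_card (a.pV j 1) (sV_mono j (Nat.zero_le 1)) (a.cV j j ht).le
    have e0 : sV P h t j 0 = sD P h t := by
      rw [sV, Nat.sub_zero, cj_eq_of_mem_normalizer (zpow_mem (cj_eq_self_iff.1 e) j)]
    rwa [e0] at h1
  rwa [sV, show t - (t - 1 + 1) = 0 by omega, zpow_zero, cj_one] at this

theorem cm_mem {i j : ℤ} {s : ℕ} (hs : s + 1 < t) (e : j = i + (s + 1)) {x y : G} (hx : x ∈ sV P h t i 1)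
    (hy : y ∈ sV P h t j 1) : ⁅x, y⁆ ∈ sV P h t (j - 1) s := by
  have x1 := mem (P := P) (h := h) (show s < t by omega) (j - 1) i (by omega) (by omega) hx
  have y1 := mem (P := P) (h := h) (show s < t by omega) j j (by omega) (by omega) hy
  have n1 := le_norm_of_card (a.pV _ _) (sV_le j hs) (a.cV _ _ hs).le
  have n2 := le_norm_of_card (a.pV _ _) (sV_mono j (Nat.le_succ (s + 1))) (a.cV _ _ hs).le
  rw [sV_inf j (show s < t by omega)]
  exact ⟨commutator_le_left_of_le_normalizer n1 (commutator_mem_commutator x1 (sV_mono j (Nat.le_succ _) y1)),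
    commutator_le_right_of_le_normalizer n2 (commutator_mem_commutator (sV_le j hs x1) y1)⟩

end SC

theorem exists_sc (hP : IsPGroup p P) (hi : (P ⊓ cj P h).relIndex (cj P h) = p) :
    ∃ t, 0 < t ∧ SC p t P h ∧ cj (sD P h t) h = sD P h t := by
  classical
  have h1 : ∃ m, cj (sD P h m) h = sD P h m := by
    obtain ⟨m, hm⟩ := WellFoundedLT.antitone_chain_condition (sD_anti (P := P) (h := h))
    have := hm (m + 1) (by omega)
    rw [sD_succ] at this
    exact ⟨m, (eq_of_le_of_card_le (this.le.trans inf_le_right) (card_cj _ _).le).symm⟩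
  refine ⟨Nat.find h1, Nat.pos_of_ne_zero fun e => ?_, ⟨hP, fun m hm => ?_⟩, Nat.find_spec h1⟩
  · have := Nat.find_spec h1
    rw [e] at this
    change cj P h = P at this
    rw [this, inf_idem, relIndex_self] at hi
    exact hp.out.one_lt.ne hi
  have h2 := Nat.find_min h1 hm
  have h3 : sD P h (m + 1) < cj (sD P h m) h := lt_of_le_of_ne inf_le_right fun e =>
    h2 (eq_of_le_of_card_le (e.ge.trans (sD_succ_le m)) (card_cj _ _).ge)
  rw [← card_cj _ h]
  refine le_antisymm ?_ (mul_card_le' ((hP.to_le (sD_anti (Nat.zero_le m))).cj h) h3)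
  rw [← card_mul_relIndex h3.le, mul_comm]
  refine Nat.mul_le_mul_right _ ?_
  rw [inf_relIndex_right] at hi
  rw [sD, inf_relIndex_right, ← hi]
  exact relIndex_le_of_le_right (cj_mono (sD_anti (Nat.zero_le m)) h) (hi ▸ hp.out.ne_zero)

theorem SC.card_eq (a : SC p t P h) (e : sD P h t = ⊥) {s : ℕ} (hs : s ≤ t) (b : ℤ) :
    Nat.card (sV P h t b s) = p ^ s := by
  induction s with
  | zero => simp [sV, e]
  | succ s ih => rw [a.cV b b hs, ih (by omega), pow_succ']

theorem SC.bound (a : SC p t P h) (ht : 0 < t) (e : sD P h t = ⊥) {n : ℕ} (hn : 1 ≤ n)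
    (hK : ∀ x ∈ P, (∀ i ≤ n, x ∈ 𝐂[cj P (h ^ i)]) → x = 1) : t ≤ 3 * n ∧ t ≠ 3 * n - 1 := by
  classical
  obtain ⟨x, hx, x1⟩ := exists_ne_one_of_card ((a.card_eq e ht 0).trans (pow_one p))
  let u : ℤ → G := fun j => h ^ j * x * (h ^ j)⁻¹
  have u1 : ∀ j, sV P h t j 1 = zpowers (u j) := fun j => by
    rw [← cj_zpowers, ← zp_of_card ((a.card_eq e ht 0).trans (pow_one p)) hx x1, sV, sV, zpow_zero, cj_one]
  have u2 : ∀ j, u j ∈ sV P h t j 1 := fun j => u1 j ▸ mem_zpowers _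
  have u3 : ∀ (i j : ℤ) (m : ℕ), j = i + m → (Commute (u i) (u j) ↔ Commute (u 0) (u m)) := fun i j m e => by
    have k : ∀ j, u (i + j) = MulAut.conj (h ^ i) (u j) := fun j => by
      simp only [u, MulAut.conj_apply, zpow_add]; group
    conv_lhs => rw [e, ← add_zero i, k, add_zero, k]
    exact ⟨fun k => Commute.of_map (MulAut.conj (h ^ i)).injective k, fun k => k.map _⟩
  have gen : ∀ {s : ℕ} (_ : s ≤ t) (b : ℤ) (w : G), (∀ j, b - s < j → j ≤ b → Commute (u j) w) →
      ∀ d ∈ sV P h t b s, Commute d w := fun {s} hs b w k d hd => by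
    rcases s with _ | s
    · rw [sV, Nat.sub_zero, e, cj_bot, mem_bot] at hd
      rw [hd]; exact Commute.one_left w
    · exact mem_centralizer_singleton_iff.1 (a.gen (C := centralizer {w}) hs b (fun j h1 h2 => by
        rw [u1, zpowers_le]; exact mem_centralizer_singleton_iff.2 (k j (by omega) h2)) hd)
  have eP : ∀ b : ℤ, sV P h t b t = cj P (h ^ b) := fun b => by rw [sV, Nat.sub_self, sD]
  have cm : ∀ r : ℕ, (∀ m < r, Commute (u 0) (u m)) → ∀ i j : ℤ, i - r < j → j < i + r → Commute (u i) (u j) :=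
    fun r k i j h1 h2 => by
      rcases le_total i j with h3 | h3
      · exact (u3 i j (j - i).toNat (by omega)).2 (k _ (by omega))
      · exact ((u3 j i (i - j).toNat (by omega)).2 (k _ (by omega))).symm
  have up : ∀ r ≤ t, (∀ m < r, Commute (u 0) (u m)) → 2 * r ≤ n + t := fun r hr k => by
    by_contra! hlt
    have m1 := SC.mem (P := P) (h := h) (show t - 1 < t by omega) 0 (n - r + 1) (by omega) (by omega) (u2 _)
    rw [show t - 1 + 1 = t by omega, eP, zpow_zero, cj_one] at m1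
    have := hK _ m1 fun i hi => mem_centralizer_iff.2 fun d hd => gen le_rfl i _
      (fun j h1 h2 => cm r k _ _ (by omega) (by omega)) d (by rwa [eP, zpow_natCast])
    exact x1 (conj_eq_one_iff.1 this)
  by_cases hA : ∀ m < t, Commute (u 0) (u m)
  · have := up t le_rfl hA
    omega
  push Not at hA
  obtain ⟨r1, r2⟩ := Nat.find_spec hA
  have r3 : ∀ m < Nat.find hA, Commute (u 0) (u m) := fun m hm => by
    by_contra k
    exact Nat.find_min hA hm ⟨by omega, k⟩
  generalize Nat.find hA = r at r1 r2 r3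
  have r4 := up r r1.le r3
  have r5 := cm r r3
  obtain ⟨q, rfl⟩ : ∃ q, r = q + 1 := ⟨r - 1, by
    rcases r with _ | r
    · exact absurd (Commute.refl _) r2
    · rfl⟩
  set c := ⁅u 0, u (q + 1 : ℕ)⁆ with hc
  have c1 : c ≠ 1 := fun k => r2 (commutatorElement_eq_one_iff_commute.1 k)
  have c2 : ∃ b : ℕ, b ≤ q ∧ c ∈ sV P h t b b :=
    ⟨q, le_rfl, by
      have := a.cm_mem (i := 0) (j := (q + 1 : ℕ)) r1 (by simp) (u2 _) (u2 _)
      rwa [show ((q + 1 : ℕ) : ℤ) - 1 = q by omega] at this⟩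
  obtain ⟨b1, b2⟩ := Nat.find_spec c2
  have b3 := fun m => Nat.find_min c2 (m := m)
  generalize Nat.find c2 = b at b1 b2 b3
  have c3 : ∃ s : ℕ, s ≤ b ∧ c ∈ sV P h t b s := ⟨b, le_rfl, b2⟩
  obtain ⟨s1, s2⟩ := Nat.find_spec c3
  have s3 := fun m => Nat.find_min c3 (m := m)
  generalize Nat.find c3 = s at s1 s2 s3
  obtain ⟨s, rfl⟩ : ∃ s', s = s' + 1 := ⟨s - 1, by
    rcases s with _ | s
    · rw [sV, Nat.sub_zero, e, cj_bot, mem_bot] at s2
      exact absurd s2 c1
    · rfl⟩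
  have st : s < t := by omega
  have c4 : c ∉ sV P h t b s := fun k => s3 s (by omega) ⟨by omega, k⟩
  have c5 : c ∉ sV P h t (b - 1) s := fun k => b3 (b - 1) (by omega) ⟨by omega, by
    rw [show ((b - 1 : ℕ) : ℤ) = b - 1 by omega]; exact sV_mono _ (by omega) k⟩
  have c6 : ∀ j : ℤ, b - (q + 1) < j → j < b - s + (q + 1) → Commute c (u j) := fun j h1 h2 =>
    gen (show s + 1 ≤ t by omega) b _ (fun i k1 k2 => r5 _ _ (by omega) (by omega)) c s2
  have fin : ∀ (V : Subgroup G) (w : G), V ≤ sV P h t b (s + 1) → Nat.card V = p ^ s → c ∉ V →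
      (∀ d ∈ V, Commute d w) → w * c * w⁻¹ = c → ∀ d ∈ sV P h t b (s + 1), Commute d w := fun V w k1 k2 k3 k4 k5 d hd => by
    rw [← sup_zp_of_card (a.pV _ _) k1 (by rw [k2, a.card_eq e st, pow_succ']) s2 k3] at hd
    exact mem_centralizer_singleton_iff.1 (sup_le (fun y hy => mem_centralizer_singleton_iff.2 (k4 y hy))
      (zpowers_le.2 (mem_centralizer_singleton_iff.2 (mul_inv_eq_iff_eq_mul.1 k5).symm)) hd)
  have A : t ≤ b - s + (q + 1) := by
    by_contra! k
    set w := u (b - s + (q + 1))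
    have d1 := a.cm_mem (i := 0) (j := b - s + (q + 1)) (s := b - s + q) (by omega) (by omega) (u2 _) (u2 _)
    have d2 := gen (by omega) _ (u (q + 1 : ℕ)) (fun j k1 k2 => r5 _ _ (by omega) (by omega)) _ d1
    have d3 := gen (by omega) _ c (fun j k1 k2 => (c6 _ (by omega) (by omega)).symm) _ d1
    have d4 : Commute w (u (q + 1 : ℕ)) := r5 _ _ (by omega) (by omega)
    refine r2 ((u3 (b - s) (b - s + (q + 1)) (q + 1) (by omega)).1 (fin _ w (sV_mono _ (Nat.le_succ s))
      (a.card_eq e st.le _) c4 (gen st.le _ _ fun j k1 k2 => r5 _ _ (by omega) (by omega)) ?_ _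
      (SC.mem st _ _ le_rfl (by omega) (u2 _))))
    calc w * c * w⁻¹ = ⁅⁅u 0, w⁆⁻¹ * u 0, w * u (q + 1 : ℕ) * w⁻¹⁆ := by
          rw [hc, conjugate_commutatorElement]; congr 1; simp only [commutatorElement_def]; group
      _ = ⁅u 0, w⁆⁻¹ * c * ⁅u 0, w⁆ * ⁅⁅u 0, w⁆⁻¹, u (q + 1 : ℕ)⁆ := by
          rw [d4.eq, mul_inv_cancel_right, hc]; generalize ⁅u 0, w⁆ = d; simp only [commutatorElement_def]; group
      _ = c := by
          rw [commutatorElement_eq_one_iff_commute.2 d2.inv_left, mul_one, mul_assoc, ← d3.eq, inv_mul_cancel_left]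
  have B : t ≤ 2 * (q + 1) - b := by
    by_contra! k
    set w := u (b - (q + 1))
    have d1 := a.cm_mem (i := b - (q + 1)) (j := (q + 1 : ℕ)) (s := 2 * q + 1 - b) (by omega) (by omega) (u2 _) (u2 _)
    have d2 := gen (by omega) _ (u 0) (fun j k1 k2 => r5 _ _ (by omega) (by omega)) _ d1
    have d3 := gen (by omega) _ c (fun j k1 k2 => (c6 _ (by omega) (by omega)).symm) _ d1
    have d4 : Commute w (u 0) := r5 _ _ (by omega) (by omega)
    refine r2 ((u3 (b - (q + 1)) b (q + 1) (by omega)).1 (fin _ w (sV_le _ st)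
      (a.card_eq e st.le _) c5 (gen st.le _ _ fun j k1 k2 => r5 _ _ (by omega) (by omega)) ?_ _
      (SC.mem st _ _ (by omega) le_rfl (u2 _))).symm)
    calc w * c * w⁻¹ = ⁅w * u 0 * w⁻¹, ⁅w, u (q + 1 : ℕ)⁆ * u (q + 1 : ℕ)⁆ := by
          rw [hc, conjugate_commutatorElement]; congr 1; simp only [commutatorElement_def]; group
      _ = ⁅⁅w, u (q + 1 : ℕ)⁆, u 0⁆⁻¹ * (⁅w, u (q + 1 : ℕ)⁆ * c) * ⁅w, u (q + 1 : ℕ)⁆⁻¹ := by
          rw [d4.eq, mul_inv_cancel_right, hc]; generalize ⁅w, u (q + 1 : ℕ)⁆ = d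
          simp only [commutatorElement_def]; group
      _ = c := by
          rw [commutatorElement_eq_one_iff_commute.2 d2, inv_one, one_mul, d3.eq, mul_inv_cancel_right]
  omega

theorem sims (hN : cj P h ≤ 𝐍[(P ⊓ cj P h : Subgroup G)]) (hi : (P ⊓ cj P h).relIndex (cj P h) = p) {n : ℕ}
    (hn : 1 ≤ n) (h1 : ∀ Q ≤ P, P ≤ 𝐍[Q] → cj Q h = Q → Q = ⊥)
    (hK : ∀ x ∈ P, (∀ i ≤ n, x ∈ 𝐂[cj P (h ^ i)]) → x = 1) :
    ∃ t : ℕ, Nat.card P = p ^ t ∧ 1 ≤ t ∧ t ≤ 3 * n ∧ t ≠ 3 * n - 1 := by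
  have hP : IsPGroup p P := pResidualOf_eq_bot_iff.1 (h1 _ (pResidualOf_le _ _) (le_normalizer_pResidualOf _ _) (by
    rw [cj_pResidualOf]
    refine eq_of_le_of_card_le ?_ (by rw [← cj_pResidualOf, card_cj])
    rw [← pResidualOf_eq_of_le (K := P ⊓ cj P h) (PGrpMod.pResidualOf_le fun x hx => ⟨1, ?_⟩) inf_le_right]
    · exact pResidualOf_mono inf_le_left
    · haveI := normal_subgroupOf_of_le_normalizer hN
      rw [pow_one, ← hi]
      exact pow_index_mem (H := (P ⊓ cj P h).subgroupOf (cj P h)) ⟨x, hx⟩))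
  obtain ⟨t, ht, a, e⟩ := exists_sc hP hi
  have e' := h1 _ (sD_anti (Nat.zero_le t)) (a.nrm ht e) e
  refine ⟨t, ?_, ht, a.bound ht e' hn hK⟩
  rw [← a.card_eq e' le_rfl 0, sV, Nat.sub_self, card_cj, sD]

end Cfsg.Agent.L0
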