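import Cfsg.Agent.L0.PresSLn
import Cfsg.Agent.L0.PresA5

/-! Bounded presentations of `SL_n(q)`, `n ≥ 3`. -/

set_option autoImplicit false

namespace Cfsg.Agent.L0

open Subgroup Matrix
open Equiv (Perm swap)
open Equiv.Perm (sign)

universe u

variable {F : Type u} [Field F] {T : Type} [Group T] {n : ℕ}

def pmat (F : Type u) [Field F] (σ : T →* Perm (Fin n)) (h : ∀ τ, sign (σ τ) ^ (n + 1) = 1) :
    T →* SpecialLinearGroup (Fin n) F where
  toFun τ := ⟨(((sign (σ τ) : ℤˣ) : ℤ) : F) • permMatrixHom (σ τ), by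
    rw [det_smul, permMatrixHom_apply, det_permutation, Equiv.Perm.sign_inv, Fintype.card_fin, ← pow_succ,
      ← Int.cast_pow, ← Units.val_pow_eq_pow_val, h]; simp⟩
  map_one' := Subtype.ext (by simp)
  map_mul' a b := Subtype.ext (by
    change _ = (_ • permMatrixHom _) * (_ • permMatrixHom _); simp [smul_smul, mul_comm])

theorem pmat_conj {σ : T →* Perm (Fin n)} {h : ∀ τ, sign (σ τ) ^ (n + 1) = 1} (τ : T)
    {A B : SpecialLinearGroup (Fin n) F} (e : ∀ i j, B.val (σ τ i) (σ τ j) = A.val i j) :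
    pmat F σ h τ * A * (pmat F σ h τ)⁻¹ = B := by
  rw [mul_inv_eq_iff_eq_mul]
  apply Subtype.ext
  rw [sl_mul, sl_mul]
  change (_ • permMatrixHom (σ τ)) * _ = _ * (_ • permMatrixHom (σ τ))
  rw [smul_mul, Matrix.mul_smul, permMatrixHom_apply, PEquiv.toMatrix_toPEquiv_mul, PEquiv.mul_toMatrix_toPEquiv]
  congr 1
  ext i j
  exact (e ((σ τ)⁻¹ i) j).symm.trans (by simp; rfl)

theorem pmat_X {σ : T →* Perm (Fin n)} {h : ∀ τ, sign (σ τ) ^ (n + 1) = 1} (τ : T) (i j : Fin n) (a : F) :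
    pmat F σ h τ * Xn i j a * (pmat F σ h τ)⁻¹ = Xn (σ τ i) (σ τ j) a := by
  by_cases e : i = j
  · simp [Xn, e]
  refine pmat_conj τ fun p q => ?_
  rw [Xnv e, Xnv ((σ τ).injective.ne e)]
  simp [transvection, one_apply, single_apply]

theorem pmat_D {σ : T →* Perm (Fin n)} {h : ∀ τ, sign (σ τ) ^ (n + 1) = 1} (τ : T) (i j : Fin n) (z : Fˣ) :
    pmat F σ h τ * Dn i j z * (pmat F σ h τ)⁻¹ = Dn (σ τ i) (σ τ j) z := by
  refine pmat_conj τ fun p q => ?_
  rw [Dnv, Dnv]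
  simp [diagonal_apply, dn, Pi.mulSingle_apply]

theorem s3_pres : ∃ g : Fin 2 → Perm (Fin 3), Pres g 2 := by
  refine ⟨![swap 0 1, swap 0 1 * swap 0 2], Pres.intro [FreeGroup.of 0 ^ 2,
    FreeGroup.of 0 * FreeGroup.of 1 * (FreeGroup.of 0)⁻¹ * (FreeGroup.of 1 ^ 2)⁻¹] le_rfl ?_ ?_ ?_⟩
  · rw [eq_top_iff, ← Equiv.Perm.closure_isSwap, closure_le]
    have a : swap 0 1 ∈ closure (Set.range ![swap (0 : Fin 3) 1, swap 0 1 * swap 0 2]) := subset_closure ⟨0, rfl⟩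
    have b : swap 0 1 * swap 0 2 ∈ closure (Set.range ![swap (0 : Fin 3) 1, swap 0 1 * swap 0 2]) :=
      subset_closure ⟨1, rfl⟩
    have : ∀ x y : Fin 3, x ≠ y → swap x y = swap 0 1 ∨ swap x y = swap 0 1 * (swap 0 1 * swap 0 2) ∨
      swap x y = swap 0 1 * swap 0 2 * swap 0 1 := by decide
    rintro _ ⟨x, y, h, rfl⟩
    rcases this x y h with e | e | e <;> rw [e]
    exacts [a, mul_mem a b, mul_mem b a]
  · simp only [List.mem_cons, List.not_mem_nil, or_false, or_imp, forall_and, forall_eq, map_pow, map_mul,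
      map_inv, FreeGroup.lift_apply_of]
    decide
  · intro H _ g π b1 b2 b3
    simp only [List.mem_cons, List.not_mem_nil, or_false, or_imp, forall_and, forall_eq, map_pow, map_mul,
      map_inv, FreeGroup.lift_apply_of, mul_inv_eq_one] at b3
    obtain ⟨r1, r2⟩ := b3
    have r3 : g 1 ^ 3 = 1 := by
      have : g 0 ^ 2 * g 1 * (g 0 ^ 2)⁻¹ = g 1 ^ 3 * g 1 := by
        rw [← pow_succ, show 3 + 1 = 2 * 2 from rfl, pow_mul, ← r2, conj_pow, ← r2, sq]; group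
      simpa [r1] using this.symm
    refine fin2 π (zpowers (g 1)) (g 0) ?_ ?_ ?_ (by rw [← sq, r1]; exact one_mem _)
      (Or.inr (by rw [b1]; decide)) b2 ?_
    · rintro _ ⟨k, rfl⟩; simp [b1]
    · rintro _ ⟨k, rfl⟩ e
      simp only [map_zpow, b1, ← orderOf_dvd_iff_zpow_eq_one] at e
      haveI := Fact.mk Nat.prime_three
      rw [orderOf_eq_prime (p := 3) (by decide) (by decide)] at e
      obtain ⟨l, rfl⟩ := e
      simp only
      rw [_root_.zpow_mul, zpow_natCast, r3, _root_.one_zpow]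
    · rintro _ ⟨k, rfl⟩; simp only; rw [← conj_zpow, r2]; exact zpow_mem (pow_mem (mem_zpowers _) _) _
    · rintro _ ⟨i, rfl⟩
      fin_cases i
      exacts [Or.inr (by simp), Or.inl (mem_zpowers _)]

theorem inj3 {α : Type} {i j k : α} (a : i ≠ j) (b : i ≠ k) (c : j ≠ k) : Function.Injective ![i, j, k] := by
  intro p q; fin_cases p <;> fin_cases q <;> simp [*, a.symm, b.symm, c.symm]

theorem sl3_pres [Finite F] : ∃ g : Fin 2 ⊕ Fin 2 → SpecialLinearGroup (Fin 3) F, Pres g 14 := by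
  have h : ∀ i j : Fin 3, ∃ τ : Perm (Fin 3), i ≠ j → τ 0 = i ∧ τ 1 = j := by decide
  choose s hs using h
  obtain ⟨g, hg⟩ := s3_pres
  exact SLD.pres (F := F) {
    σ := MonoidHom.id _, i0 := 0, i1 := 1, i2 := 2, h01 := by decide, h02 := by decide, h12 := by decide,
    s := s, s0 := fun i j e => (hs i j e).1, s1 := fun i j e => (hs i j e).2,
    ρ := pmat F _ fun τ => by rcases Int.units_eq_one_or (sign τ) with e | e <;> simp [e]; rfl,
    hX := pmat_X, hD := pmat_D, Lc := [], c1 := by simp,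
    c2 := fun τ a b => by
      have : ∀ τ : Perm (Fin 3), τ 0 = 0 → τ 1 = 1 → τ = 1 := by decide
      rw [this τ a b]; exact one_mem _
    Lb := [], b1 := by simp, b2 := by decide, ta := by decide, tb := by decide,
    L3 := [(0, 1, 2, 0), (0, 1, 2, 1), (0, 1, 2, 2)], t1 := by decide,
    t2 := fun i j k a b c => Or.inl fun d hd => by
      obtain ⟨τ, h⟩ := Equiv.Perm.exists_extending_pair ![0, 1, 2] _ (by decide) (inj3 a b c)
      exact ⟨τ, (0, 1, 2, d), by interval_cases d <;> simp, h 0, h 1, h 2, rfl⟩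
    L4 := [], f1 := by simp, f2 := by decide, τ0 := swap 0 1,
    k1 := by
      rw [eq_top_iff, ← Equiv.Perm.closure_isSwap, closure_le]
      rintro _ ⟨x, y, h, rfl⟩
      exact conjugatesOfSet_subset_normalClosure (Group.mem_conjugatesOfSet_iff.2
        ⟨_, rfl, Equiv.Perm.isConj_swap (by decide) h⟩) } le_rfl hg

theorem exA {α : Type} [Fintype α] [DecidableEq α] {m : ℕ} (x y : Fin m → α) (hx : Function.Injective x)
    (hy : Function.Injective y) {u v : α} (h : u ≠ v) : ∃ τ : alternatingGroup α,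
      (∀ a, τ.1 (x a) = y a) ∨ ∀ a, τ.1 (swap u v (x a)) = y a := by
  obtain ⟨σ, hσ⟩ := Equiv.Perm.exists_extending_pair x y hx hy
  rcases Int.units_eq_one_or (sign σ) with e | e
  · exact ⟨⟨σ, e⟩, Or.inl hσ⟩
  · exact ⟨⟨σ * swap u v, by simp [e, h]⟩, Or.inr (by simpa using hσ)⟩

theorem inj4 {α : Type} {i j k l : α} (a : i ≠ j) (b : i ≠ k) (c : i ≠ l) (d : j ≠ k) (e : j ≠ l) (f : k ≠ l) :
    Function.Injective ![i, j, k, l] := by
  intro p q; fin_cases p <;> fin_cases q <;> simp [*, a.symm, b.symm, c.symm, d.symm, e.symm, f.symm]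

theorem alt_nc {α : Type} [Fintype α] [DecidableEq α] {p q o : α} (hpq : p ≠ q) (h1 : o ≠ p) (h2 : o ≠ q) :
    normalClosure {(⟨c3 p q o, c3_sign h1.symm hpq⟩ : alternatingGroup α)} = ⊤ := by
  obtain ⟨a, ε, a1, a2, -, a4⟩ := exists_cyc hpq ((Finset.univ.erase p).erase q) (by simp) (by simp) 1
  have := alt_le hpq (L := (normalClosure {(⟨c3 p q o, c3_sign h1.symm hpq⟩ : alternatingGroup α)}).map
    (alternatingGroup α).subtype) Set.univ fun i _ b c => by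
      obtain ⟨k, -, e⟩ := a4.exists_pow_eq (a := o) (b := i) (by simp [h1, h2]) (by simp [b, c])
      rw [← e, ← (xx_c3 hpq h1 h2 a2 k).2.2]
      refine ⟨xx ⟨a, a1⟩ ⟨c3 p q o, c3_sign h1.symm hpq⟩ ε k, ?_, xx_map _ _ _ _ _⟩
      rw [xx]
      exact normalClosure_normal.conj_mem _ (zpow_mem (subset_normalClosure (Set.mem_singleton _)) _) _
  rw [eq_top_iff]; intro σ _
  exact (mem_map_iff_mem (subtype_injective _)).1 (this (show σ.1 ∈ _ from ⟨σ.2, by simp⟩))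

theorem alt_sld [Finite F] {i0 i1 i2 i3 : Fin n} (h01 : i0 ≠ i1) (h02 : i0 ≠ i2) (h03 : i0 ≠ i3)
    (h12 : i1 ≠ i2) (h13 : i1 ≠ i3) (h23 : i2 ≠ i3) (Lc : List (alternatingGroup (Fin n)))
    (c1 : ∀ τ ∈ Lc, τ.1 i0 = i0 ∧ τ.1 i1 = i1)
    (c2 : ∀ τ : alternatingGroup (Fin n), τ.1 i0 = i0 → τ.1 i1 = i1 → τ ∈ closure {τ | τ ∈ Lc})
    (L : List (Fin n)) (b1 : ∀ k ∈ L, k ≠ i0 ∧ k ≠ i1)
    (b2 : ∀ i j k, i ≠ j → i ≠ k → j ≠ k → ∃ τ : alternatingGroup (Fin n), τ.1 i0 = i ∧ τ.1 i1 = j ∧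
      ∃ k' ∈ i2 :: L, τ.1 k' = k) {ι : Type} {τ : ι → alternatingGroup (Fin n)} {r : ℕ} (hT : Pres τ r) :
    ∃ g : ι ⊕ Fin 2 → SpecialLinearGroup (Fin n) F, Pres g (r + (12 + 2 * L.length + 2 * Lc.length)) := by
  have h4 : 4 ≤ n := by simpa using Fintype.card_le_of_injective _ (inj4 h01 h02 h03 h12 h13 h23)
  have ex : ∀ i j k : Fin n, ∃ l, l ≠ i ∧ l ≠ j ∧ l ≠ k := fun i j k => by
    obtain ⟨l, -, h⟩ := Finset.exists_mem_notMem_of_card_lt_card (s := {i, j, k}) (t := Finset.univ)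
      (Finset.card_le_three.trans_lt (by simp; omega))
    exact ⟨l, by simpa using h⟩
  have h : ∀ i j : Fin n, ∃ τ : alternatingGroup (Fin n), i ≠ j → τ.1 i0 = i ∧ τ.1 i1 = j := fun i j => by
    by_cases e : i = j
    · exact ⟨1, fun a => absurd e a⟩
    obtain ⟨l, a, b, -⟩ := ex i j j
    exact (b2 i j l e a.symm b.symm).imp fun _ c _ => ⟨c.1, c.2.1⟩
  choose s hs using h
  refine (SLD.pres (F := F) {
    σ := (alternatingGroup _).subtype, i0 := i0, i1 := i1, i2 := i2, h01 := h01, h02 := h02, h12 := h12,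
    s := s, s0 := fun i j e => (hs i j e).1, s1 := fun i j e => (hs i j e).2,
    ρ := pmat F _ fun τ => by rw [show sign ((alternatingGroup _).subtype τ) = 1 from τ.2, one_pow],
    hX := pmat_X, hD := pmat_D, Lc := Lc, c1 := c1, c2 := c2, Lb := L, b1 := b1,
    b2 := fun k a b => b2 i0 i1 k h01 a.symm b.symm, ta := fun i j k a b c => ?_, tb := fun i j k a b c => ?_,
    L3 := (i2 :: L).map fun k => (i0, i1, k, 0), t1 := ?_, t2 := fun i j k a b c => Or.inr ⟨?_, ex i j k⟩,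
    L4 := [(i0, i1, i2, i3), (i0, i1, i3, i2)], f1 := by simp [*, h12.symm, h23.symm], f2 := fun i j k l a b c d e f => ?_,
    τ0 := _, k1 := alt_nc h01 h02.symm h12.symm } (by omega) hT).imp fun _ a => a.mono (by simp; omega)
  · obtain ⟨τ, h | h⟩ := exA _ _ (inj3 h01 h02 h12) (inj3 a b c) h02
    · exact ⟨τ, h 1, Or.inl ⟨h 0, h 2⟩⟩
    · exact ⟨τ, by simpa [Equiv.swap_apply_of_ne_of_ne h01.symm h12] using h 1,
        Or.inr ⟨by simpa using h 2, by simpa using h 0⟩⟩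
  · obtain ⟨τ, h | h⟩ := exA _ _ (inj3 h01 h02 h12) (inj3 a b c) h12
    · exact ⟨τ, h 0, Or.inl ⟨h 1, h 2⟩⟩
    · exact ⟨τ, by simpa [Equiv.swap_apply_of_ne_of_ne h01 h02] using h 0,
        Or.inr ⟨by simpa using h 2, by simpa using h 1⟩⟩
  · simp only [List.mem_map, forall_exists_index, and_imp, forall_apply_eq_imp_iff₂, List.mem_cons]
    rintro k (rfl | e)
    exacts [⟨h01, h02, h12⟩, ⟨h01, (b1 k e).1.symm, (b1 k e).2.symm⟩]
  · obtain ⟨τ, u, v, k', w, z⟩ := b2 i j k a b c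
    exact ⟨τ, _, List.mem_map.2 ⟨k', w, rfl⟩, u, v, z, rfl⟩
  · obtain ⟨τ, h | h⟩ := exA _ _ (inj4 h01 h02 h03 h12 h13 h23) (inj4 a b c d e f) h23
    · exact ⟨τ, _, List.mem_cons_self, h 0, h 1, h 2, h 3⟩
    · exact ⟨τ, (i0, i1, i3, i2), by simp, by simpa [Equiv.swap_apply_of_ne_of_ne h02 h03] using h 0,
        by simpa [Equiv.swap_apply_of_ne_of_ne h12 h13] using h 1, by simpa using h 2, by simpa using h 3⟩

theorem sl4_pres [Finite F] : ∃ g : Fin 2 ⊕ Fin 2 → SpecialLinearGroup (Fin 4) F, Pres g 18 := by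
  obtain ⟨g, hg⟩ := (small6 4 (by omega)).2
  refine alt_sld (i0 := 0) (i1 := 1) (i2 := 2) (i3 := 3) (by decide) (by decide) (by decide) (by decide)
    (by decide) (by decide) [] (by simp) (fun τ a b => ?_) [3] (by decide) (fun i j k a b c => ?_) hg
  · have : ∀ τ : Perm (Fin 4), sign τ = 1 → τ 0 = 0 → τ 1 = 1 → τ = 1 := by decide
    rw [show τ = 1 from Subtype.ext (this _ τ.2 a b)]; exact one_mem _
  · obtain ⟨τ, h | h⟩ := exA ![0, 1, 2] _ (by decide) (inj3 a b c) (u := 2) (v := 3) (by decide)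
    · exact ⟨τ, h 0, h 1, 2, by simp, h 2⟩
    · exact ⟨τ, h 0, h 1, 3, by simp, h 2⟩

theorem sln_pres [Finite F] (hn : 5 ≤ n) {ι : Type} {τ : ι → alternatingGroup (Fin n)} {r : ℕ} (hT : Pres τ r) :
    ∃ g : ι ⊕ Fin 2 → SpecialLinearGroup (Fin n) F, Pres g (r + 16) := by
  obtain ⟨i0, i1, i2, i3, i4, h01, h02, h03, h04, h12, h13, h14, h23, h24, h34⟩ : ∃ i0 i1 i2 i3 i4 : Fin n,
      i0 ≠ i1 ∧ i0 ≠ i2 ∧ i0 ≠ i3 ∧ i0 ≠ i4 ∧ i1 ≠ i2 ∧ i1 ≠ i3 ∧ i1 ≠ i4 ∧ i2 ≠ i3 ∧ i2 ≠ i4 ∧ i3 ≠ i4 :=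
    ⟨⟨0, by omega⟩, ⟨1, by omega⟩, ⟨2, by omega⟩, ⟨3, by omega⟩, ⟨4, by omega⟩, by simp⟩
  obtain ⟨A, A1, A2⟩ := exists_gen (o := i4) h23 (Finset.univ \ {i0, i1, i2, i3}) (by simp) (by simp)
    (by simp [h04.symm, h14.symm, h24.symm, h34.symm])
  refine alt_sld h01 h02 h03 h12 h13 h23 [⟨A, A1.1⟩, ⟨c3 i2 i3 i4, c3_sign h24 h23⟩] ?_ (fun τ a b => ?_) []
    (by simp) (fun i j k a b c => ?_) hT
  · simp only [List.mem_cons, List.not_mem_nil, or_false, forall_eq_or_imp, forall_eq]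
    exact ⟨⟨A1.2 _ (by simp [*]), A1.2 _ (by simp [*])⟩, c3_fix h02 h03 h04, c3_fix h12 h13 h14⟩
  · refine (mem_map_iff_mem (subtype_injective _)).1 (alt_le h23 {t | t ≠ i0 ∧ t ≠ i1} (fun i hi u v =>
      A2 _ (mem_map_of_mem (alternatingGroup _).subtype (x := ⟨A, A1.1⟩) (subset_closure (by simp)))
        (mem_map_of_mem (alternatingGroup _).subtype (x := ⟨c3 i2 i3 i4, c3_sign h24 h23⟩) (subset_closure (by simp))) i (by simp [hi.1, hi.2, u, v]))
      ⟨τ.2, fun t ht => ?_⟩)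
    by_cases e : t = i0
    · rw [e]; exact a
    · rw [show t = i1 by simpa [e] using ht]; exact b
  · obtain ⟨τ, h | h⟩ := exA _ _ (inj3 h01 h02 h12) (inj3 a b c) h34
    · exact ⟨τ, h 0, h 1, i2, by simp, h 2⟩
    · exact ⟨τ, by simpa [Equiv.swap_apply_of_ne_of_ne h03 h04] using h 0,
        by simpa [Equiv.swap_apply_of_ne_of_ne h13 h14] using h 1, i2, by simp,
        by simpa [Equiv.swap_apply_of_ne_of_ne h23 h24] using h 2⟩

theorem Pres.psl [Finite F] {ι : Type} {g : ι → SpecialLinearGroup (Fin n) F} {r : ℕ} (h : Pres g r) :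
    ∃ g : ι → ProjectiveSpecialLinearGroup (Fin n) F, Pres g (r + 1) := by
  haveI : NeZero (max (Fintype.card (Fin n)) 1) := ⟨by omega⟩
  haveI := isCyclic_of_surjective _ (SpecialLinearGroup.center_equiv_rootsOfUnity (n := Fin n) (R := F)).symm.surjective
  obtain ⟨z, hz⟩ := IsCyclic.exists_generator (α := center (SpecialLinearGroup (Fin n) F))
  refine ⟨_, h.quot (QuotientGroup.mk' (center _)) (QuotientGroup.mk'_surjective _) [z.1] ?_⟩
  rw [QuotientGroup.ker_mk']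
  refine le_antisymm (fun x hx => ?_) (normalClosure_le_normal (by simp))
  obtain ⟨k, e⟩ := hz ⟨x, hx⟩
  rw [show x = z.1 ^ k from (congrArg Subtype.val e).symm]
  exact zpow_mem (subset_normalClosure (by simp)) _

end Cfsg.Agent.L0
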