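import Cfsg.Agent.L0.HS1
import Cfsg.Agent.S0405
import Cfsg.Agent.S0430
import Cfsg.Agent.S1583
import Cfsg.Agent.S1584

/-! The Higman–Sims group as a group of automorphisms of the graph on `100` vertices. -/

set_option autoImplicit false

namespace Cfsg.Agent.L0.HS

open Cfsg LL SimpleGraph MulAction
open scoped Classical

theorem nv : sqNorm ((-Vv : L) : V) = 48 := by decide +kernel
theorem nw : sqNorm ((Vv + U' : L) : V) = 48 := by decide +kernel
theorem nvw : dotInt ((-Vv : L) : V) ((Vv + U' : L) : V) = -32 := by decide +kernel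

theorem mem_KH {g : Co0} : g ∈ KH ↔ g • -Vv = -Vv ∧ g • (Vv + U') = Vv + U' := by
  simp only [Subgroup.mem_inf, mem_stabilizer_iff, smul_add, smul_neg, neg_inj]
  exact and_congr_right fun a => by rw [a, add_right_inj]

/-- the hundred vectors -/
def X : SubMulAction KH L where
  carrier := {x | sqNorm (x : V) = 32 ∧ dotInt ((-Vv : L) : V) x = 24 ∧ dotInt ((Vv + U' : L) : V) x = -24}
  smul_mem' g x hx := by
    obtain ⟨h1, h2⟩ := mem_KH.1 g.2
    refine ⟨(sqNorm_co g.1 x).trans hx.1, ?_, ?_⟩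
    · rw [← hx.2.1, ← dot_co g.1 _ x, h1]; rfl
    · rw [← hx.2.2, ← dot_co g.1 _ x, h2]; rfl

/-- the graph on the hundred vectors -/
def Γ : SimpleGraph X where
  Adj x y := dotInt ((x : L) : V) (y : L) = 8
  symm := ⟨fun x y h => (dot_comm _ _).trans h⟩
  loopless := ⟨fun x h => by
    have := x.2.1
    rw [sqNorm_eq_dot, h] at this
    omega⟩

theorem Γ_smul (g : KH) (x y : X) : Γ.Adj (g • x) (g • y) ↔ Γ.Adj x y :=
  Iff.of_eq (congrArg (· = 8) (dot_co g.1 x y))

theorem exists_hom {W : Type*} [Fintype W] {H : SimpleGraph W} [DecidableRel H.Adj]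
    (hH : H.IsSRGWith 100 22 0 6) : ∃ φ : KH →* (H ≃g H), Function.Injective φ := by
  obtain ⟨h1, h2⟩ := S1583.result _ _ nv nw nvw
  have : Fintype X := (Set.finite_of_ncard_ne_zero (h1.trans_ne (by norm_num))).fintype
  have hc : Fintype.card X = 100 := by rw [← h1, ← Nat.card_eq_fintype_card]; rfl
  have : IsPretransitive KH X := ⟨fun x y =>
    let ⟨g, a, b, c⟩ := h2 x x.2 y y.2; ⟨⟨g, mem_KH.2 ⟨a, b⟩⟩, Subtype.ext c⟩⟩
  obtain ⟨a, b, hab⟩ := Fintype.exists_pair_of_one_lt_card (show 1 < Fintype.card X by omega)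
  obtain ⟨h3, -, h4⟩ := S1584.result _ _ a nv nw nvw a.2
  obtain ⟨e⟩ := S0430.result (rank3 Γ_smul hc a (by
    rw [← h3, ← card_neighborSet_eq_degree, ← Nat.card_eq_fintype_card, Nat.card_coe_set_eq,
      ← Set.ncard_image_of_injective _ Subtype.val_injective]
    congr 1
    ext y
    exact ⟨fun ⟨z, hz, e⟩ => e ▸ ⟨z.2, hz⟩, fun hy => ⟨⟨y, hy.1⟩, hy.2, rfl⟩⟩) fun y y' e e' hh =>
      let ⟨g, a1, a2, a3, a4⟩ := h4 y y.2 y' y'.2 (fun h => e (Subtype.ext h)) (fun h => e' (Subtype.ext h)) hh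
      ⟨⟨g, mem_KH.2 ⟨a1, a2⟩⟩, Subtype.ext a3, Subtype.ext a4⟩) hH
  refine ⟨(autCongr e).toMonoidHom.comp (toAut Γ_smul), (autCongr e).injective.comp ?_⟩
  rcases simple_KH.eq_bot_or_eq_top_of_normal (toAut Γ_smul).ker inferInstance with h | h
  · exact (MonoidHom.ker_eq_bot_iff _).1 h
  · obtain ⟨g, rfl⟩ := exists_smul_eq KH a b
    exact absurd (DFunLike.congr_fun (show toAut Γ_smul g = 1 from (h ▸ Subgroup.mem_top g :
      g ∈ (toAut Γ_smul).ker)) a).symm hab

theorem card_aut {W : Type*} [Fintype W] {H : SimpleGraph W} [DecidableRel H.Adj]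
    (hH : H.IsSRGWith 100 22 0 6) : Nat.card (H ≃g H) = 88704000 := by
  obtain ⟨v⟩ : Nonempty W := Fintype.card_pos_iff.1 (hH.card ▸ by omega)
  obtain ⟨B, a1, a2, e, -⟩ := srg_pt hH v
  rw [← Nat.card_congr (autCongr e).toEquiv, card_pbg a1 a2]

theorem iso_HS {W G : Type*} [Fintype W] {H : SimpleGraph W} [DecidableRel H.Adj] [Group G]
    (hH : H.IsSRGWith 100 22 0 6) (ψ : G →* (H ≃g H)) (hψ : Function.Injective ψ)
    (hG : Nat.card G = 44352000) : Spor.IsoHS G := by
  obtain ⟨φ, hφ⟩ := exists_hom hH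
  have h0 := card_aut hH
  have : Finite (H ≃g H) := Nat.finite_of_card_ne_zero (h0.trans_ne (by norm_num))
  have h1 : Nat.card ψ.range = 44352000 := (Nat.card_congr (MonoidHom.ofInjective hψ).toEquiv).symm.trans hG
  have h2 : Nat.card φ.range = 44352000 :=
    (Nat.card_congr (MonoidHom.ofInjective hφ).toEquiv).symm.trans card_KH
  have h3 := ψ.range.index_mul_card
  rw [h0, h1] at h3
  have h4 : ψ.range.index = 2 := by omega
  have := Subgroup.normal_of_index_eq_two h4
  have := simple_KH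
  have := (MonoidHom.ofInjective hφ).symm.isSimpleGroup
  rcases this.eq_bot_or_eq_top_of_normal (ψ.range.subgroupOf φ.range) inferInstance with h | h
  · have h5 := Subgroup.relIndex_dvd_index_of_normal ψ.range φ.range
    rw [Subgroup.relIndex, h, Subgroup.index_bot, h2, h4] at h5
    omega
  · have h5 := Subgroup.eq_of_le_of_card_ge (Subgroup.subgroupOf_eq_top.1 h) (h1.trans h2.symm).le
    exact ⟨((MonoidHom.ofInjective hψ).trans (MulEquiv.subgroupCongr h5.symm)).trans
      ((MonoidHom.ofInjective hφ).symm.trans sporHS.symm)⟩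

variable {G Ω : Type*} [Group G] [MulAction G Ω]

theorem ncard_sub_smul (g : G) (x y : Ω) :
    (orbit (stabilizer G (g • x)) (g • y)).ncard = (orbit (stabilizer G x) y).ncard := by
  rw [← Set.ncard_image_of_injective (orbit (stabilizer G x) y) (MulAction.injective g)]
  congr 1
  ext z
  refine ⟨fun ⟨k, hk⟩ => ⟨_, ⟨⟨g⁻¹ * k * g, ?_⟩, rfl⟩, ?_⟩, fun ⟨_, ⟨k, rfl⟩, e⟩ =>
    ⟨⟨g * k * g⁻¹, ?_⟩, ?_⟩⟩
  · rw [mem_stabilizer_iff, mul_smul, mul_smul, show (k : G) • g • x = g • x from k.2, inv_smul_smul]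
  · simpa [mul_smul, Subgroup.smul_def] using hk
  · rw [mem_stabilizer_iff, mul_smul, mul_smul, inv_smul_smul, show (k : G) • x = x from k.2]
  · simpa [mul_smul, Subgroup.smul_def] using e

theorem ncard_sub_comm [IsPretransitive G Ω] [Finite Ω] (x y : Ω) :
    (orbit (stabilizer G x) y).ncard = (orbit (stabilizer G y) x).ncard := by
  have h : ∀ x y : Ω, (orbit (stabilizer G x) y).ncard * Nat.card Ω =
      (stabilizer G y ⊓ stabilizer G x).index := fun x y => by
    rw [← index_stabilizer, ← index_stabilizer_of_transitive G x, ← Subgroup.relIndex_mul_index inf_le_right,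
      Subgroup.inf_relIndex_right]
    rfl
  have : Nonempty Ω := ⟨x⟩
  exact Nat.eq_of_mul_eq_mul_right Nat.card_pos ((h x y).trans (inf_comm (stabilizer G y) _ ▸ (h y x).symm))

/-- the orbital graph of valency `k` -/
def orbG (G Ω : Type*) [Group G] [MulAction G Ω] [IsPretransitive G Ω] [Finite Ω] (k : ℕ) : SimpleGraph Ω where
  Adj x y := x ≠ y ∧ (orbit (stabilizer G x) y).ncard = k
  symm := ⟨fun x y h => ⟨h.1.symm, (ncard_sub_comm y x).trans h.2⟩⟩
  loopless := ⟨fun _ h => h.1 rfl⟩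

theorem orbG_smul [IsPretransitive G Ω] [Finite Ω] (k : ℕ) (g : G) (x y : Ω) :
    (orbG G Ω k).Adj (g • x) (g • y) ↔ (orbG G Ω k).Adj x y := by
  simp only [orbG, ne_eq, smul_left_cancel_iff, ncard_sub_smul]

theorem orb_cover [Fintype Ω] {a b c : Ω} {k l : ℕ} (hΩ : Fintype.card Ω = 1 + k + l) (h1 : k ≠ 1) (h2 : l ≠ 1)
    (h3 : k ≠ l) (hb : (orbit (stabilizer G a) b).ncard = k) (hc : (orbit (stabilizer G a) c).ncard = l)
    {y : Ω} (hy : y ≠ a) : y ∈ orbit (stabilizer G a) b ∨ y ∈ orbit (stabilizer G a) c := by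
  have ha : orbit (stabilizer G a) a = {a} := Set.eq_singleton_iff_unique_mem.2
    ⟨mem_orbit_self a, fun _ ⟨g, e⟩ => e ▸ g.2⟩
  have hd : ∀ u v : Ω, (orbit (stabilizer G a) u).ncard ≠ (orbit (stabilizer G a) v).ncard →
      Disjoint (orbit (stabilizer G a) u) (orbit (stabilizer G a) v) := fun u v h =>
    (orbit.eq_or_disjoint u v).resolve_left fun e => h (by rw [e])
  have h4 := Set.eq_of_subset_of_ncard_le (Set.subset_univ (orbit (stabilizer G a) a ∪
    (orbit (stabilizer G a) b ∪ orbit (stabilizer G a) c))) (by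
      rw [Set.ncard_union_eq (Set.disjoint_union_right.2 ⟨hd a b (by simpa [ha, hb] using h1.symm),
        hd a c (by simpa [ha, hc] using h2.symm)⟩), Set.ncard_union_eq (hd b c (by rwa [hb, hc])),
        Set.ncard_univ, Nat.card_eq_fintype_card, hΩ, ha, hb, hc, Set.ncard_singleton, add_assoc])
  have h5 := h4 ▸ Set.mem_univ y
  rw [ha] at h5
  exact h5.resolve_left hy

theorem orbG_srg [Fintype Ω] [IsPretransitive G Ω] {a b c : Ω} (hΩ : Fintype.card Ω = 100)
    (hb : (orbit (stabilizer G a) b).ncard = 22) (hc : (orbit (stabilizer G a) c).ncard = 77) :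
    (orbG G Ω 22).IsSRGWith 100 22 0 6 := by
  have h1 := fun y => orb_cover (G := G) (y := y) hΩ (by norm_num) (by norm_num) (by norm_num) hb hc
  have h2 : ∀ y, (orbG G Ω 22).Adj a y ↔ y ∈ orbit (stabilizer G a) b := fun y => by
    refine ⟨fun h => (h1 y h.1.symm).resolve_right fun e => ?_, fun h => ⟨?_, ?_⟩⟩
    · have := h.2
      rw [orbit_eq_iff.2 e, hc] at this
      omega
    · rintro rfl
      rw [← orbit_eq_iff.2 h, Set.eq_singleton_iff_unique_mem.2
        ⟨mem_orbit_self a, fun _ ⟨g, e⟩ => e ▸ g.2⟩, Set.ncard_singleton] at hb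
      omega
    · rw [orbit_eq_iff.2 h, hb]
  refine rank3 (orbG_smul 22) hΩ a ?_ fun y y' e e' hh => ?_
  · rw [← card_neighborSet_eq_degree, ← Nat.card_eq_fintype_card, Nat.card_coe_set_eq]
    exact (congrArg _ (Set.ext h2)).trans hb
  · rw [h2, h2] at hh
    have h3 : ∀ u, y ∈ orbit (stabilizer G a) u → y' ∈ orbit (stabilizer G a) u →
        ∃ g : G, g • a = a ∧ g • y = y' := fun u a1 a2 => by
      obtain ⟨g, hg⟩ := (orbit_eq_iff.2 a1).symm ▸ a2
      exact ⟨g, g.2, hg⟩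
    by_cases h4 : y ∈ orbit (stabilizer G a) b
    · exact h3 b h4 (hh.1 h4)
    · exact h3 c ((h1 y e).resolve_left h4) ((h1 y' e').resolve_left (mt hh.2 h4))

end Cfsg.Agent.L0.HS
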