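import Cfsg.Agent.L0.Torus
import Cfsg.Agent.L0.FXs
import Cfsg.Agent.H12.DicksonSL
import Cfsg.Agent.H26.ES2

/-!
# Groups with an extraspecial Sylow subgroup of order `p ^ 3` and exponent `p`
-/

set_option autoImplicit false

namespace Cfsg.Agent.L0

open Subgroup Cfsg.Agent.H24
open scoped commutatorElement IsMulCommutative MatrixGroups Pointwise Matrix

section pgl

open Cfsg.Agent.H12

variable {F : Type*} [Field F] [Finite F] (p : ℕ) [hp : Fact p.Prime] [CharP F p] {H : Subgroup PGL(2, F)}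

theorem pgl_alt (h : ¬ p ∣ Nat.card H) : (∀ t ∈ H, ∀ u ∈ H, t ^ 2 ≠ 1 → u ^ 2 ≠ 1 → Commute t u) ∨
    ((∀ t ∈ H, t ^ 3 = 1 ∨ t ^ 4 = 1 ∨ t ^ 5 = 1) ∧
      ∃ a b c : PGL(2, F), ∀ t ∈ H, t ^ 4 = 1 → t ^ 2 = 1 ∨ t ^ 2 = a ∨ t ^ 2 = b ∨ t ^ 2 = c) := by
  have key : ∀ {K : Type} [Group K] (e : H ≃* K), (∀ t : K, t ^ 3 = 1 ∨ t ^ 4 = 1 ∨ t ^ 5 = 1) →
      (∃ a b c : K, ∀ t : K, t ^ 4 = 1 → t ^ 2 = 1 ∨ t ^ 2 = a ∨ t ^ 2 = b ∨ t ^ 2 = c) →
      (∀ t ∈ H, t ^ 3 = 1 ∨ t ^ 4 = 1 ∨ t ^ 5 = 1) ∧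
      ∃ a b c : PGL(2, F), ∀ t ∈ H, t ^ 4 = 1 → t ^ 2 = 1 ∨ t ^ 2 = a ∨ t ^ 2 = b ∨ t ^ 2 = c := by
    intro K _ e h1 ⟨a, b, c, h2⟩
    have k : ∀ t (ht : t ∈ H) (n : ℕ) (x : K), e ⟨t, ht⟩ ^ n = x ↔ t ^ n = e.symm x := fun t ht n x => by
      rw [← map_pow, ← e.eq_symm_apply, Subtype.ext_iff]; rfl
    refine ⟨fun t ht => by simpa [k] using h1 (e ⟨t, ht⟩), e.symm a, e.symm b, e.symm c, fun t ht h4 => ?_⟩
    simpa [k] using h2 (e ⟨t, ht⟩) (by simpa [k] using h4)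
  rcases dickson_pgl2 p H with ⟨x, -, h2⟩ | ⟨h1, -⟩ | ⟨a, s, h1, -⟩ | ⟨h1, h2⟩ | ⟨E, k, -, -, h1⟩
  · obtain ⟨⟨g, h3, h4⟩, h5⟩ := ne_bot_iff_exists_ne_one.1 h2
    exact absurd (orderOf_eq_prime ((mem_unip_iff p).1 h4).2 (fun e => h5 (Subtype.ext e)) ▸
      H.orderOf_dvd_natCard h3) h
  · refine Or.inl fun t ht u hu _ _ => ?_
    letI := h1.commGroup
    exact congrArg Subtype.val (mul_comm (⟨t, ht⟩ : H) ⟨u, hu⟩)
  · refine Or.inl fun t ht u hu h2 h3 => ?_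
    obtain ⟨i, rfl⟩ := (h1.mem_zpowers_or ht).resolve_right (pow_two t ▸ h2)
    obtain ⟨j, rfl⟩ := (h1.mem_zpowers_or hu).resolve_right (pow_two u ▸ h3)
    exact Commute.zpow_zpow_self a i j
  · right
    have h3 : Nat.card H = 12 ∨ Nat.card H = 24 ∨ Nat.card H = 60 := by tauto
    rcases h3 with h3 | h3 | h3
    · obtain ⟨e⟩ := h1.equiv_alt4 h3
      exact key e (by decide +kernel) ⟨1, 1, 1, by decide +kernel⟩
    · obtain ⟨e⟩ := h1.equiv_perm4 h3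
      exact key e (by decide +kernel) ⟨Equiv.swap 0 1 * Equiv.swap 2 3, Equiv.swap 0 2 * Equiv.swap 1 3,
        Equiv.swap 0 3 * Equiv.swap 1 2, by decide +kernel⟩
    · obtain ⟨e⟩ := h1.equiv_alt5 h3
      exact key e (by decide +kernel) ⟨1, 1, 1, by decide +kernel⟩
  · refine absurd ((Dvd.dvd.trans ?_ card_dvd_card_PSL2).trans (card_subPSL_dvd h1)) h
    have := Fintype.ofFinite E
    rw [Nat.card_eq_fintype_card]
    exact (CharP.cast_eq_zero_iff E p _).1 (FiniteField.cast_card_eq_zero E)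

omit hp [Finite F] in
theorem pgl_comm_fix {t u : PGL(2, F)} {x : P1 F} (h : Commute t u) (h1 : t ≠ 1) (hx : t • x = x) :
    u ^ 2 • x = x := by
  have k : ∀ y : P1 F, t • y = y → t • u • y = u • y := fun y hy => by rw [smul_smul, h.eq, mul_smul, hy]
  rw [pow_two, mul_smul]
  by_contra h2
  refine h1 (pgl_eq_one_of_fix (x := x) (y := u • x) (z := u • u • x) (fun e => h2 ?_) (Ne.symm h2)
    (fun e => h2 ?_) hx (k _ hx) (k _ (k _ hx)))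
  · rw [← e, ← e]
  · rw [← e, ← smul_left_cancel u e]

theorem pgl_three (h : ¬ p ∣ Nat.card H) {x y z : P1 F} (hxy : x ≠ y) (hxz : x ≠ z) (hyz : y ≠ z)
    {t u v : PGL(2, F)} (ht : t ∈ H) (hu : u ∈ H) (hv : v ∈ H) (h1 : t • x = x) (h2 : u • y = y) (h3 : v • z = z)
    (k1 : t ^ 2 ≠ 1) (k2 : u ^ 2 ≠ 1) (k3 : v ^ 2 ≠ 1) :
    (∀ t ∈ H, t ^ 3 = 1 ∨ t ^ 4 = 1 ∨ t ^ 5 = 1) ∧
      ∃ a b c : PGL(2, F), ∀ t ∈ H, t ^ 4 = 1 → t ^ 2 = 1 ∨ t ^ 2 = a ∨ t ^ 2 = b ∨ t ^ 2 = c := by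
  refine (pgl_alt p h).resolve_left fun k => k1 (pgl_eq_one_of_fix hxy hxz hyz ?_ ?_ ?_)
  · rw [pow_two, mul_smul, h1, h1]
  · exact pgl_comm_fix (k u hu t ht k2 k1) (fun e => k2 (by rw [e, one_pow])) h2
  · exact pgl_comm_fix (k v hv t ht k3 k1) (fun e => k3 (by rw [e, one_pow])) h3

end pgl

variable {G : Type*} [Group G] {p : ℕ} {N P V W U Z : Subgroup G} {a g v w : G} [hp : Fact p.Prime] [Finite G]

theorem torusS [nV : V.Normal] (hN : SylIn p N ⊤) (hV : V ≤ 𝐂[V]) (hc : Nat.card V = p ^ 2)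
    (he : ∀ x ∈ V, x ^ p = 1) (hU : U ≤ V) (hU' : Nat.card U = p) (h1 : N ≤ 𝐍[U]) (ha : ¬ N ≤ 𝐂[V])
    (hn : ¬ U.Normal) {d l : ℕ} (hl : p ∣ (d + 1) * l + d) : ∃ t ∈ 𝐍[N], ∃ w ∈ V, w ∉ U ∧
      t * w * t⁻¹ * (w ^ (d + 1))⁻¹ ∈ U ∧ ∃ v ∈ U, v ≠ 1 ∧ t * v * t⁻¹ = v ^ (l + 1) := by
  obtain ⟨a, ha, ha'⟩ := SetLike.not_le_iff_exists.1 ha
  obtain ⟨v, hv, hv'⟩ := exists_not_mem_of_card (U := U) (V := ⊥) (by rw [hU', card_bot]; exact hp.out.one_lt)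
  rw [mem_bot] at hv'
  obtain rfl := eq_zpowers_of_card hU' hv hv'
  have pV : IsPGroup p V := IsPGroup.of_card hc
  have c1 := cm_le_of_card pV hN.pgrp (le_top.trans (top_le_normalizer V)) h1 hU (by rw [hc, hU', sq])
  have c2 := cm_le_of_card (IsPGroup.of_card (n := 1) (by simpa using hU')) hN.pgrp h1
    (le_top.trans (top_le_normalizer ⊥)) bot_le (by simp [hU'])
  have ta : Tv p V V a v := ⟨fun x hx => hU (c1 (commutator_mem_commutator hx ha)),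
    fun x hx => c1 (commutator_mem_commutator hx ha), hU hv, he v (hU hv),
    cm_eq_one.1 (mem_bot.1 (c2 (commutator_mem_commutator hv ha)))⟩
  obtain ⟨g, hg⟩ : ∃ g, g * v * g⁻¹ ∉ zpowers v := by
    by_contra! hh
    exact hn ⟨by rintro _ ⟨k, rfl⟩ g; exact conj_zpow (a := g) ▸ zpow_mem (hh g) k⟩
  have tb := ta.conj g
  set w := g * v * g⁻¹
  set b := g * a * g⁻¹
  have e1 : V = zpowers v ⊔ zpowers w := eq_sup_zpowers_of_card pV hU (by rw [hc, hU', sq]) tb.mem hg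
  have cV : ∀ x, Commute x v → Commute x w → x ∈ 𝐂[V] := fun x h3 h4 => by
    rw [e1, centralizer_sup, centralizer_zpowers, centralizer_zpowers]
    exact ⟨mem_centralizer_singleton_iff.2 h3, mem_centralizer_singleton_iff.2 h4⟩
  have n1 : ¬ Commute a w := fun e => ha' (cV a ta.comm e)
  have n2 : ¬ Commute b v := fun e => ha' (by
    simpa [b, mul_assoc] using (inferInstance : Normal 𝐂[V]).conj_mem _ (cV b e tb.comm) g⁻¹)
  obtain ⟨k, hk⟩ := ta.exists_conj tb.mem n1 1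
  obtain ⟨i, hi⟩ := tb.exists_conj ta.mem n2 d
  obtain ⟨j, hj⟩ := tb.exists_conj ta.mem n2 l
  have c : Commute v w := hV tb.mem v ta.mem
  have A1 : MulAut.conj (a ^ k) v = v := by
    rw [MulAut.conj_apply, (ta.comm.zpow_left k).eq, mul_inv_cancel_right]
  have B1 : ∀ i : ℤ, MulAut.conj (b ^ i) w = w := fun i => by
    rw [MulAut.conj_apply, (tb.comm.zpow_left i).eq, mul_inv_cancel_right]
  have A2 : MulAut.conj (a ^ k) w = v * w := by rw [zpow_one] at hk; exact hk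
  have B2 : MulAut.conj (b ^ i) v = w ^ d * v := by rw [zpow_natCast] at hi; exact hi
  have B3 : MulAut.conj (b ^ j) v = w ^ l * v := by rw [zpow_natCast] at hj; exact hj
  have e : ∀ x, (b ^ i * a ^ k * b ^ j) * x * (b ^ i * a ^ k * b ^ j)⁻¹ =
      MulAut.conj (b ^ i) (MulAut.conj (a ^ k) (MulAut.conj (b ^ j) x)) := fun x => by
    simp only [MulAut.conj_apply]; group
  have e2 : w ^ d * v * w = v * w ^ (d + 1) := by rw [← (c.pow_right d).eq, mul_assoc, pow_succ]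
  obtain ⟨m, hm⟩ := hl
  have t1 : (b ^ i * a ^ k * b ^ j) * v * (b ^ i * a ^ k * b ^ j)⁻¹ = v ^ (l + 1) := by
    rw [e, B3, map_mul, map_pow, A1, A2, map_mul, map_pow, map_mul, B1, B2, e2, (c.pow_right _).mul_pow, ← pow_mul,
      mul_assoc, ← mul_assoc (w ^ ((d + 1) * l)), ← pow_add, hm, pow_mul, tb.pow, one_pow, one_mul, pow_succ]
  have t2 : (b ^ i * a ^ k * b ^ j) * w * (b ^ i * a ^ k * b ^ j)⁻¹ = v * w ^ (d + 1) := by
    rw [e, B1, A2, map_mul, B1, B2, e2]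
  generalize b ^ i * a ^ k * b ^ j = t at t1 t2
  have t3 : zpowers t ≤ 𝐍[zpowers v] := zpowers_le.2 (mem_normalizer_of_conj_mem (by
    rintro _ ⟨n, rfl⟩; exact conj_zpow (a := t) ▸ zpow_mem (t1 ▸ pow_mem hv _) n))
  obtain ⟨n, hn1, y, hy, rfl⟩ := (hN.of_le (le_inf (le_centMod_iff.2 ⟨h1, c1⟩)
    (le_centralizer_iff.1 (commutator_eq_bot_iff_le_centralizer.1 (le_bot_iff.1 c2)))) le_top).frattini
    (le_normalizer_inf (le_normalizer_centMod (le_top.trans (top_le_normalizer V)) t3)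
      (le_normalizer_centralizer t3) (mem_zpowers t))
  refine ⟨y, hy, w, tb.mem, hg, ?_, v, hv, hv', ?_⟩
  · have m : v * w ^ (d + 1) ∈ V := mul_mem ta.mem (pow_mem tb.mem _)
    have : y * w * y⁻¹ * (w ^ (d + 1))⁻¹ = ⁅v * w ^ (d + 1), n⁻¹⁆⁻¹ * v := by
      have : y * w * y⁻¹ = n⁻¹ * (v * w ^ (d + 1)) * n := by rw [← t2]; group
      rw [this, commutatorElement_def]; group
    rw [this]
    exact mul_mem (inv_mem (((centMod V _).inv_mem hn1.1).2 _ m)) hv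
  · have : y * v * y⁻¹ = n⁻¹ * (v ^ (l + 1) * n) := by rw [← t1]; group
    rw [this, mem_centralizer_iff.1 hn1.2 _ (pow_mem hv _), inv_mul_cancel_left]

/-- `P` is an extraspecial Sylow subgroup of order `p ^ 3` and exponent `p` with centre `Z`. -/
structure XP (p : ℕ) (P Z : Subgroup G) : Prop where
  syl : SylIn p P ⊤
  card : Nat.card P = p ^ 3
  exp : ∀ x ∈ P, x ^ p = 1
  cZ : Nat.card Z = p
  eqZ : P ⊓ 𝐂[P] = Z
  cm : ⁅P, P⁆ = Z

/-- The automizer of `V` moves `Z`. -/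
def Mv (Z V : Subgroup G) : Prop := ∃ g ∈ 𝐍[V], ∃ z ∈ Z, g * z * g⁻¹ ∉ Z

omit [Finite G] in
theorem ab_of_sq (hc : Nat.card V = p ^ 2) : V ≤ 𝐂[V] := fun x hx => mem_centralizer_iff.2 fun y hy =>
  congrArg Subtype.val ((IsPGroup.isMulCommutative_of_card_eq_prime_sq hc).is_comm.comm (⟨y, hy⟩ : V) ⟨x, hx⟩)

namespace XP

variable (h : XP p P Z)
include h

omit hp [Finite G] in
theorem le : Z ≤ P := h.eqZ ▸ inf_le_left

omit hp [Finite G] in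
theorem cen : Z ≤ 𝐂[P] := h.eqZ ▸ inf_le_right

omit hp [Finite G] in
theorem nrm : 𝐍[P] ≤ 𝐍[Z] := h.cm ▸ le_normalizer_commutator le_rfl le_rfl

omit hp [Finite G] in
theorem cm_mem {x y : G} (hx : x ∈ P) (hy : y ∈ P) : ⁅x, y⁆ ∈ Z := h.cm ▸ commutator_mem_commutator hx hy

omit [Finite G] in
theorem na : ¬ P ≤ 𝐂[P] := fun e => by
  have := h.cZ
  rw [← h.eqZ, inf_eq_left.2 e, h.card] at this
  exact (Nat.pow_lt_pow_right hp.out.one_lt (show 1 < 3 by omega)).ne' (by simpa using this)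

theorem nC (h1 : V ≤ P) (hc : Nat.card V = p ^ 2) : ¬ P ≤ 𝐂[V] := fun e => by
  obtain ⟨x, hx, hx'⟩ := exists_not_mem_of_card (U := P) (V := V)
    (by rw [hc, h.card]; exact Nat.pow_lt_pow_right hp.out.one_lt (by omega))
  have := H23.LF.sup_zp_comm (ab_of_sq hc) (e hx)
  rw [← eq_sup_zpowers_of_card h.syl.pgrp h1 (by rw [hc, h.card, ← pow_succ']) hx hx'] at this
  exact h.na this

theorem Z_le (h1 : V ≤ P) (hc : Nat.card V = p ^ 2) : Z ≤ V := fun z hz => by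
  by_contra hz'
  refine h.nC h1 hc ?_
  rw [eq_sup_zpowers_of_card h.syl.pgrp h1 (by rw [hc, h.card, ← pow_succ']) (h.le hz) hz']
  exact sup_le (ab_of_sq hc) (zpowers_le.2 (centralizer_le h1 (h.cen hz)))

theorem le_n (h1 : V ≤ P) (hc : Nat.card V = p ^ 2) : P ≤ 𝐍[V] :=
  le_normalizer_of_commutator_le h1 (h.cm.le.trans (h.Z_le h1 hc))

theorem card_sup (hw : w ∈ P) (hw' : w ∉ Z) : Nat.card (Z ⊔ zpowers w : Subgroup G) = p ^ 2 := by
  rw [H3.card_sup_zpowers (h.nrm (le_normalizer hw)) hw' (h.exp w hw ▸ one_mem _), h.cZ, sq]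

omit hp [Finite G] in
theorem hom (hw : w ∈ P) : H23.HomOn P fun a => ⁅a, w⁆ := fun a ha b hb => by
  have h1 := mem_centralizer_iff.1 (h.cen (h.cm_mem hb hw)) a ha
  have h2 := mem_centralizer_iff.1 (h.cen (h.cm_mem hb hw)) _ (h.le (h.cm_mem ha hw))
  calc ⁅a * b, w⁆ = a * ⁅b, w⁆ * a⁻¹ * ⁅a, w⁆ := by simp only [commutatorElement_def]; group
    _ = _ := by rw [h1, mul_inv_cancel_right, h2]

theorem tor (h1 : V ≤ P) (hc : Nat.card V = p ^ 2) (hm : Mv Z V) {d l : ℕ} (hl : p ∣ (d + 1) * l + d) :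
    ∃ y ∈ 𝐍[P], ∃ w ∈ V, w ∉ Z ∧ y * w * y⁻¹ * (w ^ (d + 1))⁻¹ ∈ Z ∧ ∃ u ∈ P, u ∉ V ∧ ∃ z ∈ Z, ∃ c μ : ℤ,
      y * u * y⁻¹ = z * w ^ c * u ^ μ ∧ ((d + 1 : ℕ) : ZMod p) * μ = (l + 1 : ℕ) := by
  have n1 := h.le_n h1 hc
  have z1 := h.Z_le h1 hc
  have cc : ∀ A ≤ 𝐍[V], Nat.card (A.subgroupOf 𝐍[V]) = Nat.card A := fun A a =>
    Nat.card_congr (subgroupOfEquivOfLe a).toEquiv
  obtain ⟨t, t1, w, w1, w2, w3, v, v1, v2, v3⟩ := torusS (G := 𝐍[V]) (N := P.subgroupOf _) (V := V.subgroupOf _)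
    (U := Z.subgroupOf _) (by simpa using (h.syl.of_le n1 le_top).subgroupOf le_rfl)
    (fun x hx => mem_centralizer_iff.2 fun y hy => Subtype.ext (mem_centralizer_iff.1 (ab_of_sq hc hx) _ hy))
    (by rw [cc _ le_normalizer, hc]) (fun x hx => Subtype.ext (h.exp _ (h1 hx))) (fun _ hx => z1 hx)
    (by rw [cc _ (z1.trans le_normalizer), h.cZ])
    (fun x hx => mem_normalizer_of_conj_mem fun y hy => (mem_normalizer_iff.1 (h.nrm (le_normalizer hx)) _).1 hy)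
    (fun e => h.nC h1 hc fun x hx => mem_centralizer_iff.2 fun y hy => congrArg Subtype.val
      (mem_centralizer_iff.1 (e (x := ⟨x, n1 hx⟩) hx) ⟨y, le_normalizer hy⟩ hy))
    (fun e => by
      obtain ⟨g, hg, z, hz, k⟩ := hm
      exact k (e.conj_mem ⟨z, le_normalizer (z1 hz)⟩ hz ⟨g, hg⟩)) hl
  have t2 : (t : G) ∈ 𝐍[P] := mem_normalizer_of_conj_mem fun y hy =>
    (mem_normalizer_iff.1 t1 ⟨y, n1 hy⟩).1 hy
  have v4 : (t : G) * v * (t : G)⁻¹ = v ^ (l + 1) := congrArg Subtype.val v3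
  have v5 : (v : G) ≠ 1 := fun e => v2 (Subtype.ext e)
  have w4 : (t : G) * w * (t : G)⁻¹ * ((w : G) ^ (d + 1))⁻¹ ∈ Z := w3
  replace w1 : (w : G) ∈ V := w1
  replace w2 : (w : G) ∉ Z := w2
  replace v1 : (v : G) ∈ Z := v1
  clear w3 v3 v2 t1
  generalize (t : G) = y at *
  generalize (w : G) = w at *
  generalize (v : G) = v at *
  obtain ⟨u, hu, hu'⟩ := exists_not_mem_of_card (U := P) (V := V)
    (by rw [hc, h.card]; exact Nat.pow_lt_pow_right hp.out.one_lt (by omega))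
  have e1 := eq_sup_zpowers_of_card h.syl.pgrp h1 (by rw [hc, h.card, ← pow_succ']) hu hu'
  have e2 := eq_sup_zpowers_of_card (h.syl.pgrp.to_le h1) z1 (by rw [hc, h.cZ, sq]) w1 w2
  obtain ⟨a, ha, μ, e3⟩ := H23.LF.mem_sup_zp (n1 hu) (e1.le ((mem_normalizer_iff.1 t2 u).1 hu))
  obtain ⟨z, hz, c, rfl⟩ := H23.LF.mem_sup_zp (h.nrm (le_normalizer (h1 w1))) (e2.le ha)
  refine ⟨y, t2, w, w1, w2, w4, u, hu, hu', z, hz, c, μ, e3, ?_⟩
  have hw := h1 w1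
  have k0 : ∀ z ∈ Z, ∀ x ∈ P, ⁅z, x⁆ = 1 := fun z hz x hx => cm_eq_one.2 (mem_centralizer_iff.1 (h.cen hz) x hx)
  have k1 : ⁅u, w⁆ ≠ 1 := fun e => h.nC h1 hc (by
    rw [e1, e2]
    refine sup_le (e2 ▸ ab_of_sq hc) (zpowers_le.2 ?_)
    rw [centralizer_sup, centralizer_zpowers]
    exact ⟨le_centralizer_iff.1 h.cen hu, mem_centralizer_singleton_iff.2 (cm_eq_one'.1 e)⟩)
  obtain ⟨k, hk⟩ := exists_zpow_of_card h.cZ v1 v5 (h.cm_mem hu hw)
  have k2 : y * ⁅u, w⁆ * y⁻¹ = ⁅u, w⁆ ^ (l + 1) := by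
    rw [hk, ← conj_zpow, v4, ← zpow_natCast, ← zpow_natCast, zpow_comm]
  have k3 : y * ⁅u, w⁆ * y⁻¹ = ⁅u, w⁆ ^ (((d + 1 : ℕ) : ℤ) * μ) := by
    have m1 := zpow_mem hu μ
    have m2 := mul_mem (h.le hz) (zpow_mem hw c)
    have m3 := mul_mem m2 m1
    rw [conjugate_commutatorElement, e3, ← inv_mul_cancel_right (y * w * y⁻¹) (w ^ (d + 1)),
      ← commutatorElement_inv, (h.hom m3).map_mul (h.le w4) (pow_mem hw _), k0 _ w4 _ m3, one_mul,
      (h.hom m3).map_pow hw, ← inv_pow, commutatorElement_inv, (h.hom hw).map_mul m2 m1,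
      (h.hom hw).map_mul (h.le hz) (zpow_mem hw c), k0 _ hz _ hw, (h.hom hw).map_zpow hw, (h.hom hw).map_zpow hu,
      commutatorElement_self, one_zpow, one_mul, one_mul, ← zpow_natCast, ← zpow_mul, mul_comm]
  have := (zpow_eq_zpow_iff_modEq.1 (k3.symm.trans (k2.trans (zpow_natCast _ _).symm)))
  rw [orderOf_eq_prime (h.exp _ (h.le (h.cm_mem hu hw))) k1] at this
  exact_mod_cast (ZMod.intCast_eq_intCast_iff _ _ p).2 this

theorem exists_coord : ∃ θ : G → Fin 2 → ZMod p, (∀ x ∈ P, ∀ y ∈ P, θ (x * y) = θ x + θ y) ∧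
    (∀ x ∈ P, θ x = 0 ↔ x ∈ Z) ∧ ∀ a, ∃ x ∈ P, θ x = a := by
  classical
  haveI : (Z.subgroupOf P).Normal := normal_subgroupOf_of_le_normalizer (le_normalizer.trans h.nrm)
  haveI : IsMulCommutative (P ⧸ Z.subgroupOf P) := ⟨⟨fun a b => by
    obtain ⟨a, rfl⟩ := QuotientGroup.mk_surjective a
    obtain ⟨b, rfl⟩ := QuotientGroup.mk_surjective b
    refine QuotientGroup.eq.2 ?_
    simpa [commutatorElement_def, mul_assoc, mem_subgroupOf] using h.cm_mem (inv_mem b.2) (inv_mem a.2)⟩⟩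
  obtain ⟨n, ⟨e⟩⟩ := H26.exists_hom_pi (p := p) (P ⧸ Z.subgroupOf P) fun a => by
    obtain ⟨a, rfl⟩ := QuotientGroup.mk_surjective a
    rw [← QuotientGroup.mk_pow, show a ^ p = 1 from Subtype.ext (h.exp _ a.2), QuotientGroup.mk_one]
  obtain rfl : n = 2 := by
    have h1 : Z.relIndex P = p ^ n := by
      change Nat.card (P ⧸ Z.subgroupOf P) = _
      rw [Nat.card_congr e.toEquiv]
      simp
    have h2 := card_mul_relIndex h.le
    rw [h1, h.cZ, h.card, ← pow_succ'] at h2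
    have := Nat.pow_right_injective hp.out.two_le h2
    omega
  refine ⟨fun x => if hx : x ∈ P then (e (⟨x, hx⟩ : P)).toAdd else 0, fun x hx y hy => ?_, fun x hx => ?_, fun a => ?_⟩
  · simp only [dif_pos hx, dif_pos hy, dif_pos (mul_mem hx hy)]
    rw [← toAdd_mul, ← map_mul]
    rfl
  · simp only [dif_pos hx]
    rw [toAdd_eq_zero, map_eq_one_iff _ e.injective, QuotientGroup.eq_one_iff, mem_subgroupOf]
  · obtain ⟨x, hx⟩ := e.surjective (Multiplicative.ofAdd a)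
    obtain ⟨x, rfl⟩ := QuotientGroup.mk_surjective x
    exact ⟨x, x.2, by simp only [dif_pos x.2]; rw [Subtype.coe_eta, hx]; rfl⟩

theorem exists_pgl : ∃ (H : Subgroup PGL(2, ZMod p)) (θ : G → Fin 2 → ZMod p), ¬ p ∣ Nat.card H ∧
    (∀ x ∈ P, θ x = 0 ↔ x ∈ Z) ∧ (∀ a, ∃ x ∈ P, θ x = a) ∧
    (∀ x ∈ P, ∀ y ∈ P, ∀ c : ZMod p, θ y = c • θ x → y ∈ Z ⊔ zpowers x) ∧
    ∀ w ∈ P, ∀ hw : θ w ≠ 0, Mv Z (Z ⊔ zpowers w) → ∃ t ∈ H, t • Projectivization.mk (ZMod p) (θ w) hw =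
      Projectivization.mk (ZMod p) (θ w) hw ∧ ∀ k, t ^ k = 1 → p - 1 ∣ 3 * k := by
  obtain ⟨θ, a1, a2, a3⟩ := h.exists_coord
  have hh : H23.HomOn P fun x => Multiplicative.ofAdd (θ x) := fun x hx y hy => by
    simp only [a1 x hx y hy, ofAdd_add]
  have a4 : ∀ x ∈ P, ∀ k : ℤ, θ (x ^ k) = (k : ZMod p) • θ x := fun x hx k => by
    rw [Int.cast_smul_eq_zsmul]; exact hh.map_zpow hx k
  have a5 : ∀ x ∈ P, θ x⁻¹ = - θ x := fun x hx => hh.map_inv hx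
  have a6 : ∀ x ∈ P, ∀ y ∈ P, θ x = θ y ↔ x⁻¹ * y ∈ Z := fun x hx y hy => by
    rw [← a2 _ (mul_mem (inv_mem hx) hy), a1 _ (inv_mem hx) _ hy, a5 x hx, neg_add_eq_zero]
  have a7 : ∀ x ∈ P, ∀ y ∈ P, ∀ c : ZMod p, θ y = c • θ x → y ∈ Z ⊔ zpowers x := fun x hx y hy c e => by
    rw [← ZMod.intCast_zmod_cast c, ← a4 x hx, eq_comm, a6 _ (zpow_mem hx _) _ hy] at e
    rw [← mul_inv_cancel_left (x ^ (c.cast : ℤ)) y]
    exact mul_mem (mem_sup_right (zpow_mem_zpowers _ _)) (mem_sup_left e)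
  have cm : ∀ y ∈ 𝐍[P], ∀ x ∈ P, y * x * y⁻¹ ∈ P := fun y hy x hx => (mem_normalizer_iff.1 hy x).1 hx
  let R : G → Matrix (Fin 2) (Fin 2) (ZMod p) → Prop := fun y M => ∀ x ∈ P, θ (y * x * y⁻¹) = M *ᵥ θ x
  have r1 : ∀ y ∈ 𝐍[P], ∃ M, R y M := fun y hy => by
    choose σ s1 s2 using a3
    have k : ∀ x ∈ P, θ (y * σ (θ x) * y⁻¹) = θ (y * x * y⁻¹) := fun x hx => by
      rw [a6 _ (cm y hy _ (s1 _)) _ (cm y hy _ hx)]
      have := (mem_normalizer_iff.1 (h.nrm hy) _).1 ((a6 _ (s1 _) _ hx).1 (s2 (θ x)))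
      simpa [mul_assoc] using this
    let f : (Fin 2 → ZMod p) →+ (Fin 2 → ZMod p) := AddMonoidHom.mk' (fun a => θ (y * σ a * y⁻¹)) fun a b => by
      rw [← a1 _ (cm y hy _ (s1 _)) _ (cm y hy _ (s1 _)), conj_mul, ← k _ (mul_mem (s1 a) (s1 b)),
        a1 _ (s1 a) _ (s1 b), s2, s2]
    refine ⟨LinearMap.toMatrix' (f.toZModLinearMap p), fun x hx => ?_⟩
    rw [LinearMap.toMatrix'_mulVec]
    exact (k x hx).symm
  have r2 : ∀ y ∈ 𝐍[P], ∀ y' ∈ 𝐍[P], ∀ M M', R y M → R y' M' → R (y * y') (M * M') :=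
    fun y _ y' hy' M M' b1 b2 x hx => by
      rw [← Matrix.mulVec_mulVec, ← b2 x hx, ← b1 _ (cm _ hy' x hx)]
      congr 1
      group
  have r3 : ∀ y ∈ P, ∀ M, R y M → M = 1 := fun y hy M b => Matrix.ext_of_mulVec_single fun i => by
    obtain ⟨x, hx, e⟩ := a3 (Pi.single i 1)
    rw [← e, ← b x hx, Matrix.one_mulVec, a1 _ (mul_mem hy hx) _ (inv_mem hy), a1 _ hy _ hx, a5 y hy,
      add_neg_cancel_comm]
  let H₀ : Subgroup (GL (Fin 2) (ZMod p)) :=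
    { carrier := {g | ∃ y ∈ 𝐍[P], R y g}
      one_mem' := ⟨1, one_mem _, fun x _ => by simp⟩
      mul_mem' := fun ⟨y, hy, b⟩ ⟨y', hy', b'⟩ => ⟨y * y', mul_mem hy hy', r2 y hy y' hy' _ _ b b'⟩
      inv_mem' := fun {g} ⟨y, hy, b⟩ => ⟨y⁻¹, inv_mem hy, fun x hx => by
        have := b _ (cm _ (inv_mem hy) x hx)
        rw [show y * (y⁻¹ * x * y⁻¹⁻¹) * y⁻¹ = x by group] at this
        rw [this, Matrix.mulVec_mulVec, ← Units.val_mul, inv_mul_cancel, Units.val_one, Matrix.one_mulVec]⟩ }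
  have r4 : ∀ y ∈ 𝐍[P], ∀ g : GL (Fin 2) (ZMod p), R y g → ∀ n : ℕ, R (y ^ n) (g ^ n : GL (Fin 2) (ZMod p)) :=
    fun y hy g b n => by
      induction n with
      | zero => exact fun x _ => by simp
      | succ n ih => rw [pow_succ, pow_succ]; exact r2 _ (pow_mem hy n) _ hy _ _ ih b
  refine ⟨H₀.map Matrix.ProjGenLinGroup.mk, θ, fun hd => ?_, a2, a3, a7, fun w hw hw' hm => ?_⟩
  · obtain ⟨⟨_, g, ⟨y, hy, b⟩, rfl⟩, ht⟩ := exists_prime_orderOf_dvd_card' p hd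
    have k1 : y ^ P.relIndex 𝐍[P] ∈ P := pow_index_mem (H := P.subgroupOf 𝐍[P]) ⟨y, hy⟩
    have k2 : g ^ P.relIndex 𝐍[P] = 1 := Units.ext (r3 _ k1 _ (r4 y hy g b _))
    refine (h.syl.of_le le_normalizer le_top).not_dvd_relIndex ?_
    rw [← ht]
    exact orderOf_dvd_of_pow_eq_one (Subtype.ext (by
      change Matrix.ProjGenLinGroup.mk g ^ _ = 1
      rw [← map_pow, k2, map_one]))
  have hwZ : w ∉ Z := fun e => hw' ((a2 w hw).2 e)
  have h1 : Z ⊔ zpowers w ≤ P := sup_le h.le (zpowers_le.2 hw)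
  obtain ⟨ω, hω⟩ := IsCyclic.exists_ofOrder_eq_natCard (α := (ZMod p)ˣ)
  rw [Nat.card_eq_fintype_card, ZMod.card_units] at hω
  obtain ⟨d, hd⟩ : ∃ d : ℕ, ((d + 1 : ℕ) : ZMod p) = ω := ⟨((ω : ZMod p) - 1).val, by simp⟩
  obtain ⟨ω', hωω⟩ : ∃ ω' : ZMod p, (ω : ZMod p) * ω' = 1 := ⟨_, ω.mul_inv⟩
  obtain ⟨l, hl⟩ : ∃ l : ℕ, ((l + 1 : ℕ) : ZMod p) = ω' := ⟨(ω' - 1).val, by simp⟩
  obtain ⟨y, hy, v, v1, v2, v3, u, u1, u2, z, hz, c, μ, e1, e2⟩ := h.tor h1 (h.card_sup hw hwZ) hm (d := d) (l := l) (by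
    rw [← ZMod.natCast_eq_zero_iff]
    push_cast at hd hl ⊢
    rw [← hd, ← hl] at hωω
    linear_combination hωω)
  obtain ⟨M, b⟩ := r1 y hy
  obtain ⟨M', b'⟩ := r1 _ (inv_mem hy)
  let g : GL (Fin 2) (ZMod p) := ⟨M, M', r3 _ (by simp) _ (r2 _ hy _ (inv_mem hy) _ _ b b'),
    r3 _ (by simp) _ (r2 _ (inv_mem hy) _ hy _ _ b' b)⟩
  have hv := h1 v1
  have f1 : M *ᵥ θ v = (ω : ZMod p) • θ v := by
    rw [← b v hv, ← inv_mul_cancel_right (y * v * y⁻¹) (v ^ (d + 1)), a1 _ (h.le v3) _ (pow_mem hv _),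
      (a2 _ (h.le v3)).2 v3, zero_add, ← zpow_natCast, a4 v hv, Int.cast_natCast, hd]
  have f2 : M *ᵥ θ u = (c : ZMod p) • θ v + (μ : ZMod p) • θ u := by
    rw [← b u u1, e1, a1 _ (mul_mem (h.le hz) (zpow_mem hv _)) _ (zpow_mem u1 _), a1 _ (h.le hz) _ (zpow_mem hv _),
      (a2 _ (h.le hz)).2 hz, zero_add, a4 v hv, a4 u u1]
  have f0 : θ v ≠ 0 := fun e => v2 ((a2 v hv).1 e)
  have f3 : M *ᵥ θ w = (ω : ZMod p) • θ w := by
    obtain ⟨z, hz, k, rfl⟩ := H23.LF.mem_sup_zp (h.nrm (le_normalizer hv)) ((eq_sup_zpowers_of_card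
      (h.syl.pgrp.to_le h1) le_sup_left (by rw [h.card_sup hw hwZ, h.cZ, sq]) v1 v2).le (mem_sup_right (mem_zpowers w)))
    rw [a1 _ (h.le hz) _ (zpow_mem hv _), (a2 _ (h.le hz)).2 hz, zero_add, a4 v hv, Matrix.mulVec_smul, f1, smul_comm]
  have f4 : θ u 0 * θ v 1 ≠ θ u 1 * θ v 0 := fun e => u2 (by
    have hu0 : θ u ≠ 0 := fun e => u2 (mem_sup_left ((a2 u u1).1 e))
    obtain ⟨a, ha⟩ := (Projectivization.mk_eq_mk_iff' _ _ _ hu0 f0).1 ((H12.mk_eq_mk_iff_det hu0 f0).2 e)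
    exact sup_le le_sup_left (zpowers_le.2 v1) (a7 v hv u u1 a ha.symm))
  have f5 : M.det = ω' := by
    rw [← hl, ← e2, hd]
    refine mul_right_cancel₀ (sub_ne_zero.2 f4) ?_
    have g1 := congrFun f1 0
    have g2 := congrFun f1 1
    have g3 := congrFun f2 0
    have g4 := congrFun f2 1
    simp only [H12.mulVec2_zero, H12.mulVec2_one, Pi.add_apply, Pi.smul_apply, smul_eq_mul] at g1 g2 g3 g4
    rw [Matrix.det_fin_two]
    linear_combination (M 1 0 * θ v 0 + M 1 1 * θ v 1) * g3 + (c * θ v 0 + μ * θ u 0) * g2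
      - (M 0 0 * θ v 0 + M 0 1 * θ v 1) * g4 - (c * θ v 1 + μ * θ u 1) * g1
  refine ⟨Matrix.ProjGenLinGroup.mk g, mem_map_of_mem _ ⟨y, hy, b⟩, ?_, fun k hk => ?_⟩
  · rw [H12.pgl_mk_smul, Projectivization.smul_mk, Projectivization.mk_eq_mk_iff']
    exact ⟨ω, f3.symm⟩
  · rw [← map_pow, Matrix.ProjGenLinGroup.mk_eq_one, Matrix.GeneralLinearGroup.mem_center_iff_val_mem_range_scalar] at hk
    obtain ⟨a, ha⟩ := hk
    replace ha : Matrix.scalar (Fin 2) a = M ^ k := ha.trans (Units.val_pow_eq_pow_val g k)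
    have g1 : ∀ k : ℕ, (M ^ k) *ᵥ θ v = (ω : ZMod p) ^ k • θ v := fun k => by
      induction k with
      | zero => simp
      | succ k ih => rw [pow_succ, ← Matrix.mulVec_mulVec, f1, Matrix.mulVec_smul, ih, smul_smul, pow_succ']
    have g2 : a = ω ^ k := by
      have := g1 k
      rw [← ha] at this
      exact smul_left_injective _ f0 (by
        rw [Matrix.scalar_apply, ← Matrix.smul_one_eq_diagonal, Matrix.smul_mulVec, Matrix.one_mulVec] at this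
        exact this)
    have g3 := congrArg Matrix.det ha
    rw [Matrix.det_pow, f5, g2] at g3
    rw [← hω]
    refine orderOf_dvd_of_pow_eq_one (Units.ext ?_)
    have g4 : ((ω : ZMod p) ^ k) ^ 2 = ω' ^ k := by simpa [sq] using g3
    rw [Units.val_pow_eq_pow_val, Units.val_one, mul_comm, pow_mul, pow_succ, g4, ← mul_pow, mul_comm, hωω, one_pow]

theorem mv_of_aut (h1 : V ≤ P) (hc : Nat.card V = p ^ 2)
    (hA : ∀ φ : MulAut V, orderOf φ = p → ∃ g : G, ∀ a : V, (φ a : G) = g * a * g⁻¹) : Mv Z V := by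
  haveI := IsPGroup.isMulCommutative_of_card_eq_prime_sq hc
  obtain ⟨n, ⟨e⟩⟩ := H26.exists_hom_pi (p := p) V fun a => Subtype.ext (h.exp _ (h1 a.2))
  obtain rfl : n = 2 := by
    rw [Nat.card_congr e.toEquiv] at hc
    exact Nat.pow_right_injective hp.out.two_le (by simpa using hc)
  obtain ⟨z, hz, z1⟩ := H23.LF.exists_ne_one_of_card h.cZ
  have z2 := h.Z_le h1 hc hz
  obtain ⟨j, hj⟩ : ∃ j, (e ⟨z, z2⟩).toAdd j ≠ 0 := by
    by_contra! k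
    exact z1 (congrArg Subtype.val ((map_eq_one_iff _ e.injective).1 (toAdd_eq_zero.1 (funext k))))
  obtain ⟨i, hi⟩ := exists_ne j
  let T : MulAut (Multiplicative (Fin 2 → ZMod p)) :=
    { toFun := fun x => x * Multiplicative.ofAdd (Pi.single i (x.toAdd j))
      invFun := fun x => x * Multiplicative.ofAdd (Pi.single i (- x.toAdd j))
      left_inv := fun x => by simp [mul_assoc, ← ofAdd_add, ← Pi.single_add, hi.symm]
      right_inv := fun x => by simp [mul_assoc, ← ofAdd_add, ← Pi.single_add, hi.symm]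
      map_mul' := fun x y => by simp [Pi.single_add, mul_mul_mul_comm] }
  have t0 : ∀ x, T x = x * Multiplicative.ofAdd (Pi.single i (x.toAdd j)) := fun _ => rfl
  have t1 : ∀ (n : ℕ) x, (T ^ n) x = x * Multiplicative.ofAdd (Pi.single i (n * x.toAdd j)) := fun n x => by
    induction n with
    | zero => simp
    | succ n ih => simp [pow_succ', ih, t0, mul_assoc, ← ofAdd_add, ← Pi.single_add, hi.symm, add_mul, add_comm]
  have t2 : T (e ⟨z, z2⟩) ∉ zpowers (e ⟨z, z2⟩) := by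
    rintro ⟨k, hk⟩
    have k1 := congrArg (fun x => x.toAdd j) hk
    have k2 := congrArg (fun x => x.toAdd i) hk
    simp [t0, hi.symm] at k1 k2
    rw [mul_eq_right₀ hj] at k1
    rw [k1, one_mul, left_eq_add] at k2
    exact hj k2
  obtain ⟨g, hg⟩ := hA ((MulAut.congr e).symm T) (by
    rw [MulEquiv.orderOf_eq]
    exact orderOf_eq_prime (MulEquiv.ext fun x => by simp [t1]) fun k => t2 (by rw [k]; exact mem_zpowers _))
  refine ⟨g, mem_normalizer_of_conj_mem fun x hx => hg ⟨x, hx⟩ ▸ SetLike.coe_mem _, z, hz, fun k => t2 ?_⟩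
  obtain ⟨m, hm⟩ := exists_zpow_of_card h.cZ hz z1 k
  refine ⟨m, ?_⟩
  have : (MulAut.congr e).symm T ⟨z, z2⟩ = ⟨z, z2⟩ ^ m := Subtype.ext ((hg _).trans hm)
  simpa [e.symm_apply_eq] using (congrArg e this).symm

theorem mv_of_conj (hw : w ∈ P) (hw' : w ∉ Z) (hg : g * w * g⁻¹ ∈ Z) : Mv Z (Z ⊔ zpowers w) := by
  have h1 : Z ⊔ zpowers w ≤ P := sup_le h.le (zpowers_le.2 hw)
  have hc := h.card_sup hw hw'
  set V := Z ⊔ zpowers w
  have w1 : w ∈ V := mem_sup_right (mem_zpowers w)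
  obtain ⟨c, c1, c2⟩ := (h.syl.of_le (le_centralizer_iff.1 (zpowers_le.2 (h.cen hg))) le_top).exists_cj_le
    ((h.syl.pgrp.to_le h1).cj g) (le_centralizer_iff.1 (zpowers_le.2 (by
      rw [← cj_centralizer]; exact conj_mem_cj (ab_of_sq hc w1) g)))
  rw [cj_cj] at c2
  have c3 : c * g * w * (c * g)⁻¹ = g * w * g⁻¹ := by
    rw [show c * g * w * (c * g)⁻¹ = c * (g * w * g⁻¹) * c⁻¹ by group,
      ← mem_centralizer_iff.1 c1 _ (mem_zpowers _), mul_inv_cancel_right]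
  obtain ⟨n, n1, n2⟩ := ((h.syl.cj (c * g)).of_le (K := 𝐍[cj V (c * g)]) (by
    rw [← cj_normalizer]; exact cj_mono (h.le_n h1 hc) _) (by simp)).exists_cj_eq
    (h.syl.of_le (h.le_n c2 (by rw [card_cj, hc])) le_top)
  rw [cj_cj, cj_eq_self_iff] at n2
  refine ⟨(c * g)⁻¹ * (n * (c * g)), ?_, _, (mem_normalizer_iff.1 (inv_mem (h.nrm n2)) _).1 hg, fun k => hw' ?_⟩
  · rw [← cj_eq_self_iff, ← cj_cj, ← cj_cj, cj_eq_self_iff.2 n1, cj_cj_inv]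
  · rw [← c3] at k
    simpa [mul_assoc] using k

end XP

theorem xp_of (P : Sylow p G) (hE : IsExtraspecial p P) (hc : Nat.card P = p ^ 3) (he : Monoid.exponent P = p) :
    XP p (P : Subgroup G) ⁅(P : Subgroup G), (P : Subgroup G)⁆ :=
  ⟨sylIn_top P, hc, fun x hx => congrArg Subtype.val (he ▸ Monoid.pow_exponent_eq_one (⟨x, hx⟩ : P)),
    H23.LF.xs_card hE, H23.LF.xs_eq hE, rfl⟩

end Cfsg.Agent.L0
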