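import Cfsg.Agent.S1230
import Cfsg.Agent.H4.Zass4
import Cfsg.Agent.H25.AbInv
import Cfsg.Agent.H13.Dih

/-! Bender's counting of involutions in the cosets of a TI-subgroup: the basic geometry. -/

set_option autoImplicit false

namespace Cfsg.Agent.L0

open Cfsg MulAction Subgroup Finset Cfsg.Agent.H4

/-- involution -/
def Iv {G : Type*} [Group G] (u : G) : Prop := u * u = 1 ∧ u ≠ 1

theorem Iv.conj {G : Type*} [Group G] {u : G} (h : Iv u) (g : G) : Iv (g * u * g⁻¹) :=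
  ⟨by rw [conj_mul, h.1, mul_one, mul_inv_cancel], by simpa using h.2⟩

theorem Iv.inv {G : Type*} [Group G] {u : G} (h : Iv u) : u⁻¹ = u := inv_eq_of_mul_eq_one_right h.1

theorem Iv.ss {G Ω : Type*} [Group G] [MulAction G Ω] {u : G} (h : Iv u) (x : Ω) : u • u • x = x := by
  rw [← mul_smul, h.1, one_smul]

theorem iv_iff {G : Type*} [Group G] {u : G} : Iv u ↔ orderOf u = 2 :=
  ⟨fun h => orderOf_eq_prime (by rw [pow_two, h.1]) h.2,
    fun h => ⟨by rw [← pow_two, ← h, pow_orderOf_eq_one], fun e => by simp [e] at h⟩⟩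

/-- the configuration -/
structure BT {G Ω : Type*} [Group G] [MulAction G Ω] (M : Ω → Subgroup G) : Prop where
  trans : ∀ a b : Ω, ∃ g : G, g • a = b
  le : ∀ a, ∀ x ∈ M a, x • a = a
  cj : ∀ a (g : G), ∀ x ∈ M a, g * x * g⁻¹ ∈ M (g • a)
  ti : ∀ a b, ∀ x ∈ M a, x ∈ M b → x ≠ 1 → a = b
  odd : ∀ a, ∀ x ∈ M a, ∀ u, Iv u → Commute u x → x = 1
  ex : ∀ a : Ω, ∃ z : G, Iv z ∧ z • a = a
  mul : ∀ (a : Ω) (u v : G), Iv u → Iv v → u • a = a → v • a = a → u * v ∈ M a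
  swp : ∀ (a : Ω) (g : G), g • a ≠ a → ∃ x ∈ M a, g * x * (g * x) = 1
  neb : ∀ a, ∃ x ∈ M a, x ≠ 1

namespace BT

variable {G Ω : Type*} [Group G] [MulAction G Ω] {M : Ω → Subgroup G} (h : BT M) [Finite G]
include h

omit [Finite G] in
theorem cj' {a : Ω} {g x : G} (hg : g • a = a) (hx : x ∈ M a) : g * x * g⁻¹ ∈ M a := by
  simpa [hg] using h.cj a g x hx

theorem norm {a : Ω} {g : G} (hg : g • a = a) : g ∈ normalizer (M a : Set G) :=
  mem_normalizer_fintype fun _ hx => h.cj' hg hx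

theorem inv1 {a : Ω} {u x : G} (hu : Iv u) (ha : u • a = a) (hx : x ∈ M a) : u * x * u⁻¹ = x⁻¹ :=
  H1.conj_eq_inv_of_fpf (h.norm ha) hu.1 (eq_bot_iff.2 fun y hy =>
    h.odd a y hy.1 u hu (mem_centralizer_singleton_iff.1 hy.2).symm) hx

theorem inv1' {a : Ω} {u x : G} (hu : Iv u) (ha : u • a = a) (hx : x ∈ M a) : u * x * u = x⁻¹ := by
  simpa [hu.inv] using h.inv1 hu ha hx

omit [Finite G] in
theorem noinv {a : Ω} {x : G} (hx : x ∈ M a) (e : x * x = 1) : x = 1 :=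
  by_contra fun e' => e' (h.odd a x hx x ⟨e, e'⟩ rfl)

theorem iv_mul {a : Ω} {u x : G} (hu : Iv u) (ha : u • a = a) (hx : x ∈ M a) : Iv (u * x) :=
  ⟨by rw [← mul_assoc, h.inv1' hu ha hx, inv_mul_cancel], fun e => hu.2 (h.noinv
    (by rw [eq_inv_of_mul_eq_one_left e]; exact inv_mem hx) hu.1)⟩

omit [Finite G] in
theorem ex_sw {a b : Ω} (hab : a ≠ b) : ∃ s : G, Iv s ∧ s • a = b ∧ s • b = a := by
  obtain ⟨g, rfl⟩ := h.trans a b
  obtain ⟨x, hx, e⟩ := h.swp a g hab.symm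
  have e1 : (g * x) • a = g • a := by rw [mul_smul, h.le a x hx]
  exact ⟨g * x, ⟨e, fun e' => hab (by rw [← e1, e', one_smul])⟩, e1, by rw [← e1, ← mul_smul, e, one_smul]⟩

omit [Finite G] in
theorem dec {a b : Ω} (hab : a ≠ b) {g : G} (hg : g • a = a) : ∃ x ∈ M a, (g * x) • b = b := by
  obtain ⟨s, hs, h1, h2⟩ := h.ex_sw hab
  obtain ⟨x, hx, e⟩ := h.swp a (s * g) (by rw [mul_smul, hg, h1]; exact hab.symm)
  refine ⟨x, hx, smul_left_cancel s ?_⟩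
  rw [← mul_smul, ← mul_assoc, h2, ← h1]
  conv_lhs => rw [← hg, ← h.le a x hx]
  rw [← hg, ← mul_smul, ← mul_smul, ← mul_smul, mul_assoc, mul_assoc, ← mul_assoc s g, e, one_smul, hg]

theorem ex_z {a b : Ω} (hab : a ≠ b) : ∃ u : G, Iv u ∧ u • a = a ∧ u • b = b := by
  obtain ⟨z, hz, h1⟩ := h.ex a
  obtain ⟨x, hx, e⟩ := h.dec hab h1
  exact ⟨_, h.iv_mul hz h1 hx, by rw [mul_smul, h.le a x hx, h1], e⟩

theorem semi {a b : Ω} (hab : a ≠ b) {x : G} (hx : x ∈ M a) (e : x • b = b) : x = 1 := by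
  obtain ⟨s, hs, h1, h2⟩ := h.ex_sw hab
  obtain ⟨u, hu, h3, h4⟩ := h.ex_z hab
  have h5 := h.mul b _ u (hu.conj x) hu (by rw [mul_smul, mul_smul, inv_smul_eq_iff.2 e.symm, h4, e]) h4
  rw [mul_assoc, mul_assoc, ← mul_assoc u, h.inv1' hu h3 (inv_mem hx), inv_inv] at h5
  exact h.noinv hx (by_contra fun e' => hab (h.ti a b _ (mul_mem hx hx) h5 e'))

theorem uniq {a b : Ω} (hab : a ≠ b) {u v : G} (hu : Iv u) (hv : Iv v) (h1 : u • a = a) (h2 : u • b = b)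
    (h3 : v • a = a) (h4 : v • b = b) : u = v := by
  rw [← hv.inv, eq_inv_iff_mul_eq_one]
  exact h.semi hab (h.mul a u v hu hv h1 h3) (by rw [mul_smul, h4, h2])

theorem sw {a b : Ω} (hab : a ≠ b) {s : G} (h1 : s • a = b) (h2 : s • b = a) : Iv s := by
  obtain ⟨x, hx, e⟩ := h.swp a s (h1 ▸ hab.symm)
  have e1 : (s * x) • a = b := by rw [mul_smul, h.le a x hx, h1]
  have e2 : x = 1 := h.semi hab hx (smul_left_cancel s (by
    rw [h2, ← mul_smul, ← e1, ← mul_smul, e, one_smul]))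
  rw [e2, mul_one] at e
  exact ⟨e, fun e' => hab (by rw [← h1, e', one_smul])⟩

theorem inv {a b : Ω} (hab : a ≠ b) {s d : G} (h1 : s • a = b) (h2 : s • b = a) (h3 : d • a = a)
    (h4 : d • b = b) : s * d * s⁻¹ = d⁻¹ := by
  have h5 := h.sw hab (s := s * d) (by rw [mul_smul, h3, h1]) (by rw [mul_smul, h4, h2])
  rw [(h.sw hab h1 h2).inv, eq_inv_iff_mul_eq_one, ← h5.1, mul_assoc]

theorem comm {a b : Ω} (hab : a ≠ b) {d e : G} (h1 : d • a = a) (h2 : d • b = b) (h3 : e • a = a)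
    (h4 : e • b = b) : Commute d e := by
  obtain ⟨s, -, h5, h6⟩ := h.ex_sw hab
  rw [Commute, SemiconjBy, ← inv_inj, ← h.inv hab h5 h6 (by rw [mul_smul, h3, h1]) (by rw [mul_smul, h4, h2]),
    mul_inv_rev, ← h.inv hab h5 h6 h1 h2, ← h.inv hab h5 h6 h3 h4]
  group

theorem comm_sw {a b : Ω} (hab : a ≠ b) {s u : G} (h1 : s • a = b) (h2 : s • b = a) (hu : Iv u)
    (h3 : u • a = a) (h4 : u • b = b) : Commute s u :=
  mul_inv_eq_iff_eq_mul.1 ((h.inv hab h1 h2 h3 h4).trans hu.inv)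

theorem cent_fix {a c : Ω} {d u : G} (hu : Iv u) (h1 : u • a = a) (h2 : u • c = c) (h3 : d • a = a)
    (h4 : Commute d u) : d • c = c := by
  rcases eq_or_ne a c with rfl | hac
  · exact h3
  obtain ⟨x, hx, e⟩ := h.dec hac h3
  have h5 := h.comm hac (by rw [mul_smul, h.le a x hx, h3]) e h1 h2
  rwa [h.odd a x hx u hu (by simpa using (h4.inv_left.mul_left h5).symm), mul_one] at e

theorem eq_one {a b c : Ω} (hab : a ≠ b) {d u : G} (hu : Iv u) (h1 : u • a = a) (h2 : u • b = b)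
    (h3 : d • a = a) (h4 : d • b = b) (h5 : d • c = c) (h6 : u • c ≠ c) : d = 1 := by
  have h7 := h.comm hab h1 h2 h3 h4
  have h8 := h.inv h6.symm rfl (hu.ss c) h5 (by rw [← mul_smul, ← h7.eq, mul_smul, h5])
  rw [h7.eq, mul_inv_cancel_right, eq_inv_iff_mul_eq_one] at h8
  exact by_contra fun e => h6 (h.uniq hab hu ⟨h8, e⟩ h1 h2 h3 h4 ▸ h5)

theorem eq_of_fix {a b : Ω} (hab : a ≠ b) {u x : G} (hu : Iv u) (h1 : u • a = a) (h2 : u • b = b)
    (hx : x ∈ M a) (h3 : u • x • b = x • b) : x = 1 := by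
  have h4 := h.uniq hab (hu.conj x⁻¹) hu (by
    rw [inv_inv, mul_smul, mul_smul, h.le a x hx, h1, h.le a _ (inv_mem hx)])
    (by rw [inv_inv, mul_smul, mul_smul, h3, inv_smul_smul]) h1 h2
  rw [inv_inv, mul_assoc, inv_mul_eq_iff_eq_mul] at h4
  exact h.odd a x hx u hu h4

theorem fth {a b : Ω} (hab : a ≠ b) (g : G) (hg : ∀ ω : Ω, g • ω = ω) : g = 1 := by
  obtain ⟨u, hu, h1, h2⟩ := h.ex_z hab
  obtain ⟨x, hx, h3⟩ := h.neb a
  exact h.eq_one hab hu h1 h2 (hg a) (hg b) (hg _) fun e => h3 (h.eq_of_fix hab hu h1 h2 hx e)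

theorem odd_card (a : Ω) : Odd (Nat.card (M a)) := by
  by_contra e
  obtain ⟨u, hu⟩ := exists_prime_orderOf_dvd_card' (G := M a) 2 (Nat.not_odd_iff_even.1 e).two_dvd
  rw [← orderOf_coe, ← iv_iff] at hu
  exact hu.2 (h.noinv u.2 hu.1)

theorem ex_conj {a : Ω} {u v : G} (hu : Iv u) (hv : Iv v) (h1 : u • a = a) (h2 : v • a = a) :
    ∃ y ∈ M a, y * u * y⁻¹ = v := by
  obtain ⟨y, hy⟩ := (powCoprime (G := M a) (n := 2) (h.odd_card a).coprime_two_right).surjective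
    ⟨_, h.mul a v u hv hu h2 h1⟩
  have h3 : (y : G) * y = v * u := by rw [← pow_two]; exact congrArg Subtype.val hy
  refine ⟨y, y.2, ?_⟩
  rw [← h.inv1 hu h1 y.2, ← mul_assoc, ← mul_assoc, mul_assoc _ u u, hu.1, mul_one, h3, mul_inv_cancel_right]

theorem comm_M (a : Ω) : IsMulCommutative (M a) := by
  obtain ⟨z, hz, h1⟩ := h.ex a
  exact H1.isMulCommutative_of_conj_eq_inv fun _ hx => h.inv1 hz h1 hx

/-- the doubly transitive case -/
theorem caseI {a b : Ω} (hab : a ≠ b) [Finite Ω]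
    (hI : ∀ u : G, Iv u → ∀ a b c : Ω, a ≠ b → b ≠ c → a ≠ c → u • a = a → u • b = b → u • c ≠ c) :
    ∃ (F : Type) (_ : Field F) (_ : Fintype F) (p : ℕ) (_ : Fact p.Prime) (_ : CharP F p),
      Fintype.card F = Nat.card (M a) ∧ IsElementaryAbelian p (M a) ∧
        (Nonempty (G ≃* (GL (Fin 2) F ⧸ Subgroup.center (GL (Fin 2) F))) ∨
         (Fintype.card F % 4 = 1 ∧ Nonempty (G ≃* Matrix.ProjectiveSpecialLinearGroup (Fin 2) F))) := by
  have h1 : ∀ c d, c ≠ a → d ≠ a → ∃ x ∈ M a, x • c = d := fun c d hc hd => by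
    obtain ⟨u, hu, e1, e2⟩ := h.ex_z hc.symm
    obtain ⟨v, hv, e3, e4⟩ := h.ex_z hd.symm
    obtain ⟨y, hy, rfl⟩ := h.ex_conj hu hv e1 e3
    refine ⟨y, hy, by_contra fun e => hI _ hv a d (y • c) hd.symm (Ne.symm e) (fun e' => hc ?_) e3 e4
      (by simp [mul_smul, e2])⟩
    exact smul_left_cancel y (e'.symm.trans (h.le a y hy).symm)
  have hZ : ZT G Ω := ⟨h.fth hab, fun c d e f hcd hef => by
    obtain ⟨g, rfl⟩ := h.trans a c
    obtain ⟨k, rfl⟩ := h.trans a e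
    obtain ⟨x, hx, e1⟩ := h1 (g⁻¹ • d) (k⁻¹ • f) (fun e' => hcd (by rw [← e', smul_inv_smul]))
      fun e' => hef (by rw [← e', smul_inv_smul])
    exact ⟨k * x * g⁻¹, by simp [mul_smul, h.le a x hx], by simp [mul_smul, e1]⟩,
    fun g c d e hcd hde hce e1 e2 e3 => by
      obtain ⟨u, hu, e4, e5⟩ := h.ex_z hcd
      exact h.eq_one hcd hu e4 e5 e1 e2 e3 (hI u hu c d e hcd hde hce e4 e5)⟩
  have hK : M a = hZ.K a := hZ.eq_K_of_reg hab (h.le a) fun c d hc hd => by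
    obtain ⟨x, hx, e⟩ := h1 c d hc hd
    refine ⟨⟨x, hx⟩, e, fun y hy => Subtype.ext (eq_of_inv_mul_eq_one (h.semi hc.symm (mul_mem (inv_mem hx) y.2)
      ?_)).symm⟩
    rw [mul_smul, hy, ← e, inv_smul_smul]
  obtain ⟨u, hu, h2, h3⟩ := h.ex_z hab
  have h4 : Even (Nat.card (St2 G a b)) :=
    even_iff_two_dvd.2 (iv_iff.1 hu ▸ orderOf_dvd_natCard _ (mem_St2.2 ⟨h2, h3⟩))
  have h5 := hZ.card_le_two_mul_of_even hab h4
  obtain ⟨x, hx, h6⟩ := h.neb a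
  have h7 : hZ.K a ≠ ⊥ := fun e => h6 (mem_bot.1 (e ▸ hK ▸ hx))
  obtain ⟨p, f, hp, h8, h9⟩ := hZ.elem_of_large hab h7 h5
  have := Fact.mk hp
  have h10 : IsElementaryAbelian p (M a) := ⟨h.comm_M a, hK ▸ h8⟩
  obtain ⟨k, hk⟩ := hZ.card_St2_dvd hab
  have h11 := (hZ.K a).one_lt_card_iff_ne_bot.2 h7
  have h12 : 0 < Nat.card (St2 G a b) := Nat.card_pos
  rw [hK]
  rcases k with _ | _ | k
  · omega
  · obtain ⟨s, -, e1, e2⟩ := h.ex_sw hab
    obtain ⟨F, _, _, e3, e4⟩ := hZ.iso_PGL_of_inverts hab (hZ.K_smul_ne hab.symm (hK ▸ hx))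
      (fun e => h6 (h.semi hab hx e)) (by omega) e1 e2 fun d hd => h.inv hab e1 e2 hd.1 hd.2
    exact ⟨F, _, _, p, this, charP_of_card_eq_prime_pow (e3.trans h9), e3, hK ▸ h10, Or.inl e4⟩
  have h13 : 2 * Nat.card (St2 G a b) ≤ Nat.card (hZ.K a) - 1 := by rw [hk]; nlinarith
  have hZ' : IsZassenhausGroup G Ω := ⟨hZ.faithful, hZ.isMultiplyPretransitive, hZ.three,
    ⟨u, hu.2, a, b, hab, h2, h3⟩, fun N _ _ => by_contra fun e => by
      push Not at e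
      have e1 : ∀ m ∈ N, ∀ c : Ω, m • c = c → m = 1 := fun m hm c e' =>
        congrArg Subtype.val (mem_bot.1 ((e c).le (show (⟨m, hm⟩ : N) ∈ stabilizer N c from e')))
      obtain ⟨v, hv⟩ := exists_prime_orderOf_dvd_card' (G := N) 2 (by
        rw [card_eq_of_regular a (fun c => by
          obtain ⟨m, e'⟩ := exists_smul_eq N a c
          exact ⟨m, m.2, e'⟩) fun m hm => e1 m hm a, ← hZ.card_K hab, ← hK]
        exact (h.odd_card a).add_one.two_dvd)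
      rw [← orderOf_coe, ← iv_iff] at hv
      have e2 : a ≠ (v : G) • a := fun e' => hv.2 (e1 v v.2 a e'.symm)
      obtain ⟨c, e3⟩ := hZ.swap_fix_of_even e2 (hZ.card_St2_eq hab e2 ▸ h4) (hZ.card_St2_eq hab e2 ▸ h13)
        rfl (hv.ss a)
      exact hv.2 (e1 v v.2 c e3)⟩
  obtain ⟨F, _, _, e3, -, e4⟩ := hZ'.iso_PSL_of_even_small hab h4 h13
  refine ⟨F, _, _, p, this, charP_of_card_eq_prime_pow (e3.trans h9), e3, hK ▸ h10, Or.inr ⟨?_, e4⟩⟩
  obtain ⟨j, hj⟩ := h4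
  change _ = Nat.card (hZ.K a) at e3
  omega

end BT

end Cfsg.Agent.L0
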