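import Cfsg.Agent.L0.BT1

/-! Bender's counting of involutions: two-point stabilizers of order two. -/

set_option autoImplicit false

namespace Cfsg.Agent.L0

open Cfsg MulAction Subgroup Finset Cfsg.Agent.H4

namespace BT

variable {G Ω : Type*} [Group G] [MulAction G Ω] {M : Ω → Subgroup G} (h : BT M) [Finite G]
include h

theorem sq_of_three {a b c : Ω} (hab : a ≠ b) (hbc : b ≠ c) (hac : a ≠ c) {u d : G} (hu : Iv u)
    (h1 : u • a = a) (h2 : u • b = b) (h3 : u • c = c) (h4 : d • a = a) (h5 : d • b = b) : d * d = 1 := by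
  obtain ⟨s, -, e1, e2⟩ := h.ex_sw hab
  obtain ⟨t, -, e3, e4⟩ := h.ex_sw hac
  have e5 := h.comm_sw hab e1 e2 hu h1 h2
  have e6 : a ≠ s • c := fun e => hbc (smul_left_cancel s (e2.trans e))
  have e7 : u • s • c = s • c := by rw [← mul_smul, ← e5.eq, mul_smul, h3]
  obtain ⟨r, -, e8, e9⟩ := h.ex_sw e6
  have e10 := h.comm hab h4 h5 h1 h2
  have e11 : (r * s * t) • a = a := by rw [mul_smul, mul_smul, e3, e9]
  have e12 := h.comm hab e11 (h.cent_fix hu h1 h2 e11 (((h.comm_sw e6 e8 e9 hu h1 e7).mul_left e5).mul_left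
    (h.comm_sw hac e3 e4 hu h1 h3))) h4 h5
  rw [← eq_inv_iff_mul_eq_one, ← h.inv e6 e8 e9 h4 (h.cent_fix hu h1 e7 h4 e10)]
  calc d = r * s * t * d * (r * s * t)⁻¹ := by rw [e12.eq, mul_inv_cancel_right]
    _ = r * (s * (t * d * t⁻¹)⁻¹ * s⁻¹)⁻¹ * r⁻¹ := by group
    _ = _ := by rw [h.inv hac e3 e4 h4 (h.cent_fix hu h1 h3 h4 e10), inv_inv, h.inv hab e1 e2 h4 h5, inv_inv]

theorem ex_conj' {a b : Ω} {u v : G} (hu : Iv u) (hv : Iv v) (h1 : u • a = a) (h2 : v • b = b) :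
    ∃ g : G, g * u * g⁻¹ = v := by
  obtain ⟨g, rfl⟩ := h.trans a b
  obtain ⟨y, -, e⟩ := h.ex_conj (hu.conj g) hv (by simp [mul_smul, h1]) h2
  exact ⟨y * g, by rw [← e]; group⟩

theorem ncard_fix {a b : Ω} {u v : G} (hu : Iv u) (hv : Iv v) (h1 : u • a = a) (h2 : v • b = b) :
    (fixedBy Ω v).ncard = (fixedBy Ω u).ncard := by
  obtain ⟨g, rfl⟩ := h.ex_conj' hu hv h1 h2
  rw [← smul_fixedBy, Set.ncard_smul_set]

theorem card_I (a : Ω) : {u : G | Iv u ∧ u • a = a}.ncard = Nat.card (M a) := by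
  obtain ⟨z, hz, h1⟩ := h.ex a
  rw [← SetLike.coe_sort_coe, Nat.card_coe_set_eq,
    ← Set.ncard_image_of_injective (M a : Set G) (mul_right_injective z)]
  congr 1
  ext u
  exact ⟨fun e => ⟨z * u, h.mul a z u hz e.1 h1 e.2, by simp [← mul_assoc, hz.1]⟩, by
    rintro ⟨x, hx, rfl⟩
    exact ⟨h.iv_mul hz h1 hx, by rw [mul_smul, h.le a x hx, h1]⟩⟩

variable [Finite Ω]

theorem card_pts {a : Ω} {z : G} (hz : Iv z) (h1 : z • a = a) :
    Nat.card Ω = 1 + Nat.card (M a) * ((fixedBy Ω z).ncard - 1) := by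
  rw [← Set.ncard_sdiff_singleton_of_mem (show a ∈ fixedBy Ω z from h1), ← Nat.card_coe_set_eq,
    ← Nat.card_prod, ← Set.ncard_add_ncard_compl {a}, Set.ncard_singleton, ← Nat.card_coe_set_eq]
  congr 1
  refine (Nat.card_congr (Equiv.ofBijective (fun p => ⟨(p.1 : G) • (p.2 : Ω), fun e =>
    p.2.2.2 (smul_left_cancel (p.1 : G) (e.trans (h.le a _ p.1.2).symm))⟩) ⟨?_, ?_⟩)).symm
  · rintro ⟨⟨x, hx⟩, b, hb⟩ ⟨⟨y, hy⟩, c, hc⟩ e
    have e1 : (y⁻¹ * x) • b = c := by rw [mul_smul, inv_smul_eq_iff]; exact congrArg Subtype.val e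
    have e2 := h.eq_of_fix (Ne.symm hb.2) hz h1 hb.1 (mul_mem (inv_mem hy) hx) (e1 ▸ hc.1)
    rw [e2, one_smul] at e1
    obtain rfl := eq_of_inv_mul_eq_one e2
    subst e1
    rfl
  · rintro ⟨c, hc⟩
    obtain ⟨v, hv, e1, e2⟩ := h.ex_z (Ne.symm hc)
    obtain ⟨y, hy, rfl⟩ := h.ex_conj hz hv h1 e1
    refine ⟨⟨⟨y, hy⟩, y⁻¹ • c, ?_, fun e => hc ?_⟩, Subtype.ext (smul_inv_smul y c)⟩
    · rwa [mul_smul, mul_smul, smul_eq_iff_eq_inv_smul] at e2
    · exact (inv_smul_eq_iff.1 e).trans (h.le a y hy)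

omit [Finite Ω] in
theorem card_J1 {a : Ω} {z : G} (hz : Iv z) (h1 : z • a = a) :
    {u : G | Iv u ∧ ∃ b : Ω, u • b = b}.ncard * Nat.card (centralizer {z}) = Nat.card G := by
  rw [← index_mul_card (centralizer {z}), ← relIndex_top_right, ← ncard_conj_orbit]
  congr 2
  ext u
  exact ⟨fun ⟨e, _, e'⟩ => (h.ex_conj' hz e h1 e').imp fun g e => ⟨trivial, e⟩, by
    rintro ⟨g, -, rfl⟩
    exact ⟨hz.conj g, g • a, by simp [mul_smul, h1]⟩⟩

theorem hS_of {u : G} (hu : Iv u) {a : Ω} (ha : u • a = a) (h3 : 2 < (fixedBy Ω u).ncard) (g : G) (c d : Ω)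
    (hcd : c ≠ d) (h1 : g • c = c) (h2 : g • d = d) : g * g = 1 := by
  obtain ⟨v, hv, e1, e2⟩ := h.ex_z hcd
  rw [← h.ncard_fix hu hv ha e1] at h3
  obtain ⟨e, e3, e4⟩ := Set.not_subset.1 fun e : fixedBy Ω v ⊆ {c, d} => by
    have := Set.ncard_le_ncard e
    rw [Set.ncard_pair hcd] at this
    omega
  simp only [Set.mem_insert_iff, Set.mem_singleton_iff, not_or] at e4
  exact h.sq_of_three hcd (Ne.symm e4.2) (Ne.symm e4.1) hv e1 e2 e3 h1 h2

variable [Nontrivial Ω] (hS : ∀ (g : G) (c d : Ω), c ≠ d → g • c = c → g • d = d → g * g = 1)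
include hS

omit [Finite Ω] in
theorem stab {a : Ω} {g : G} (hg : g • a = a) : g ∈ M a ∨ Iv g := by
  obtain ⟨b, hb⟩ := exists_ne a
  obtain ⟨x, hx, e⟩ := h.dec hb.symm hg
  have e1 : (g * x) • a = a := by rw [mul_smul, h.le a x hx, hg]
  by_cases e2 : g * x = 1
  · exact Or.inl (by rw [eq_inv_of_mul_eq_one_left e2]; exact inv_mem hx)
  · exact Or.inr (by simpa using h.iv_mul ⟨hS _ a b hb.symm e1 e, e2⟩ e1 (inv_mem hx))

omit [Finite Ω] in
theorem cent1 {a : Ω} {u g : G} (hu : Iv u) (h1 : u • a = a) (h2 : g • a = a) (h3 : Commute g u) :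
    g = 1 ∨ g = u :=
  (h.stab hS h2).imp (fun e => h.odd a g e u hu h3.symm) fun e => by
    rw [← hu.inv, eq_inv_iff_mul_eq_one]
    exact h.odd a _ (h.mul a g u e hu h2 h1) u hu (h3.symm.mul_right rfl)

omit [Finite Ω] in
theorem cent_sq {a : Ω} {u g : G} (hu : Iv u) (h1 : u • a = a) (h3 : Commute g u) : g * g = 1 := by
  rcases eq_or_ne a (g • a) with e | e
  · rcases h.cent1 hS hu h1 e.symm h3 with rfl | rfl
    exacts [one_mul 1, hu.1]
  obtain ⟨s, hs, e1, e2⟩ := h.ex_sw e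
  have e3 := h.comm_sw e e1 e2 hu h1 (by rw [← mul_smul, ← h3.eq, mul_smul, h1])
  rcases h.cent1 hS hu h1 (by rw [mul_smul, e2]) (e3.mul_left h3) with e4 | e4
  · rw [eq_inv_of_mul_eq_one_right e4, hs.inv, hs.1]
  · rw [eq_inv_mul_of_mul_eq e4, hs.inv, mul_assoc, ← mul_assoc u, ← e3.eq, mul_assoc, hu.1, mul_one, hs.1]

omit [Finite Ω] in
theorem card_stab (a : Ω) : Nat.card (stabilizer G a) = 2 * Nat.card (M a) := by
  rw [← SetLike.coe_sort_coe, Nat.card_coe_set_eq, two_mul,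
    show (stabilizer G a : Set G) = (M a : Set G) ∪ {u : G | Iv u ∧ u • a = a} from Set.ext fun g =>
      ⟨fun e => (h.stab hS e).imp id fun e' => ⟨e', e⟩, fun e => e.elim (h.le a g) fun e => e.2⟩,
    Set.ncard_union_eq (Set.disjoint_left.2 fun g e e' => e'.1.2 (h.noinv e e'.1.1)), h.card_I,
    ← Nat.card_coe_set_eq, SetLike.coe_sort_coe]

theorem card_G (a : Ω) : Nat.card G = Nat.card Ω * (2 * Nat.card (M a)) := by
  have : IsPretransitive G Ω := ⟨h.trans⟩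
  rw [← h.card_stab hS, ← index_stabilizer_of_transitive G a, index_mul_card]

omit [Finite Ω] in
theorem card_cent {a : Ω} {z : G} (hz : Iv z) (h1 : z • a = a) :
    Nat.card (centralizer {z}) = (fixedBy Ω z).ncard * 2 := by
  have h2 : fixedBy Ω z = orbit (centralizer {z}) a := by
    refine Set.Subset.antisymm (fun b hb => ?_) ?_
    · rcases eq_or_ne a b with rfl | e
      · exact mem_orbit_self a
      obtain ⟨s, -, e1, e2⟩ := h.ex_sw e
      exact ⟨⟨s, mem_centralizer_singleton_iff.2 (h.comm_sw e e1 e2 hz h1 hb)⟩, e1⟩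
    · rintro _ ⟨w, rfl⟩
      change z • (w : G) • a = (w : G) • a
      rw [← mul_smul, ← mem_centralizer_singleton_iff.1 w.2, mul_smul, h1]
  rw [h2, ← index_stabilizer, ← index_mul_card (stabilizer (centralizer {z}) a)]
  congr 1
  refine (Nat.card_eq_two_iff' 1).2 ⟨⟨⟨z, mem_centralizer_singleton_iff.2 rfl⟩, h1⟩,
    fun e => hz.2 (congrArg (fun x => x.1.1) e), fun y hy => Subtype.ext (Subtype.ext ?_)⟩
  exact (h.cent1 hS hz h1 y.2 (mem_centralizer_singleton_iff.1 y.1.2)).resolve_left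
    fun e => hy (Subtype.ext (Subtype.ext e))

theorem card_J (a : Ω) : {u : G | Iv u}.ncard = Nat.card (M a) + (Nat.card Ω - 1) * 2 := by
  classical
  have := Fintype.ofFinite G
  have := Fintype.ofFinite Ω
  rw [Set.ncard_eq_toFinset_card', Set.toFinset_ofPred, card_eq_sum_card_fiberwise (f := fun u : G => u • a)
    (t := univ) fun _ _ => mem_coe.2 (mem_univ _), ← add_sum_erase _ _ (mem_univ a),
    sum_congr rfl (g := fun _ => 2) fun b hb => ?_, sum_const, card_erase_of_mem (mem_univ a), card_univ,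
    smul_eq_mul, ← Nat.card_eq_fintype_card, ← h.card_I, Set.ncard_eq_toFinset_card', Set.toFinset_ofPred,
    filter_filter]
  have hab := (ne_of_mem_erase hb).symm
  obtain ⟨s, hs, e1, e2⟩ := h.ex_sw hab
  obtain ⟨u, hu, e3, e4⟩ := h.ex_z hab
  refine card_eq_two.2 ⟨s, s * u, by simpa using hu.2, Finset.ext fun v => ?_⟩
  simp only [mem_filter, mem_univ, true_and, mem_insert, mem_singleton]
  refine ⟨fun ⟨e5, e6⟩ => ?_, ?_⟩
  · have e7 : (s * v) • a = a := by rw [mul_smul, e6, e2]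
    have e8 : (s * v) • b = b := by rw [mul_smul, ← e6, e5.ss, e1, e6]
    refine or_iff_not_imp_left.2 fun e9 => ?_
    rw [← h.uniq hab ⟨hS _ a b hab e7 e8, fun e => e9 (by rw [eq_inv_of_mul_eq_one_right e, hs.inv])⟩ hu e7 e8
      e3 e4, ← mul_assoc, hs.1, one_mul]
  · rintro (rfl | rfl)
    · exact ⟨hs, e1⟩
    · exact ⟨h.sw hab (by rw [mul_smul, e3, e1]) (by rw [mul_smul, e4, e2]), by rw [mul_smul, e3, e1]⟩

omit [Finite Ω] in
theorem pgrp {a : Ω} {z : G} (hz : Iv z) (h1 : z • a = a) : IsPGroup 2 (centralizer {z}) := fun g =>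
  ⟨1, Subtype.ext (by simpa [pow_two] using h.cent_sq hS hz h1 (mem_centralizer_singleton_iff.1 g.2))⟩

theorem nums {a : Ω} {z : G} (hz : Iv z) (h1 : z • a = a) (h3 : 2 < (fixedBy Ω z).ncard) :
    ({u : G | Iv u ∧ ∀ b : Ω, u • b ≠ b} = ∅ ∧ Nat.card (M a) = 2 * (fixedBy Ω z).ncard + 1) ∨
    ({u : G | Iv u ∧ ∀ b : Ω, u • b ≠ b}.ncard + 1 = Nat.card Ω ∧ Nat.card (M a) = (fixedBy Ω z).ncard + 1 ∧
      Nat.card Ω = (fixedBy Ω z).ncard ^ 2) := by
  have e1 := h.card_J1 hz h1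
  have e2 := h.card_J hS a
  have e3 := h.card_pts hz h1
  have e4 := h.card_cent hS hz h1
  obtain ⟨k, hk⟩ := IsPGroup.iff_card.1 (h.pgrp hS hz h1)
  have e5 : 1 < Nat.card (M a) := by
    obtain ⟨x, hx, e⟩ := h.neb a
    exact (M a).one_lt_card_iff_ne_bot.2 fun e' => e (mem_bot.1 (e' ▸ hx))
  rw [show {u : G | Iv u} = {u : G | Iv u ∧ ∃ b : Ω, u • b = b} ∪ {u : G | Iv u ∧ ∀ b : Ω, u • b ≠ b} from
    Set.ext fun u => by
      simp only [Set.mem_union, Set.mem_ofPred_eq, ← and_or_left, iff_self_and]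
      exact fun _ => or_iff_not_imp_left.2 not_exists.1,
    Set.ncard_union_eq (Set.disjoint_left.2 fun g e e' => e.2.elim e'.2)] at e2
  rw [h.card_G hS a, e4] at e1
  rw [← Set.ncard_eq_zero]
  have e6 := h.odd_card a
  generalize {u : G | Iv u ∧ ∃ b : Ω, u • b = b}.ncard = j at *
  generalize {u : G | Iv u ∧ ∀ b : Ω, u • b ≠ b}.ncard = i at *
  generalize (fixedBy Ω z).ncard = f at *
  generalize Nat.card (M a) = m at *
  generalize Nat.card Ω = n at *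
  obtain ⟨g, rfl⟩ : ∃ g, f = g + 1 := ⟨f - 1, by omega⟩
  simp only [Nat.add_sub_cancel] at e3
  have e7 : g + 1 ∣ n := by
    refine (Nat.Coprime.of_dvd_left (Dvd.intro 2 (e4.symm.trans hk)) ?_).dvd_of_dvd_mul_right
      (Dvd.intro_left j (by linarith) : g + 1 ∣ n * m)
    exact e6.coprime_two_left.pow_left k
  obtain ⟨t, ht⟩ : g + 1 ∣ m - 1 := by
    obtain ⟨m, rfl⟩ : ∃ m', m = m' + 1 := ⟨m - 1, by omega⟩
    have : g + 1 ∣ n + m := ⟨m + 1, by rw [e3]; ring⟩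
    exact (Nat.dvd_add_right e7).1 this
  obtain rfl : m = (g + 1) * t + 1 := by omega
  subst e3
  have e8 : j = ((g + 1) * t + 1) * (1 + t * g) :=
    Nat.eq_of_mul_eq_mul_right (by omega : 0 < (g + 1) * 2) (by rw [e1]; ring)
  subst e8
  rw [Nat.add_sub_cancel_left] at e2
  rcases t with _ | _ | _ | t
  · omega
  · right
    refine ⟨by nlinarith, by ring, by ring⟩
  · left
    refine ⟨by nlinarith, by ring⟩
  · nlinarith [Nat.zero_le (((g + 1) * (t + 1 + 1 + 1) + 1) * t * g)]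

end BT

end Cfsg.Agent.L0
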