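import Cfsg.Agent.L0.BT2

/-! Bender's counting of involutions: the two remaining cases and the construction of the configuration. -/

set_option autoImplicit false

namespace Cfsg.Agent.L0

open Cfsg MulAction Subgroup Finset Cfsg.Agent.H4

namespace BT

variable {G Ω : Type*} [Group G] [MulAction G Ω] {M : Ω → Subgroup G} (h : BT M) [Finite G] [Finite Ω]
  [Nontrivial Ω] (hS : ∀ (g : G) (c d : Ω), c ≠ d → g • c = c → g • d = d → g * g = 1)
include h hS

theorem caseA {a : Ω} {z : G} (hz : Iv z) (h1 : z • a = a) (h3 : 2 < (fixedBy Ω z).ncard)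
    (h4 : {u : G | Iv u ∧ ∀ b : Ω, u • b ≠ b} = ∅) (h5 : Nat.card (M a) = 2 * (fixedBy Ω z).ncard + 1) :
    ∃ (F : Type) (_ : Field F) (_ : Fintype F) (e : ℕ), 1 < e ∧ Fintype.card F = 2 ^ e ∧ IsCyclic (M a) ∧
      Nat.card (M a) = 2 ^ e + 1 ∧ Nonempty (G ≃* Matrix.ProjectiveSpecialLinearGroup (Fin 2) F) := by
  have h6 : ∀ t : G, orderOf t = 2 → IsMulCommutative (centralizer {t}) ∧ ∀ c ∈ centralizer {t}, c ^ 2 = 1 := by
    intro t ht
    obtain ⟨b, hb⟩ : ∃ b : Ω, t • b = b := by_contra fun e => h4.le ⟨iv_iff.2 ht, not_exists.1 e⟩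
    have e1 : ∀ c ∈ centralizer {t}, c * c = 1 := fun c hc =>
      h.cent_sq hS (iv_iff.2 ht) hb (mem_centralizer_singleton_iff.1 hc)
    exact ⟨H1.isMulCommutative_of_conj_eq_inv (s := 1) fun c hc => by
      rw [one_mul, inv_one, mul_one, inv_eq_of_mul_eq_one_right (e1 c hc)], fun c hc => pow_two c ▸ e1 c hc⟩
  obtain ⟨T, hT⟩ := (h.pgrp hS hz h1).exists_le_sylow
  have h7 : z ∈ T := hT (mem_centralizer_singleton_iff.2 rfl)
  have h8 : (T : Subgroup G) = centralizer {z} := by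
    have : Nontrivial T := ⟨⟨⟨z, h7⟩, 1, fun e' => hz.2 (congrArg Subtype.val e')⟩⟩
    obtain ⟨w, hw⟩ := exists_prime_orderOf_dvd_card' (G := center T) 2 (by
      have := T.isPGroup'.center_nontrivial
      obtain ⟨k, hk, e'⟩ := (T.isPGroup'.to_subgroup (center T)).nontrivial_iff_card.1 this
      exact e' ▸ dvd_pow_self 2 hk.ne')
    rw [← orderOf_coe, ← orderOf_coe] at hw
    have e1 : ∀ x ∈ T, x ∈ centralizer {((w : T) : G)} := fun x hx =>
      mem_centralizer_singleton_iff.2 (congrArg Subtype.val (mem_center_iff.1 w.2 ⟨x, hx⟩))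
    have := (h6 _ hw).1
    exact le_antisymm (fun x hx => mem_centralizer_singleton_iff.2
      (setLike_mul_comm (e1 x hx) (e1 z h7))) hT
  have h9 := h.card_cent hS hz h1
  obtain ⟨F, _, _, e1, ⟨e2⟩⟩ := S1230.result T (fun e => by
    have := (e.exponent_eq_card ▸ Monoid.exponent_dvd_of_forall_pow_eq_one fun g =>
      Subtype.ext ((h6 z (iv_iff.1 hz)).2 g (h8 ▸ g.2)) : Nat.card T ∣ 2)
    have := Nat.le_of_dvd two_pos this
    rw [h8] at this
    omega) (fun e => by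
      obtain ⟨x, hx, e1⟩ := h.neb a
      have e2 := h.cent1 hS hz h1 (g := x * z * x⁻¹) (by simp [mul_smul, h1, h.le a x hx, h.le a _ (inv_mem hx)])
        (mem_centralizer_singleton_iff.1 (h8 ▸ e.conj_mem z h7 x))
      exact e1 (h.odd a x hx z hz (mul_inv_eq_iff_eq_mul.1 (e2.resolve_left (hz.conj x).2)).symm)) h6
  obtain ⟨k, hk⟩ := IsPGroup.iff_card.1 (h.pgrp hS hz h1)
  rw [h8, hk] at e1
  have := charP_of_card_eq_prime_pow e1
  refine ⟨F, _, _, k, (Nat.pow_lt_pow_iff_right one_lt_two).1 (by omega), e1, ?_, by omega, ⟨e2⟩⟩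
  rw [← H20.isCyclic_map_iff (f := e2.toMonoidHom) e2.injective]
  exact H25.psl2_cyclic_of_odd _ (by rw [card_map_of_injective e2.injective]; exact h.odd_card a)

omit hS [Nontrivial Ω] in
/-- uniqueness of parallels -/
theorem par {a : Ω} {z : G} (hz : Iv z) (h1 : z • a = a) (h5 : Nat.card (M a) = (fixedBy Ω z).ncard + 1)
    {u v w : G} {b c : Ω} (hu : Iv u) (hb : u • b = b) (hv : Iv v) (hw : Iv w) (h2 : v • c = c)
    (h3 : w • c = c) (h6 : ∀ d : Ω, u • d = d → v • d ≠ d) (h7 : ∀ d : Ω, u • d = d → w • d ≠ d) : v = w := by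
  have h8 : ∀ d : fixedBy Ω u, c ≠ d := fun d e => h6 d d.2 (e ▸ h2)
  choose f f1 f2 f3 using fun d : fixedBy Ω u => h.ex_z (h8 d)
  have h9 : Function.Injective f := fun d d' e => Subtype.ext (by_contra fun e' => h6 c
    (h.uniq e' hu (f1 d) d.2 d'.2 (f3 d) (e ▸ f3 d') ▸ f2 d) h2)
  have h10 : Nat.card (M c) = Nat.card (M a) := by
    obtain ⟨y, hy, e⟩ := h.ex c
    have e1 := h.card_pts hy e
    rw [h.ncard_fix hz hy h1 e, h.card_pts hz h1] at e1
    obtain ⟨x, hx, e2⟩ := h.neb a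
    have := (M a).one_lt_card_iff_ne_bot.2 fun e' => e2 (mem_bot.1 (e' ▸ hx))
    obtain ⟨d, hd⟩ : ∃ d, d ≠ a := by
      rcases eq_or_ne c a with rfl | e
      exacts [⟨b, (h8 ⟨b, hb⟩).symm⟩, ⟨c, e⟩]
    obtain ⟨t, e3, e4, e5⟩ := h.ex_z hd
    have := (Set.one_lt_ncard_iff (s := fixedBy Ω t)).2 ⟨d, a, e4, e5, hd⟩
    rw [h.ncard_fix hz e3 h1 e4] at this
    exact Nat.eq_of_mul_eq_mul_right (by omega) (Nat.add_left_cancel e1).symm
  by_contra e
  have h11 := Set.ncard_le_ncard (s := insert v (insert w (Set.range f))) (t := {u : G | Iv u ∧ u • c = c}) (by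
    rintro _ (rfl | rfl | ⟨d, rfl⟩)
    exacts [⟨hv, h2⟩, ⟨hw, h3⟩, ⟨f1 d, f2 d⟩])
  rw [Set.ncard_insert_of_notMem (by
    rintro (e' | ⟨d, e'⟩)
    exacts [e e', h6 d d.2 (e' ▸ f3 d)]), Set.ncard_insert_of_notMem (by rintro ⟨d, e'⟩; exact h7 d d.2 (e' ▸ f3 d)),
    Set.ncard_range_of_injective h9, Nat.card_coe_set_eq, h.card_I, h10, h5, h.ncard_fix hz hu h1 hb] at h11
  omega

theorem caseB {a : Ω} {z : G} (hz : Iv z) (h1 : z • a = a)
    (h4 : {u : G | Iv u ∧ ∀ b : Ω, u • b ≠ b}.ncard + 1 = Nat.card Ω)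
    (h5 : Nat.card (M a) = (fixedBy Ω z).ncard + 1) (h6 : Nat.card Ω = (fixedBy Ω z).ncard ^ 2) :
    ∃ (d : ℕ) (E : Subgroup G), 1 ≤ d ∧ E.Normal ∧ IsElementaryAbelian 2 E ∧ Nat.card E = 2 ^ (2 * d) ∧
      E ⊓ stabilizer G a = ⊥ ∧ E ⊔ stabilizer G a = ⊤ ∧
      Nonempty (stabilizer G a ≃* DihedralGroup (2 ^ d + 1)) := by
  let E : Subgroup G :=
    { carrier := {g | ∀ u, Iv u → ∀ b : Ω, u • b = b → ∀ c : Ω, u • c = c → (g * u * g⁻¹) • c = c →
        g * u * g⁻¹ = u}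
      one_mem' := fun u _ _ _ _ _ _ => by simp
      inv_mem' := fun {g} hg u hu b hb c hc e => by
        have := hg _ (hu.conj g⁻¹) c e c e (by simpa [mul_assoc] using hc)
        rw [← this]; group
      mul_mem' := fun {g k} hg hk u hu b hb c hc e => by
        have e1 := hu.conj k
        have e2 : g * k * u * (g * k)⁻¹ = g * (k * u * k⁻¹) * g⁻¹ := by group
        rw [e2] at e ⊢
        by_cases e3 : (k * u * k⁻¹) • c = c
        · have e4 := hk u hu c hc c hc e3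
          rw [e4] at e ⊢
          exact hg u hu c hc c hc e
        exact h.par hz h1 h5 e1 (b := k • b) (by simp [mul_smul, hb]) (e1.conj g) hu e hc
          (fun d hd e4 => e3 (hg _ e1 d hd d hd e4 ▸ e)) fun d hd e4 => e3 (by rw [hk u hu d e4 d e4 hd, hc]) }
  have h7 : ∀ g ∈ E, ∀ c : Ω, g • c = c → g = 1 := fun g hg c hc => by
    obtain ⟨y, hy, e⟩ := h.ex c
    obtain ⟨x, hx, e1⟩ := h.neb c
    have e2 : ∀ u, Iv u → u • c = c → Commute g u := fun u hu e =>
      mul_inv_eq_iff_eq_mul.1 (hg u hu c e c e (by rw [mul_smul, mul_smul, inv_smul_eq_iff.2 hc.symm, e, hc]))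
    refine (h.cent1 hS hy e hc (e2 y hy e)).resolve_right fun e3 => e1 (h.odd c x hx y hy ?_)
    have := e2 _ (h.iv_mul hy e hx) (by rw [mul_smul, h.le c x hx, e])
    rw [e3] at this
    simpa using (Commute.refl y).inv_right.mul_right this
  have h8 : insert 1 {u : G | Iv u ∧ ∀ b : Ω, u • b ≠ b} ⊆ (E : Set G) := by
    rintro v (rfl | ⟨hv, e⟩)
    · exact one_mem E
    intro u hu b hb c hc e1
    have e2 := h.comm_sw (e c).symm rfl (hv.ss c) hu hc (by
      rwa [hv.inv, mul_smul, mul_smul, smul_eq_iff_eq_inv_smul, hv.inv] at e1)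
    rw [e2.eq, mul_inv_cancel_right]
  have h9 : Function.Injective fun g : E => (g : G) • a := fun g k e => Subtype.ext (eq_of_inv_mul_eq_one
    (h7 _ (mul_mem (inv_mem g.2) k.2) a (by rw [mul_smul, inv_smul_eq_iff]; exact e.symm)))
  have h10 := Nat.card_le_card_of_injective _ h9
  have h11 := Set.ncard_insert_of_notMem (s := {u : G | Iv u ∧ ∀ b : Ω, u • b ≠ b}) (a := 1) fun e => e.1.2 rfl
  have h12 := Set.eq_of_subset_of_ncard_le h8 (by rwa [h11, h4])
  have h13 : Nat.card E = Nat.card Ω := by rw [← h4, ← h11, h12]; rfl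
  have h14 : ∀ g ∈ E, g * g = 1 := fun g hg => by
    rcases h12.ge hg with rfl | e
    exacts [one_mul 1, e.1.1]
  have hN : E.Normal := ⟨fun g hg k => h8 (by
    rcases h12.ge hg with rfl | e
    · exact Or.inl (by simp)
    · exact Or.inr ⟨e.1.conj k, fun b e' => e.2 (k⁻¹ • b) (by
        rwa [mul_smul, mul_smul, smul_eq_iff_eq_inv_smul] at e')⟩)⟩
  obtain ⟨k, hk⟩ := IsPGroup.iff_card.1 (h.pgrp hS hz h1)
  rw [h.card_cent hS hz h1] at hk
  obtain ⟨x, hx, h15⟩ := h.neb a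
  have h16 := (M a).one_lt_card_iff_ne_bot.2 fun e' => h15 (mem_bot.1 (e' ▸ hx))
  have h17 := h.odd_card a
  obtain ⟨d, rfl⟩ : ∃ d, k = d + 1 := Nat.exists_eq_succ_of_ne_zero (by rintro rfl; omega)
  have h18 : (fixedBy Ω z).ncard = 2 ^ d := by rw [pow_succ] at hk; omega
  have h19 : 1 ≤ d := Nat.pos_of_ne_zero (by
    rintro rfl
    rw [h5, h18] at h17
    exact absurd h17 (by decide))
  have h20 := ((Nat.bijective_iff_injective_and_card _).2 ⟨h9, h13⟩).2
  refine ⟨d, E, h19, hN, ⟨H1.isMulCommutative_of_conj_eq_inv (s := 1) fun c hc => by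
      rw [one_mul, inv_one, mul_one, inv_eq_of_mul_eq_one_right (h14 c hc)], fun c hc => pow_two c ▸ h14 c hc⟩,
    by rw [h13, h6, h18, ← pow_mul, mul_comm], eq_bot_iff.2 fun g hg => h7 g hg.1 a hg.2,
    eq_top_iff.2 fun g _ => ?_, ?_⟩
  · obtain ⟨y, hy⟩ := h20 (g • a)
    rw [← mul_inv_cancel_left (y : G) g]
    exact mul_mem_sup y.2 (by rw [mem_stabilizer_iff, mul_smul, inv_smul_eq_iff]; exact hy.symm)
  have := h.comm_M a
  have : IsCyclic (M a) := H1.isCyclic_of_fpf (K := E) (E.one_lt_card_iff_ne_bot.1 (h13 ▸ Finite.one_lt_card))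
    le_normalizer_of_normal fun y hy e => eq_bot_iff.2 fun g hg => by_contra fun e' =>
      e (h.odd a y hy g ⟨h14 g hg.1, e'⟩ (mem_centralizer_singleton_iff.1 hg.2))
  have h21 : M a ≤ stabilizer G a := h.le a
  exact H13.nonempty_equiv_dihedral (inclusion h21) (inclusion_injective _) ⟨z, h1⟩
    (Subtype.ext hz.1) (fun c => Subtype.ext (h.inv1 hz h1 c.2))
    (fun ⟨c, e⟩ => hz.2 (h.noinv ((show (c : G) = z from congrArg Subtype.val e) ▸ c.2) hz.1)) (by rw [h5, h18])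
    (by rw [h.card_stab hS, h5, h18])

end BT

section
variable {G : Type*} [Group G] [Finite G] {M : Subgroup G}

/-- the conjugates of `M`, indexed by the cosets of the normalizer -/
noncomputable def cjM (M : Subgroup G) (ω : G ⧸ normalizer (M : Set G)) : Subgroup G :=
  M.comap (MulAut.conj ω.out⁻¹).toMonoidHom

omit [Finite G] in
theorem mem_cjM {k x : G} : x ∈ cjM M k ↔ k⁻¹ * x * k ∈ M := by
  obtain ⟨n, hn⟩ := QuotientGroup.mk_out_eq_mul (normalizer (M : Set G)) k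
  rw [cjM, mem_comap, hn, mem_normalizer_iff''.1 n.2 (k⁻¹ * x * k)]
  simp [mul_assoc]

omit [Finite G] in
theorem smul_mk_eq {k g : G} : g • (k : G ⧸ normalizer (M : Set G)) = k ↔ k⁻¹ * g * k ∈ normalizer (M : Set G) := by
  rw [eq_comm, Quotient.smul_mk, QuotientGroup.eq, smul_eq_mul, mul_assoc]

theorem bt_of (hM : M ≠ ⊥) (hti : ∀ x ∈ M, x ≠ 1 → ∀ g, g * x * g⁻¹ ∈ M → g ∈ normalizer (M : Set G))
    (hodd : ∀ x ∈ M, ∀ u, Iv u → Commute u x → x = 1) {z : G} (hz : Iv z) (hzN : z ∈ normalizer (M : Set G))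
    (hfac : M ⊔ (normalizer (M : Set G) ⊓ centralizer {z}) = normalizer (M : Set G))
    (hJ : M.index < Nat.card {g : G // orderOf g = 2}) : BT (cjM M) := by
  classical
  obtain ⟨⟨x₀, hx₀⟩, h0⟩ := ne_bot_iff_exists_ne_one.1 hM
  replace h0 : x₀ ≠ 1 := fun e => h0 (Subtype.ext e)
  have h1 : ∀ u, Iv u → u ∈ normalizer (M : Set G) → ∀ x ∈ M, u * x * u⁻¹ = x⁻¹ := fun u hu e x hx =>
    H1.conj_eq_inv_of_fpf e hu.1 (eq_bot_iff.2 fun y hy =>
      hodd y hy.1 u hu (mem_centralizer_singleton_iff.1 hy.2).symm) hx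
  have := H1.isMulCommutative_of_conj_eq_inv (h1 z hz hzN)
  have h2 : ∀ u, Iv u → u ∈ normalizer (M : Set G) → u * z ∈ M := fun u hu e => by
    obtain ⟨x, hx, c, hc, e1⟩ := (coe_mul_of_right_le_normalizer_left M _ inf_le_left).le
      (hfac.ge (mul_mem e hzN))
    have e2 : ∀ y ∈ M, Commute c y := fun y hy => by
      have e3 : Commute (x * c) y := mul_inv_eq_iff_eq_mul.1 (by
        change x * c = _ at e1
        rw [e1, show u * z * y * (u * z)⁻¹ = u * (z * y * z⁻¹) * u⁻¹ by group, h1 z hz hzN y hy,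
          h1 u hu e _ (inv_mem hy), inv_inv])
      simpa using (Commute.inv_left (setLike_mul_comm hx hy)).mul_left e3
    change x * c = _ at e1
    have e3 : c * c = 1 := by
      have e4 : z * (x * c) * z⁻¹ * (x * c) = 1 := by
        rw [e1, hz.inv, mul_assoc z, mul_assoc u, hz.1, mul_one, mul_assoc, ← mul_assoc u, hu.1, one_mul, hz.1]
      have e5 : z * c * z⁻¹ = c := mul_inv_eq_iff_eq_mul.2 (mem_centralizer_singleton_iff.1 hc.2).symm
      rwa [← conj_mul, h1 z hz hzN x hx, e5, ← mul_assoc, mul_assoc _ c x, (e2 x hx).eq,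
        inv_mul_cancel_left] at e4
    rwa [← e1, by_contra fun e4 : c ≠ 1 => h0 (hodd x₀ hx₀ c ⟨e3, e4⟩ (e2 x₀ hx₀)), mul_one]
  have h3 : ∀ u v, Iv u → Iv v → u ∈ normalizer (M : Set G) → v ∈ normalizer (M : Set G) → u * v ∈ M :=
    fun u v hu hv e e' => by simpa [hv.inv] using mul_mem (h2 u hu e) (inv_mem (h2 v hv e'))
  have h4 : ∀ g ∉ normalizer (M : Set G), ∃ x ∈ M, g * x * (g * x) = 1 := fun g hg => by
    by_contra! hc
    have key : ∀ u v, Iv u → Iv v → u ∈ normalizer (M : Set G) → (u * z * g)⁻¹ * v ∉ M := fun u v hu hv e e' =>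
      hc _ (mul_mem e' (h2 u hu e)) (by
        have := (hv.conj (u * z)⁻¹).1
        rw [← this]; group)
    refine hJ.not_ge (Nat.card_le_card_of_injective (β := G ⧸ M)
      (fun u => if u.1 ∈ normalizer (M : Set G) then ↑(u.1 * z * g) else ↑u.1) fun u v e => Subtype.ext ?_)
    have hu := iv_iff.2 u.2
    have hv := iv_iff.2 v.2
    beta_reduce at e
    split_ifs at e with e1 e2 e2
    · have e3 := h3 _ _ (hu.conj z) (hv.conj z) (mul_mem (mul_mem hzN e1) (inv_mem hzN))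
        (mul_mem (mul_mem hzN e2) (inv_mem hzN))
      by_contra e4
      refine hg (inv_mem_iff.1 (hti _ e3 (fun e5 => e4 ?_) g⁻¹ ?_))
      · rw [conj_mul, mul_inv_eq_one, mul_eq_left] at e5
        rw [← hv.inv, eq_inv_iff_mul_eq_one, e5]
      · convert QuotientGroup.eq.1 e using 1
        simp [hz.inv, hu.inv, mul_assoc, ← mul_assoc z z, hz.1]
    · exact (key _ _ hu hv e1 (QuotientGroup.eq.1 e)).elim
    · exact (key _ _ hv hu e2 (QuotientGroup.eq.1 e.symm)).elim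
    · have e3 := QuotientGroup.eq.1 e
      by_contra e4
      refine e1 (hti _ e3 (fun e5 => e4 (inv_mul_eq_one.1 e5)) u ?_)
      simpa [hv.inv, hu.inv, ← mul_assoc, hu.1] using inv_mem e3
  refine ⟨exists_smul_eq G, fun a x hx => ?_, fun a g x hx => ?_, fun a b x ha hb e => ?_,
    fun a x hx u hu e => ?_, fun a => ?_, fun a u v hu hv e e' => ?_, fun a g e => ?_, fun a => ?_⟩ <;>
    induction a using QuotientGroup.induction_on with | H k => ?_
  · exact smul_mk_eq.2 (le_normalizer (mem_cjM.1 hx))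
  · rw [Quotient.smul_mk, mem_cjM]
    simpa [mul_assoc] using mem_cjM.1 hx
  · induction b using QuotientGroup.induction_on with | H l => ?_
    exact (QuotientGroup.eq.2 (hti _ (mem_cjM.1 ha) (by rwa [Ne, mul_assoc, inv_mul_eq_one, right_eq_mul]) _ (by simpa [mul_assoc] using mem_cjM.1 hb))).symm
  · have := hodd _ (mem_cjM.1 hx) _ (hu.conj k⁻¹) (by simpa using e.conj k⁻¹)
    rwa [mul_assoc, inv_mul_eq_one, right_eq_mul] at this
  · exact ⟨_, hz.conj k, smul_mk_eq.2 (by simpa [mul_assoc] using hzN)⟩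
  · simpa [mem_cjM, mul_assoc] using h3 _ _ (hu.conj k⁻¹) (hv.conj k⁻¹) (by simpa using smul_mk_eq.1 e)
      (by simpa using smul_mk_eq.1 e')
  · obtain ⟨x, hx, e1⟩ := h4 _ (mt smul_mk_eq.2 e)
    refine ⟨k * x * k⁻¹, mem_cjM.2 (by simpa [mul_assoc] using hx), ?_⟩
    calc _ = k * (k⁻¹ * g * k * x * (k⁻¹ * g * k * x)) * k⁻¹ := by group
      _ = 1 := by rw [e1, mul_one, mul_inv_cancel]
  · exact ⟨k * x₀ * k⁻¹, mem_cjM.2 (by simpa [mul_assoc] using hx₀), by simpa using h0⟩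

end

end Cfsg.Agent.L0
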