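import Cfsg.Agent.L0.FOl2

/-! Fusion systems on `2`-groups with centre of index at most four. -/

namespace Cfsg.Agent.H23.LF

open Cfsg Cfsg.FusionSystem Subgroup Cfsg.Agent.H3
open Equiv (Perm)
open scoped commutatorElement

variable {Ω : Type*} [Group Ω] {S : Subgroup Ω} [Finite S]

theorem Sat.le_eight {F : FusionSystem S} (hF : Sat 2 F) (hZ : Nat.card S ≤ 2 ^ 2 * Nat.card (centralizerIn S S))
    (hA : PMod 2 (Fix S) (AutF F S)) (d2 : Nat.card (⁅S, S⁆ : Subgroup Ω) ≤ 2) (hh : F.hyperfocalSubgroup 2 = S) :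
    Nat.card S ≤ 2 ^ 3 := by
  have e4 : AutS S S = AutF F S := hF.rsyl_top.eq_top_of_pmod (nfin_autF F S) hA
  have e5 : ∀ σ ∈ AutF F S, ∀ z ∈ S, z⁻¹ * σ z ∈ ⁅S, S⁆ := fun σ hσ z hz => by
    obtain ⟨g, hg, -, e⟩ := mem_autS.1 (e4.ge hσ)
    simpa [e z hz, commutatorElement_def, mul_assoc] using commutator_mem_commutator (S.inv_mem hz) hg
  obtain ⟨w, u, a3, a4, b3, b4, hT⟩ : ∃ w u : Ω, w ∈ S ∧ w ^ 2 = 1 ∧ u ∈ S ∧ u ^ 2 = 1 ∧ ∀ P, F.IsEssential 2 P →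
      Ores' 2 (Fix P) (AutF F P) ≤ FixMod P (⁅S, S⁆ ⊔ zpowers w ⊔ zpowers u) := by
    by_cases h1 : ∃ E, F.IsEssential 2 E
    · obtain ⟨E, hE⟩ := h1
      obtain ⟨D, w, -, -, -, a3, -, a4, -, -, a6⟩ := Sat.ess_dat hF hZ hE
      by_cases h2 : ∃ E', F.IsEssential 2 E' ∧ E ≠ E'
      · obtain ⟨E', hE', h⟩ := h2
        obtain ⟨D', u, -, -, -, b3, -, b4, -, -, b6⟩ := Sat.ess_dat hF hZ hE'
        refine ⟨w, u, hE.1.1 a3, a4, hE'.1.1 b3, b4, fun P hP => ?_⟩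
        rcases Sat.no_three hF hZ hE hE' h hP with rfl | rfl
        exacts [a6.trans (fixMod_mono le_sup_left), b6.trans (fixMod_mono (sup_le_sup_right le_sup_left _))]
      · refine ⟨w, 1, hE.1.1 a3, a4, one_mem _, one_pow _, fun P hP => ?_⟩
        obtain rfl : E = P := by_contra fun h => h2 ⟨P, hP, h⟩
        exact a6.trans (fixMod_mono le_sup_left)
    · exact ⟨1, 1, one_mem _, one_pow _, one_mem _, one_pow _, fun P hP => absurd ⟨P, hP⟩ h1⟩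
  let T := ⁅S, S⁆ ⊔ zpowers w ⊔ zpowers u
  have e6 : ∀ {P : Subgroup Ω}, F.IsEssential 2 P → AutF F P ≤ FixMod P T :=
    fun {P} h1 σ hσ => by
      haveI := finite_of_le h1.1.1
      obtain ⟨m, h3, h4⟩ := (hF.rsyl_of_fn h1.2.1).exists_Ores'_mul (nfin_autF F P) hσ
      have a := mul_mem (Ores'_le (fix_le_autF _ _) h3) hσ
      obtain ⟨τ, h5, h6⟩ := hF.extend_to sc_top (hF.fc_of_fn h1.2.1) h1.1.1 cIn_le
        (le_inf le_rfl (Sat.ess_sq hF hZ h1).1.nrm) a h4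
      exact (mul_mem_cancel_left (hT P h1 h3)).1 ⟨autF_le_stab _ _ a, fun z hz =>
        h6 z hz ▸ mem_sup_left (mem_sup_left (e5 τ h5 z (h1.1.1 hz)))⟩
  have e7 : S ≤ T := hh.ge.trans (hyper_le_focal.trans (focal_le_iff.2 (hF.induction_elt (fun x y => x⁻¹ * y ∈ T)
    (fun x y z a b => by simpa [mul_assoc] using mul_mem a b) fun P hP σ hσ => by
      rcases hP with rfl | hP
      · exact fun z hz => mem_sup_left (mem_sup_left (e5 σ hσ z hz))
      · exact (e6 hP hσ).2)))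
  have f : ∀ {K : Subgroup Ω} {z : Ω}, ⁅S, S⁆ ≤ K → K ≤ S → z ∈ S → z ^ 2 = 1 →
      Nat.card (K ⊔ zpowers z : Subgroup Ω) ≤ 2 * Nat.card K := fun {K z} h1 h2 h3 h4 => by
    by_cases e : z ∈ K
    · rw [sup_eq_left.2 (zpowers_le.2 e)]; omega
    · exact (card_sup_zpowers (le_normalizer_iff_commutator_le_left.2 ((commutator_mono h2 le_rfl).trans h1) h3) e
        (h4 ▸ one_mem _)).le
  have g : ⁅S, S⁆ ≤ S := H24.commutator_le_of_le le_rfl le_rfl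
  have f1 := f le_rfl g a3 a4
  have g' := sup_le g (zpowers_le.2 a3)
  have f2 := f le_sup_left g' b3 b4
  rw [le_antisymm (sup_le g' (zpowers_le.2 b3)) e7] at f2
  omega

end Cfsg.Agent.H23.LF
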