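import Cfsg.Agent.L0.FSup
import Cfsg.Agent.L0.GL2Syl
import Cfsg.Agent.S0261

/-!
# `2`-groups of maximal class are not of supersoluble type
-/

set_option autoImplicit false

namespace Cfsg.Agent.H23.LF

open Cfsg Cfsg.FusionSystem Subgroup
open scoped commutatorElement MatrixGroups

theorem mc_bij {G : Type*} [Group G] {n : ℕ} {e f : ZMod (2 ^ n)} {X Y : ZMod (2 ^ n) → G}
    (h : H11.MC (⊤ : Subgroup G) n e f X Y) : Function.Bijective (Sum.elim X Y) := ⟨by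
  rintro (a | a) (b | b) c
  exacts [congrArg _ (h.X_inj.1 c), absurd c (h.X_ne_Y _ _), absurd c.symm (h.X_ne_Y _ _), congrArg _ (h.Y_inj.1 c)],
  fun s => ((h.mem s).1 trivial).elim fun a c => c.elim (fun c => ⟨.inl a, c.symm⟩) fun c => ⟨.inr a, c.symm⟩⟩

theorem mc_equiv {G G' : Type*} [Group G] [Group G'] {n : ℕ} {e f : ZMod (2 ^ n)} {X Y : ZMod (2 ^ n) → G}
    {X' Y' : ZMod (2 ^ n) → G'} (h : H11.MC (⊤ : Subgroup G) n e f X Y) (h' : H11.MC (⊤ : Subgroup G') n e f X' Y') :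
    Nonempty (G ≃* G') := by
  let φ := (Equiv.ofBijective _ (mc_bij h)).symm.trans (Equiv.ofBijective _ (mc_bij h'))
  have h1 : ∀ a, φ (X a) = X' a := fun a =>
    congrArg (Sum.elim X' Y') ((Equiv.ofBijective _ (mc_bij h)).symm_apply_apply (.inl a))
  have h2 : ∀ a, φ (Y a) = Y' a := fun a =>
    congrArg (Sum.elim X' Y') ((Equiv.ofBijective _ (mc_bij h)).symm_apply_apply (.inr a))
  refine ⟨⟨φ, fun s t => ?_⟩⟩
  obtain ⟨a, rfl | rfl⟩ := H26.MC_cases h s <;> obtain ⟨b, rfl | rfl⟩ := H26.MC_cases h t <;>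
    simp only [Equiv.toFun_as_coe, h.XX, h.XY, h.YX, h.YY, h'.XX, h'.XY, h'.YX, h'.YY, h1, h2]

theorem exists_prime_q {m : ℕ} (hm : 1 ≤ m) : ∃ q t : ℕ, q.Prime ∧ 4 ≤ q ∧ q + 1 = 2 ^ m * (2 * t + 1) := by
  have h0 : 0 < 2 ^ m := by positivity
  obtain ⟨q, h1, h2, h3⟩ := Nat.forall_exists_prime_gt_and_modEq 4 (q := 2 ^ (m + 1)) (a := 2 ^ m - 1) (by positivity)
    ((Nat.coprime_two_right.2 (Nat.Even.sub_odd h0 (Nat.even_pow.2 ⟨even_two, by omega⟩) odd_one)).pow_right _)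
  refine ⟨q, q / 2 ^ (m + 1), h2, h1.le, ?_⟩
  have := Nat.div_add_mod q (2 ^ (m + 1))
  rw [h3, Nat.mod_eq_of_lt (by rw [pow_succ]; omega), pow_succ] at this
  rw [mul_add, ← mul_assoc, pow_succ]
  omega

theorem exists_sl2 {k : ℕ} (hk : 1 ≤ k) : ∃ (G : Type) (_ : Group G) (_ : Finite G) (T : Sylow 2 G) (z : G),
    commutator G = ⊤ ∧ z ∈ center G ∧ orderOf z = 2 ∧ Nonempty (T ≃* QuaternionGroup (2 ^ k)) := by
  obtain ⟨q, t, h1, h2, h3⟩ := exists_prime_q (m := k + 1) (by omega)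
  haveI : Fact q.Prime := ⟨h1⟩
  obtain ⟨T⟩ : Nonempty (Sylow 2 SL(2, ZMod q)) := inferInstance
  obtain ⟨j, rfl⟩ := Nat.exists_eq_add_of_le' hk
  obtain ⟨w, hw⟩ : ∃ w, q = 2 * (2 * w + 1) + 1 :=
    ⟨2 ^ j * (2 * t + 1) - 1, by have : 0 < 2 ^ j * (2 * t + 1) := by positivity
                                 rw [add_assoc, pow_add, mul_right_comm] at h3; omega⟩
  obtain ⟨i, -, ⟨e⟩⟩ := S0261.result (by rw [ZMod.card]; exact ⟨_, hw⟩) T
  have hc := L0.card_sylow_of T (k := j + 3) (m := (2 * (2 * w + 1) + 1) * ((2 * w + 1) * (2 * t + 1))) (by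
    rw [H12.card_SL2 (ZMod.card q), show q ^ 2 - 1 = 2 * (2 * w + 1) * (q + 1) from Nat.sub_eq_of_eq_add (by rw [hw]; ring),
      h3, ← hw]; ring) (by simp [Nat.prime_two.dvd_mul])
  rw [Nat.card_congr e.toEquiv, Nat.card_eq_fintype_card, QuaternionGroup.card, show 4 * 2 ^ i = 2 ^ (i + 2) by ring] at hc
  obtain rfl : i = j + 1 := by have := Nat.pow_right_injective le_rfl hc; omega
  refine ⟨_, _, inferInstance, T, -1, H12.commutator_SL_fin_eq_top 2 le_rfl fun _ => by rwa [ZMod.card],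
    mem_center_iff.2 fun g => by simp, orderOf_eq_prime (by simp) fun a => ?_, ⟨e⟩⟩
  haveI : Fact (2 < q) := ⟨by omega⟩
  exact ZMod.neg_one_ne_one (by simpa using congrArg (fun A : SL(2, ZMod q) => A.1 0 0) a)

variable {Ω : Type*} [Group Ω] {S : Subgroup Ω} [Finite S]

theorem not_ch_top {G : Type*} [Group G] [Finite G] (T : Sylow 2 G) (e : S ≃* T) (h1 : commutator G = ⊤) {k : ℕ}
    (h2 : Nat.card S = 2 * k) : ¬ ∀ F : FusionSystem S, F.IsSaturated 2 → Ch F S :=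
  not_ch_all T e (L := ⊤) h1 (by
    rw [card_top]; exact (Dvd.intro _ (h2.symm.trans (Nat.card_congr e.toEquiv))).trans (card_subgroup_dvd_card _))

theorem exists_two_pow (hS : IsPGroup 2 S) {c n : ℕ} (hn : 2 ≤ n) (h : Nat.card S = c * n) : ∃ k, 1 ≤ k ∧ n = 2 ^ k := by
  obtain ⟨m, hm⟩ := IsPGroup.iff_card.1 hS
  obtain ⟨k, -, rfl⟩ := (Nat.dvd_prime_pow Nat.prime_two).1 (Dvd.intro_left c (h.symm.trans hm))
  exact ⟨k, Nat.pos_of_ne_zero (by rintro rfl; omega), rfl⟩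

theorem not_ch_quaternion (hS : IsPGroup 2 S) {n : ℕ} (hn : 2 ≤ n) (e : S ≃* QuaternionGroup n) :
    ¬ ∀ F : FusionSystem S, F.IsSaturated 2 → Ch F S := by
  haveI : NeZero n := ⟨by omega⟩
  have c : Nat.card S = 4 * n := by rw [Nat.card_congr e.toEquiv, Nat.card_eq_fintype_card, QuaternionGroup.card]
  obtain ⟨k, hk, rfl⟩ := exists_two_pow hS hn c
  obtain ⟨G, _, _, T, -, h, -, -, ⟨f⟩⟩ := exists_sl2 hk
  exact not_ch_top T (e.trans f.symm) h (k := 2 * 2 ^ k) (by omega)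

theorem not_ch_dihedral (hS : IsPGroup 2 S) {n : ℕ} (hn : 2 ≤ n) (e : S ≃* DihedralGroup n) :
    ¬ ∀ F : FusionSystem S, F.IsSaturated 2 → Ch F S := by
  have c : Nat.card S = 2 * n := by rw [Nat.card_congr e.toEquiv, DihedralGroup.nat_card]
  obtain ⟨k, hk, rfl⟩ := exists_two_pow hS hn c
  obtain ⟨G, _, _, T, z, h, h1, h2, ⟨f⟩⟩ := exists_sl2 hk
  obtain ⟨X, Y, a⟩ := H11.exists_MC_of_quaternion hk (topEquiv.trans f)
  obtain ⟨g⟩ := H26.MC_quotient_center a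
  haveI := H2.normal_of_le_center (zpowers_le.2 h1)
  have hs := QuotientGroup.mk'_surjective (zpowers z)
  have hz : zpowers z ≤ T := (L0.isPGroup_zpowers_of (k := 1) h2).le_sylow_of_normal T
  let φ := (QuotientGroup.mk' (zpowers z)).comp (T : Subgroup G).subtype
  have b : φ.ker = center T := by
    rw [← MonoidHom.comap_ker, QuotientGroup.ker_mk']
    refine eq_of_le_of_card_ge (fun x hx => mem_center_iff.2 fun y => Subtype.ext
      (mem_center_iff.1 (zpowers_le.2 h1 hx) y)) ?_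
    rw [H26.MC_center a, Nat.card_zpowers, a.orderOf_z, comap_subtype, Nat.card_congr (subgroupOfEquivOfLe hz).toEquiv,
      Nat.card_zpowers, h2]
  refine not_ch_top (T.mapSurjective hs) (e.trans (g.symm.trans ((QuotientGroup.quotientMulEquivOfEq b.symm).trans
    ((QuotientGroup.quotientKerEquivRange φ).trans (MulEquiv.subgroupCongr ?_))))) ?_ c
  · rw [MonoidHom.range_comp, range_subtype]; rfl
  · rw [← map_top_of_surjective _ hs, ← h, commutator_def, commutator_def, map_commutator, map_top_of_surjective _ hs]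

theorem not_ch_qd (h : IsQuasiDihedral S) : ¬ ∀ F : FusionSystem S, F.IsSaturated 2 → Ch F S := by
  obtain ⟨n, X, Y, hn, a⟩ := H11.exists_MC_top_of_qd h
  obtain ⟨q, t, h1, h2, h3⟩ := exists_prime_q (m := n - 1) (by omega)
  haveI : Fact q.Prime := ⟨h1⟩
  obtain ⟨T⟩ : Nonempty (Sylow 2 (GL (Fin 2) (ZMod q))) := inferInstance
  obtain ⟨c, d⟩ := L0.qd_GL2 T (m := n - 1) (by omega) (by rw [ZMod.card, h3])
  obtain ⟨m, X', Y', -, b⟩ := H11.exists_MC_top_of_qd d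
  obtain rfl : m = n := by have := Nat.pow_right_injective le_rfl (c.symm.trans (H26.MC_card b)); omega
  obtain ⟨e⟩ := mc_equiv a b
  refine not_ch_all T e (L := (⊤ : Subgroup SL(2, ZMod q)).map Matrix.SpecialLinearGroup.toGL) ?_ ?_
  · rw [← map_commutator]
    exact congrArg _ (H12.commutator_SL_fin_eq_top 2 le_rfl fun _ => by rwa [ZMod.card])
  · rw [card_map_of_injective Matrix.SpecialLinearGroup.toGL_injective, card_top, H12.card_SL2 (ZMod.card q), ← one_pow 2,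
      Nat.sq_sub_sq, h3]
    exact (((dvd_pow_self 2 (by omega)).mul_right _).mul_right _).mul_left _

end Cfsg.Agent.H23.LF
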