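import Cfsg.Agent.L0.FTate
import Cfsg.Agent.L0.FOl
import Cfsg.Agent.H3.PGroup1

/-! A nilpotency criterion for fusion systems by weakly strongly closed subgroups. -/

namespace Cfsg.Agent.H23.LF

open Cfsg Cfsg.FusionSystem Subgroup
open Equiv (Perm)
open scoped commutatorElement

universe u

variable {Ω : Type u} [Group Ω] {S A B H P Q R V : Subgroup Ω} {p d : ℕ} [hp : Fact p.Prime]

theorem exists_mid [Finite B] (hB : IsPGroup p B) (h : A ≤ B) (h1 : Nat.card A ≤ p ^ d) (h2 : p ^ d ≤ Nat.card B) :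
    ∃ Q, A ≤ Q ∧ Q ≤ B ∧ Nat.card Q = p ^ d := by
  obtain ⟨n, hn⟩ := IsPGroup.iff_card.1 hB
  obtain ⟨m, hm⟩ := IsPGroup.iff_card.1 (hB.to_subgroup (A.subgroupOf B))
  have e : Nat.card (A.subgroupOf B) = Nat.card A := Nat.card_congr (subgroupOfEquivOfLe h).toEquiv
  rw [← e, hm, Nat.pow_le_pow_iff_right hp.out.one_lt] at h1
  rw [hn, Nat.pow_le_pow_iff_right hp.out.one_lt] at h2
  obtain ⟨K, k1, k2⟩ := Sylow.exists_subgroup_card_pow_prime_le p (hn ▸ pow_dvd_pow p h2) _ hm h1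
  exact ⟨K.map B.subtype, by rw [← map_subtype_subgroupOf h]; exact map_mono k2, map_subtype_le _,
    (H24.card_map_subtype _).trans k1⟩

theorem mul_le_pow [Finite A] (hA : IsPGroup p A) (h : Nat.card A < p ^ d) : p * Nat.card A ≤ p ^ d := by
  obtain ⟨m, hm⟩ := IsPGroup.iff_card.1 hA
  rw [hm, Nat.pow_lt_pow_iff_right hp.out.one_lt] at h
  rw [hm, ← pow_succ']
  exact Nat.pow_le_pow_right hp.out.pos h

variable [Finite S] {F : FusionSystem S}

/-- Every subgroup of order `p ^ d` is weakly strongly closed. -/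
def Wsc (F : FusionSystem S) (m : ℕ) : Prop :=
  ∀ Q ≤ S, Nat.card Q = m → ∃ P, F.StronglyClosed P ∧ F.StronglyClosed (Q ⊔ P) ∧ F.StronglyClosed (Q ⊓ P)

theorem Wsc.exists_inv (h : Wsc F (p ^ d)) (hS : IsPGroup p S) (hR : R ≤ S) (hc : p ^ d ≤ Nat.card R) :
    ∃ Q ≤ R, Nat.card Q = p ^ d ∧ AutF F R ≤ Stab Q := by
  haveI := finite_of_le hR
  have hsup : ∀ {X Y : Subgroup Ω}, X ≤ R → Y ≤ R → AutF F R ≤ Stab X → AutF F R ≤ Stab Y →
      AutF F R ≤ Stab (X ⊔ Y) := fun a b c e σ hσ => stab_sup ((autF_homOn hσ).mono (sup_le a b)) (c hσ) (e hσ)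
  have hinf : ∀ {X Y : Subgroup Ω}, X ≤ R → AutF F R ≤ Stab X → F.StronglyClosed Y →
      AutF F R ≤ Stab (Y ⊓ X) := fun {X Y} a c e σ hσ => by
    have := stab_inf (autF_le_stab_inf_sc hR e hσ) (c hσ)
    rwa [inf_comm R, inf_assoc, inf_eq_right.2 a] at this
  obtain ⟨V, ⟨v1, v2, v3⟩, hV⟩ := exists_max_of_bdd
    (fun X : Subgroup Ω => X ≤ R ∧ Nat.card X ≤ p ^ d ∧ AutF F R ≤ Stab X) (fun X => Nat.card X) _
    (fun X a => a.2.1) ⟨⊥, bot_le, by simp [Nat.one_le_pow, hp.out.pos], by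
      simpa using hinf le_rfl (autF_le_stab F R) sc_bot⟩
  refine ⟨V, v1, le_antisymm v2 (not_lt.1 fun hlt => ?_), v3⟩
  obtain ⟨U, ⟨u1, u2, u3⟩, hU⟩ := exists_max_of_bdd
    (fun X : Subgroup Ω => X ≤ R ∧ V < X ∧ AutF F R ≤ Stab X) (fun X => Nat.card R - Nat.card X) _
    (fun X _ => Nat.sub_le _ _) ⟨R, le_rfl, lt_of_le_of_ne v1 fun e => by rw [e] at hlt; omega, autF_le_stab F R⟩
  haveI := finite_of_le (u1.trans hR)
  obtain ⟨Q, q1, q2, q3⟩ := exists_mid (hS.to_le (u1.trans hR)) u2.le v2 (by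
    by_contra! h'
    exact (hV U ⟨u1, h'.le, u3⟩).not_gt (card_lt_of_lt u2))
  haveI := finite_of_le (q2.trans (u1.trans hR))
  have kV : ∀ X ≤ Q, AutF F R ≤ Stab X → X ≤ V := fun X a b => by
    have h1 : V ⊔ X ≤ Q := sup_le q1 a
    haveI : Finite (V ⊔ X : Subgroup Ω) := finite_of_le (h1.trans (q2.trans (u1.trans hR)))
    exact le_sup_right.trans (eq_of_le_of_card_ge le_sup_left (hV _ ⟨h1.trans (q2.trans u1),
      q3 ▸ card_le_of_le h1, hsup v1 (a.trans (q2.trans u1)) v3 b⟩)).ge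
  have hQV : ¬ Q ≤ V := fun e => by
    haveI := finite_of_le (v1.trans hR)
    exact hlt.not_ge (q3 ▸ card_le_of_le e)
  obtain ⟨P, p1, p2, p3⟩ := h Q (q2.trans (u1.trans hR)) q3
  have hPn := (sc_le_normalizer p1)
  by_cases k : P ⊓ U ≤ V
  · refine hQV (kV Q le_rfl ?_)
    have := hinf u1 u3 p2
    rwa [H24.sup_inf_of_le_normalizer_right ((q2.trans (u1.trans hR)).trans hPn) q2,
      sup_eq_left.2 (k.trans q1)] at this
  · have h1 : V ⊔ P ⊓ U ≤ U := sup_le u2.le inf_le_right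
    have h2 := hU _ ⟨h1.trans u1, lt_of_le_of_ne le_sup_left fun e => k (le_sup_right.trans e.ge),
      hsup v1 (inf_le_right.trans u1) v3 (hinf u1 u3 p1)⟩
    have h3 := card_le_of_le u1
    have h4 := card_le_of_le (h1.trans u1)
    have h5 := eq_of_le_of_card_ge h1 (by omega)
    have h6 : P ⊓ Q ≤ V := kV _ inf_le_right (by
      have := hinf le_rfl (autF_le_stab F R) p3
      rwa [inf_eq_left.2 (inf_le_left.trans (q2.trans u1)), inf_comm] at this)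
    refine hQV fun x hx => ?_
    have h7 : x ∈ (V ⊔ P) ⊓ Q := ⟨(sup_le_sup_left inf_le_left V) (h5.ge (q2 hx)), hx⟩
    rw [H24.sup_inf_of_le_normalizer_right ((v1.trans hR).trans hPn) q1] at h7
    exact sup_le le_rfl h6 h7

theorem Sat.pmod_of_loc (hF : Sat p F) (hR : R ≤ S) (hQ : Q ≤ R) (hA : AutF F R ≤ Stab Q)
    (h : ∀ σ : Perm Ω, Mor F Q σ → F.IsFullyNormalized (im σ Q) → Loc F (im σ Q) (innerFusionSystem S)) :
    PMod p (Fix R) (AutF F R) := by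
  have h1 : R ≤ normalizerIn S Q := fun g hg =>
    ⟨hR hg, cj_mem_stab.1 (hA (cj_mem_autF F hR (hR hg) (le_normalizer hg)))⟩
  obtain ⟨ρ, r1, r2⟩ := hF.exists_nIn_fn (hQ.trans hR)
  have r3 := r1.mono h1
  have : PMod p (Fix (im ρ R)) (AutF F (im ρ R)) := (pmod_autS hF.pg _).mono fun σ hσ => by
    have k := h ρ (r3.mono hQ) r2 _ σ (im_mono _ hQ) ((im_mono _ h1).trans (r1.im_nIn_le (hQ.trans hR)))
      (autF_mor r3.im_le hσ) (by
        rw [← r3.cjS_autF] at hσ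
        rw [← cjS_stab (r3.mono hQ).homOn]
        exact cjS_mono _ hA hσ)
    obtain ⟨-, g, hg, e⟩ := mor_inner_iff.1 k
    exact mem_autS_of_stab (autF_le_stab F _ hσ) hg e
  have h2 := this.cjS ρ⁻¹
  rwa [← r3.cjS_autF, ← cjS_fix r3.homOn, cjS_inv_cjS, cjS_inv_cjS] at h2

section quot

variable {Ω' : Type*} [Group Ω'] {S' : Subgroup Ω'} {F' : FusionSystem S'} {θ : Ω → Ω'}

omit hp in
theorem fac_pmod (h : Fac F F' θ V) (h1 : V ≤ R) (hR : R ≤ S) (hA : PMod p (Fix R) (AutF F R)) :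
    PMod p (Fix (im θ R)) (AutF F' (im θ R)) := fun σ' hσ' => by
  obtain ⟨σ, hσ, e⟩ := h.lift_autF h1 hR hσ'
  obtain ⟨k, hk⟩ := hA σ hσ
  refine ⟨k, mem_fix.2 fun y hy => ?_⟩
  obtain ⟨x, hx, rfl⟩ := (h.hom.mono hR).mem_im.1 hy
  rw [ind_pow (autF_le_stab _ _ hσ) e _ x hx, mem_fix.1 hk x hx]

theorem Sat.hyper_le_of_fac (hF : Sat p F) (h : Fac F F' θ V) (h1 : F'.hyperfocalSubgroup p = ⊥) :
    F.hyperfocalSubgroup p ≤ V := by
  rw [← h.im_hyper (h.fhom hF) hp.out] at h1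
  exact (h.im_eq_bot_iff hyper_le).1 h1

end quot

theorem Sat.hyper_le_of_pmod (hF : Sat p F) (hV : F.StronglyClosed V)
    (h : ∀ R, V ≤ R → R ≤ S → PMod p (Fix R) (AutF F R)) : F.hyperfocalSubgroup p ≤ V := by
  haveI := sc_normal hV
  obtain ⟨F', a⟩ := exists_fac_quot hV
  refine Sat.hyper_le_of_fac hF a ?_
  rw [(a.sat hF).eq_inner_of_pmod fun P h1 _ _ => by
    rw [← a.im_pre h1.1]; exact fac_pmod a a.K_le_pre pre_le (h _ a.K_le_pre pre_le)]
  exact hyper_inner (a.sat hF).pg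

theorem Sat.tate_rel (hF : Sat p F) (hV : F.StronglyClosed V)
    (h : ∀ M, M ⋖ S → V ≤ M → F.hyperfocalSubgroup p ≤ M) : F.hyperfocalSubgroup p ≤ V := by
  haveI := sc_normal hV
  obtain ⟨F', a⟩ := exists_fac_quot hV
  refine Sat.hyper_le_of_fac hF a (le_bot_iff.1 (Sat.tate (a.sat hF) bot_le (by simp) ?_))
  rw [bot_sup_eq, H24.map_frattini_subtype]
  refine H24.le_frattiniOf hyper_le fun M hM => ?_
  rw [← a.im_hyper (a.fhom hF) hp.out, a.im_le_iff_le_pre hyper_le]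
  refine h _ ⟨lt_of_le_of_ne pre_le fun e => hM.lt.not_ge ?_, fun C c1 c2 => ?_⟩ a.K_le_pre
  · rw [← a.pre_le_pre_iff le_rfl, a.pre_top, e]
  · have c3 := a.K_le_pre.trans c1.le
    refine hM.2 (c := im _ C) (lt_of_le_of_ne ?_ fun e => c1.ne ?_) (lt_of_le_of_ne (a.im_le c2.le) fun e => c2.ne ?_)
    · rw [← a.im_pre hM.le]; exact im_mono _ c1.le
    · rw [e, a.pre_im_of_le c3 c2.le]
    · rw [← a.pre_im_of_le c3 c2.le, e, a.pre_top]

theorem Sat.hyper_eq_bot_of_card (hF : Sat p F) (hA : PMod p (Fix S) (AutF F S))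
    (h : Nat.card (F.hyperfocalSubgroup p) ≤ p) : F.hyperfocalSubgroup p = ⊥ := by
  have h1 : F.hyperfocalSubgroup p ≤ S := hyper_le
  haveI := finite_of_le h1
  have h2 : F.hyperfocalSubgroup p ≤ centralizer (S : Set Ω) := commutator_eq_bot_iff_le_centralizer.1
    (le_bot_iff.1 (cm_le_of_card' (hF.pg.to_le h1) hF.pg le_normalizer_hyper (by simp) bot_le (by simpa using h)))
  have h3 := le_centralizer_iff.1 h2
  have h4 := central_of_fix (hF.normal_of_sc_abelian hF.sc_hyper (h2.trans (centralizer_le h1))) le_rfl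
    fun σ hσ => by
      obtain ⟨τ, t1, t2⟩ := Sat.extend_central hF (autF_mor h1 hσ) h3 (by rwa [autF_im hσ])
      obtain ⟨k, hk⟩ := hA τ t1
      have := ((Sat.ppr_of_central hF h1 h3 hσ).congr_fix (autF_le_stab _ _ hσ) t2).mem_of_pow (fix_anti h1 hk)
      exact mem_fix.2 fun x hx => by rw [← t2 x hx, mem_fix.1 this x hx]
  rw [hF.eq_inner_of_hyper_le_center (le_center h4)]
  exact hyper_inner hF.pg

theorem Sat.hyper_eq_bot_of_wsc (hF : Sat p F) (h1 : 1 < p ^ d) (h2 : p ^ d < Nat.card S) (hw : Wsc F (p ^ d))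
    (hA : ∀ R ≤ S, p ^ d ≤ Nat.card R → PMod p (Fix R) (AutF F R)) : F.hyperfocalSubgroup p = ⊥ := by
  by_contra hne
  set H := F.hyperfocalSubgroup p
  obtain ⟨V, ⟨v1, v2⟩, hV⟩ := exists_max_of_bdd (fun X : Subgroup Ω => F.StronglyClosed X ∧ ¬ H ≤ X)
    (fun X => Nat.card X) _ (fun X a => card_le_of_le a.1.1) ⟨⊥, sc_bot, by simpa using hne⟩
  have kV : ∀ X, F.StronglyClosed X → X ≤ V ∨ H ≤ V ⊔ X := fun X a => by
    haveI := finite_of_le (hF.sc_sup v1 a).1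
    by_contra! e
    exact e.1 (le_sup_right.trans (eq_of_le_of_card_ge le_sup_left (hV _ ⟨hF.sc_sup v1 a, e.2⟩)).ge)
  haveI := finite_of_le v1.1
  have hlt : Nat.card V < p ^ d := by
    by_contra! e
    exact v2 (Sat.hyper_le_of_pmod hF v1 fun R a b => hA R b (by
      haveI := finite_of_le b; exact e.trans (card_le_of_le a)))
  obtain ⟨M, m1, m2, m3⟩ : ∃ M, M ⋖ S ∧ V ≤ M ∧ ¬ H ≤ M := by
    by_contra! e
    exact v2 (Sat.tate_rel hF v1 e)
  haveI := finite_of_le m1.le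
  have cM : Nat.card S = p * Nat.card M := by
    have hn : S ≤ normalizer (M : Set Ω) := ((m1.eq_or_eq (lt_nIn hF.pg m1.lt).le nIn_le).resolve_left
      (lt_nIn hF.pg m1.lt).ne').ge.trans nIn_le_norm
    exact card_eq_of_forall' hF.pg m1.lt hn fun x hx hx' => ((m1.eq_or_eq le_sup_left
      (sup_le m1.le (zpowers_le.2 hx))).resolve_left fun e => hx' (e.le (mem_sup_right (mem_zpowers x)))).ge
  have hU : (V ⊔ H) ⊓ M ≤ V := fun y hy => by
    by_contra hy'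
    obtain ⟨j, j1, j2⟩ := H3.exists_pow_not_mem_pow_mem (p := p) hy' (by
      obtain ⟨k, hk⟩ := hF.pg ⟨y, m1.le hy.2⟩
      exact ⟨k, by rw [show y ^ p ^ k = 1 from congrArg Subtype.val hk]; exact one_mem _⟩)
    have hx : y ^ p ^ j ∈ (V ⊔ H) ⊓ M := pow_mem hy _
    generalize y ^ p ^ j = x at j1 j2 hx
    obtain ⟨Q, q1, q2, q3⟩ := exists_mid (d := d) (hF.pg.to_le m1.le) (sup_le m2 (zpowers_le.2 hx.2)) (by
      rw [H3.card_sup_zpowers (sc_le_normalizer v1 (m1.le hx.2)) j1 j2]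
      exact mul_le_pow (hF.pg.to_le v1.1) hlt) (by
      obtain ⟨n, hn⟩ := IsPGroup.iff_card.1 (hF.pg.to_le m1.le)
      rw [cM, hn, ← pow_succ', Nat.pow_lt_pow_iff_right hp.out.one_lt] at h2
      rw [hn]
      exact Nat.pow_le_pow_right hp.out.pos (by omega))
    have q4 : V ≤ Q := le_sup_left.trans q1
    have q5 : x ∈ Q := q1 (mem_sup_right (mem_zpowers x))
    have q6 : ¬ H ≤ Q := fun e => m3 (e.trans q2)
    obtain ⟨P, p1, p2, p3⟩ := hw Q (q2.trans m1.le) q3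
    rcases kV P p1 with k | k
    · rw [sup_eq_left.2 (k.trans q4)] at p2
      exact (kV Q p2).elim (fun e => j1 (e q5)) fun e => q6 (e.trans (sup_le q4 le_rfl))
    · have h7 : x ∈ (V ⊔ P) ⊓ Q := ⟨sup_le le_sup_left k hx.1, q5⟩
      rw [H24.sup_inf_of_le_normalizer_right (v1.1.trans (sc_le_normalizer p1)) q4, inf_comm] at h7
      exact (kV _ p3).elim (fun e => j1 (sup_le le_rfl e h7)) fun e => q6 (e.trans (sup_le q4 inf_le_left))
  haveI := sc_normal v1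
  obtain ⟨F', a⟩ := exists_fac_quot v1
  refine v2 (Sat.hyper_le_of_fac hF a (Sat.hyper_eq_bot_of_card (a.sat hF) ?_ ?_))
  · have := fac_pmod a v1.1 le_rfl (hA S le_rfl h2.le)
    rwa [a.surj] at this
  · have hUS : H ⊔ V ≤ S := sup_le hyper_le v1.1
    haveI := finite_of_le hUS
    rw [← a.im_hyper (a.fhom hF) hp.out, ← a.im_sup_K hyper_le]
    refine Nat.le_of_mul_le_mul_left ?_ (Nat.card_pos (α := V))
    rw [← a.card_eq le_sup_right hUS, ← H24.card_mul_relIndex (le_sup_right : V ≤ H ⊔ V)]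
    refine Nat.mul_le_mul_left _ ?_
    have e : M.relIndex S = p := Nat.eq_of_mul_eq_mul_left (Nat.card_pos (α := M))
      (by rw [H24.card_mul_relIndex m1.le, cM, mul_comm])
    have e2 : V.relIndex (H ⊔ V) = M.relIndex (H ⊔ V) := by
      rw [← inf_relIndex_left (H ⊔ V) M, sup_comm H, le_antisymm hU (le_inf le_sup_left m2)]
    rw [e2, ← e]
    exact relIndex_le_of_le_right hUS (e ▸ hp.out.ne_zero)

theorem Sat.inner_iff_wsc (hF : Sat p F) (hc : p ^ 2 ≤ Nat.card S) : F.IsSubsystemOf (innerFusionSystem S) ↔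
    ∃ D : Subgroup Ω, ⊥ < D ∧ D < S ∧ Wsc F (Nat.card D) ∧
      ∀ H, F.IsFullyNormalized H → Nat.card H = Nat.card D → Loc F H (innerFusionSystem (normalizerIn S H)) := by
  constructor
  · intro h
    obtain ⟨n, hn⟩ := IsPGroup.iff_card.1 hF.pg
    rw [hn, Nat.pow_le_pow_iff_right hp.out.one_lt] at hc
    obtain ⟨m, rfl⟩ : ∃ m, n = m + 1 := ⟨n - 1, by omega⟩
    have h1 : p ^ m < p ^ (m + 1) := Nat.pow_lt_pow_right hp.out.one_lt (by omega)
    obtain ⟨D, -, d1, d2⟩ := exists_mid (d := m) hF.pg bot_le (by simp [Nat.one_le_pow, hp.out.pos]) (hn ▸ h1.le)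
    refine ⟨D, bot_lt_iff_ne_bot.2 fun e => ?_, lt_of_le_of_ne d1 fun e => h1.ne (by rw [← d2, e, hn]),
      fun Q q1 q2 => ⟨⊥, sc_bot, ?_, by simpa using sc_bot⟩, fun H a _ P σ b c e f => ?_⟩
    · rw [e, card_bot] at d2
      exact (Nat.one_lt_pow (by omega) hp.out.one_lt).ne d2
    · rw [sup_bot_eq]
      have := le_norm_of_card hF.pg q1 (by rw [q2, d2, hn, pow_succ'])
      refine stronglyClosed_iff.2 ⟨q1, fun P σ hσ x hx hx' => ?_⟩
      obtain ⟨-, g, hg, e⟩ := mor_inner_iff.1 (hσ.sub h)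
      rw [e x hx]
      exact conj_mem_of_mem_normalizer (this hg) hx'
    · obtain ⟨-, g, hg, e⟩ := mor_inner_iff.1 (e.sub h)
      refine mor_inner_iff.2 ⟨c, g, ⟨hg, cj_mem_stab.1 ?_⟩, e⟩
      exact mem_of_eq_on fix_le_stab f fun x hx => (e x (b hx)).symm
  · rintro ⟨D, d1, d2, d3, d4⟩
    haveI := finite_of_le d2.le
    obtain ⟨d, hd⟩ := IsPGroup.iff_card.1 (hF.pg.to_le d2.le)
    rw [hd] at d3 d4
    rw [hF.eq_inner_of_hyper (Sat.hyper_eq_bot_of_wsc hF (by simpa [hd] using card_lt_of_lt d1)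
      (hd ▸ card_lt_of_lt d2) d3 fun R hR hc => ?_)]
    · exact sub_refl _
    obtain ⟨Q, q1, q2, q3⟩ := d3.exists_inv hF.pg hR hc
    exact Sat.pmod_of_loc hF hR q1 q3 fun σ hσ hn => (d4 _ hn (hσ.card_im.trans q2)).sup (inner_sub _ nIn_le)

end Cfsg.Agent.H23.LF
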