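import Cfsg.Agent.H2.Srg
import Cfsg.Agent.S0414
import Cfsg.Agent.S0428

/-! Automorphisms of the strongly regular graph with parameters `(100, 22, 0, 6)`. -/

set_option autoImplicit false

namespace Cfsg.Agent.L0.HS

open Cfsg Finset H16 H2.St SimpleGraph MulAction
open scoped Classical Pointwise

variable {α β : Type*} [Fintype α] {B : Set (Finset α)}

/-- pointed form of `H2.St.srg_steiner` (same proof) -/
theorem srg_pt {V : Type*} [Fintype V] {G : SimpleGraph V} [DecidableRel G.Adj] (hG : G.IsSRGWith 100 22 0 6)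
    (v : V) : ∃ B : Set (Finset (G.neighborSet v)), Fintype.card (G.neighborSet v) = 22 ∧ IsSteinerSystem 3 6 B ∧
      ∃ e : pointBlockGraph B ≃g G, e none = v := by
  have h0 : Fintype.card (G.neighborSet v) = 22 := (G.card_neighborSet_eq_degree v).trans (hG.regular v)
  have h1 : ∀ x y z, G.Adj x y → G.Adj x z → ¬ G.Adj y z := fun x y z a b c =>
    (Fintype.card_eq_zero_iff.1 (hG.of_adj x y a)).elim ⟨z, b, c⟩
  have h2 : ∀ x y, #{z | G.Adj x z ∧ G.Adj y z} = if x = y then 22 else if G.Adj x y then 0 else 6 := fun x y => by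
    have : #{z | G.Adj x z ∧ G.Adj y z} = Fintype.card (G.commonNeighbors x y) := (Fintype.card_subtype _).symm
    split_ifs with a b
    · rw [← hG.regular x, ← card_neighborFinset_eq_degree]; congr 1; ext; simp [a]
    · rw [this, hG.of_adj x y b]
    · rw [this, hG.of_not_adj a b]
  let D : Finset V := {x | x ≠ v ∧ ¬ G.Adj v x}
  let f : V → Finset (G.neighborSet v) := fun x => {a | G.Adj x a}
  have h3 : #D = 77 := by
    have := card_filter_add_card_filter_not (s := univ) fun x => x ≠ v ∧ ¬ G.Adj v x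
    rw [card_univ, hG.card, show ({x | ¬ (x ≠ v ∧ ¬ G.Adj v x)} : Finset V) = insert v (G.neighborFinset v) by
      ext; simp [or_iff_not_imp_left], card_insert_of_notMem (by simp), card_neighborFinset_eq_degree,
      hG.regular v] at this
    change #D + _ = _ at this
    omega
  have h4 : ∀ x ∈ D, #(f x) = 6 := fun x hx => by
    have := h2 v x
    rw [mem_filter_univ] at hx
    rw [if_neg hx.1.symm, if_neg hx.2] at this
    rw [← this, ← card_map (Function.Embedding.subtype _)]
    congr 1; ext; simp [f, and_comm]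
  have h5 : ∀ a b : G.neighborSet v, #{x ∈ D | a ∈ f x ∧ b ∈ f x} = if a = b then 21 else 5 := fun a b => by
    have := h2 a b
    rw [show ({z | G.Adj a z ∧ G.Adj b z} : Finset V) = insert v {x ∈ D | a ∈ f x ∧ b ∈ f x} by
      ext x
      have := h1 v a x a.2
      have : G.Adj a v := a.2.symm
      have : G.Adj b v := b.2.symm
      simp only [D, f, mem_filter, mem_univ, true_and, mem_insert, G.adj_comm x]
      grind, card_insert_of_notMem (by simp [D]), if_neg (h1 v a b a.2 b.2)] at this
    simp only [Subtype.val_inj] at this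
    split_ifs at * <;> omega
  have h6 : ∀ x ∈ D, #{y ∈ D | G.Adj x y} = 16 := fun x hx => by
    have := h2 x x
    rw [if_pos rfl, show ({z | G.Adj x z ∧ G.Adj x z} : Finset V) =
      (f x).map (Function.Embedding.subtype _) ∪ {y ∈ D | G.Adj x y} by
        ext y
        have : ¬ G.Adj x v := fun h => (mem_filter_univ _ |>.1 hx).2 h.symm
        simp [D, f]
        grind, card_union_of_disjoint (by simp [Finset.disjoint_left, D]; tauto), card_map, h4 x hx] at this
    omega
  have h7 : ∀ x y, G.Adj x y → f x ∩ f y = ∅ := fun x y h => by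
    ext a; simpa [f] using h1 x y a h
  have h8 : ∀ x ∈ D, ∀ y ∈ D, x ≠ y → #(f x ∩ f y) = if G.Adj x y then 0 else 2 := fun x hx => by
    have b1 : ∑ y ∈ D, #(f x ∩ f y) = 126 := by
      simp only [← filter_mem_eq_inter, card_filter]
      rw [sum_comm, sum_congr rfl (g := fun _ => 21), sum_const, h4 x hx, smul_eq_mul]
      exact fun a _ => by simpa only [card_filter, and_self, if_true] using h5 a a
    have b2 : ∑ y ∈ D, #(f x ∩ f y) * #(f x ∩ f y) = 276 := by
      simp only [← filter_mem_eq_inter, card_filter, sum_mul_sum]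
      rw [sum_comm, sum_congr rfl (g := fun _ => 46), sum_const, h4 x hx, smul_eq_mul]
      intro a ha
      rw [sum_comm, sum_congr rfl (g := fun b => 5 + if a = b then 16 else 0), sum_add_distrib, sum_ite_eq, if_pos ha,
        sum_const, h4 x hx, smul_eq_mul]
      intro b _
      have := h5 a b
      simp only [card_filter, ite_and] at this
      simp only [mul_ite, mul_one, mul_zero, ← ite_and, and_comm]
      simp only [ite_and, this]
      split_ifs <;> rfl
    have b3 := (sum_eq_sum_iff_of_le (s := D) (g := fun y => #(f x ∩ f y) * #(f x ∩ f y) + 4)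
      (f := fun y => 4 * #(f x ∩ f y) + ((if x = y then 16 else 0) + if G.Adj x y then 4 else 0)) fun y _ => by
        split_ifs with a b c
        · exact absurd b (a ▸ G.loopless.irrefl x)
        · rw [← a, inter_self, h4 x hx]
        · simp [h7 x y c]
        · nlinarith [sq_nonneg ((#(f x ∩ f y) : ℤ) - 2)]).1 (by
      simp only [sum_add_distrib, ← mul_sum, b1, b2, sum_ite_eq, if_pos hx, ← sum_filter, sum_const, h3, h6 x hx]
      rfl)
    intro y hy e
    have := b3 y hy
    split_ifs at this ⊢ with a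
    · simp [h7 x y a]
    · nlinarith
  have h9 : ∀ x ∈ D, ∀ y ∈ D, 3 ≤ #(f x ∩ f y) → x = y := fun x hx y hy h => by_contra fun e => by
    have := h8 x hx y hy e
    split_ifs at this <;> omega
  have hi : Set.InjOn f D := fun x hx y hy e => h9 x hx y hy (by rw [← e, inter_self, h4 x hx]; omega)
  have hB : IsSteinerSystem 3 6 (f '' D) := isSteiner_of_count (by rintro _ ⟨x, hx, rfl⟩; exact h4 x hx)
    (by rintro _ ⟨x, hx, rfl⟩ _ ⟨y, hy, rfl⟩ h; rw [h9 x hx y hy h])
    (by rw [hi.ncard_image, Set.ncard_coe_finset, h3, h0]; rfl)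
  let e := (hi.bijOn_image.equiv f).symm
  have he : ∀ b, f (e b) = b := fun b => congrArg Subtype.val (e.symm_apply_apply b)
  have hD : ∀ b, (e b).1 ≠ v ∧ ¬ G.Adj v (e b) := fun b => (mem_filter.1 (mem_coe.1 (e b).2)).2
  refine ⟨_, h0, hB, ⟨Equiv.ofBijective (fun x => x.elim v (Sum.elim Subtype.val fun b => e b)) ⟨?_, fun x => ?_⟩, ?_⟩, rfl⟩
  · rintro (_ | a | b) (_ | a' | b') h <;> simp only [Option.elim, Sum.elim_inl, Sum.elim_inr] at h
    · rfl
    · exact absurd h a'.2.ne
    · exact absurd h (hD b').1.symm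
    · exact absurd h a.2.ne'
    · rw [Subtype.ext h]
    · exact absurd (h ▸ a.2) (hD b').2
    · exact absurd h (hD b).1
    · exact absurd (h ▸ a'.2) (hD b).2
    · rw [e.injective (Subtype.ext h)]
  · by_cases a : x = v
    · exact ⟨none, a.symm⟩
    by_cases b : G.Adj v x
    · exact ⟨some (.inl ⟨x, b⟩), rfl⟩
    · exact ⟨some (.inr (e.symm ⟨x, mem_coe.2 (mem_filter.2 ⟨mem_univ _, a, b⟩)⟩)), by simp⟩
  have k : ∀ a b, G.Adj (e b) a.1 ↔ a ∈ b.1 := fun (a : G.neighborSet v) b => by simp [← he b, f]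
  rintro (_ | a | b) (_ | a' | b') <;>
    simp only [Equiv.ofBijective_apply, Option.elim, Sum.elim_inl, Sum.elim_inr, adj_none, adj_pt, adj_bl hB]
  · simp
  · simpa using (show G.Adj v a' from a'.2)
  · simpa using (hD b').2
  · simpa using (show G.Adj v a from a.2).symm
  · simpa using h1 v a a' a.2 a'.2
  · simp [G.adj_comm a.1, k]
  · simpa [G.adj_comm _ v] using (hD b).2
  · simp [k]
  · simp only [reduceCtorEq, Option.some.injEq, false_and, exists_false, Sum.inr.injEq, exists_eq_left', false_or]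
    rw [← he b, ← he b', disjoint_iff_inter_eq_empty]
    refine ⟨h7 _ _, fun h => by_contra fun n => ?_⟩
    have := h8 _ (e b).2 _ (e b').2 fun e' => by
      have := h4 _ (e b).2
      rw [← e', inter_self] at h
      simp [h] at this
    simp [h, n] at this

/-- the graph isomorphism induced by an isomorphism of designs -/
noncomputable def pbg [Fintype β] {B' : Set (Finset β)} (hB : IsSteinerSystem 3 6 B) (hB' : IsSteinerSystem 3 6 B')
    (e : α ≃ β) (he : ∀ b, b ∈ B ↔ e.finsetCongr b ∈ B') : pointBlockGraph B ≃g pointBlockGraph B' :=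
  ⟨(e.sumCongr (e.finsetCongr.subtypeEquiv he)).optionCongr, by
    rintro (_ | a | b) (_ | a' | b') <;>
      simp only [Equiv.optionCongr_apply, Option.map_none, Option.map_some, Equiv.sumCongr_apply, Sum.map_inl,
        Sum.map_inr] <;> simp [adj_none, adj_pt, adj_bl hB, adj_bl hB']⟩

theorem srg_trans {V W : Type*} [Fintype V] [Fintype W] {G : SimpleGraph V} {H : SimpleGraph W}
    [DecidableRel G.Adj] [DecidableRel H.Adj] (hG : G.IsSRGWith 100 22 0 6) (hH : H.IsSRGWith 100 22 0 6)
    (v : V) (w : W) : ∃ φ : G ≃g H, φ v = w := by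
  obtain ⟨B, a1, a2, e, he⟩ := srg_pt hG v
  obtain ⟨B', b1, b2, f, hf⟩ := srg_pt hH w
  obtain ⟨g, hg⟩ := iso_iff.1 (show SetSystemIso B B' by
    convert witt_unique (t := 3) (by omega) (by omega) a1 b1 a2 b2)
  refine ⟨(e.symm.trans (pbg a2 b2 g fun b => by rw [← hg]; rfl)).trans f, ?_⟩
  have h1 : e.symm v = none := e.symm_apply_eq.2 he.symm
  simp only [RelIso.trans_apply, h1]
  exact hf

theorem card_stab (hα : Fintype.card α = 22) (hB : IsSteinerSystem 3 6 B) :
    Nat.card (stabilizer (pointBlockGraph B ≃g pointBlockGraph B) (none : Option (α ⊕ B))) = 887040 := by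
  rw [← (S0414.result hα hB).1]
  refine (Nat.card_congr (Equiv.ofBijective (fun σ : setSystemAut B => (⟨pbg hB hB σ.1 fun b =>
    (Set.ext_iff.1 (mem_aut.1 σ.2) b).symm, rfl⟩ : stabilizer (pointBlockGraph B ≃g pointBlockGraph B)
      (none : Option (α ⊕ B)))) ⟨fun σ τ e => Subtype.ext (Equiv.ext fun a => ?_), fun ⟨φ, h0⟩ => ?_⟩)).symm
  · have := congrArg (fun φ : stabilizer (pointBlockGraph B ≃g pointBlockGraph B) (none : Option (α ⊕ B)) =>
      φ.1 (some (.inl a))) e
    exact Sum.inl.inj (Option.some.inj this)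
  replace h0 : φ none = none := h0
  choose s hs using fun a : α => (adj_none (B := B) (φ (some (.inl a)))).1 (by
    rw [← h0, φ.map_adj_iff]; exact (adj_none _).2 ⟨a, rfl⟩)
  let σ : Equiv.Perm α := Equiv.ofBijective s (Finite.injective_iff_bijective.1 fun a b e => by
    have := φ.injective ((hs a).trans ((congrArg (fun x => some (Sum.inl x)) e).trans (hs b).symm))
    exact Sum.inl.inj (Option.some.inj this))
  have hb : ∀ b : B, ∃ c : B, φ (some (.inr b)) = some (.inr c) ∧ c.1 = σ • b.1 := fun b => by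
    rcases e : φ (some (.inr b)) with _ | a | c
    · exact absurd (φ.injective (e.trans h0.symm)) (by simp)
    · obtain ⟨a, rfl⟩ := σ.surjective a
      exact absurd (φ.injective (e.trans (hs a).symm)) (by simp)
    · refine ⟨c, rfl, Finset.ext fun a => ?_⟩
      obtain ⟨a, rfl⟩ := σ.surjective a
      have := φ.map_adj_iff (v := some (.inl a)) (w := some (.inr b))
      rw [hs, e, adj_pt, adj_pt] at this
      rw [show σ a = σ • a from rfl, smul_mem_smul_finset_iff]
      change s a ∈ _ ↔ _
      simpa using this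
  refine ⟨⟨σ, mem_aut_of fun b h => ?_⟩, Subtype.ext (RelIso.ext ?_)⟩
  · obtain ⟨c, -, e⟩ := hb ⟨b, h⟩
    exact e ▸ c.2
  · rintro (_ | a | b)
    · exact h0.symm
    · exact (hs a).symm
    · obtain ⟨c, e1, e2⟩ := hb b
      rw [e1]
      exact congrArg (fun x => some (Sum.inr x)) (Subtype.ext (by rw [e2, smul_eq_map]; rfl))

theorem card_pbg (hα : Fintype.card α = 22) (hB : IsSteinerSystem 3 6 B) :
    Nat.card (pointBlockGraph B ≃g pointBlockGraph B) = 88704000 := by
  have := Fintype.ofFinite B
  have h := S0428.result hα hB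
  have : IsPretransitive (pointBlockGraph B ≃g pointBlockGraph B) (Option (α ⊕ B)) :=
    ⟨srg_trans h h⟩
  rw [← (stabilizer _ (none : Option (α ⊕ B))).index_mul_card, card_stab hα hB,
    index_stabilizer_of_transitive, Nat.card_eq_fintype_card, h.card]

/-- isomorphic graphs have isomorphic automorphism groups -/
def autCongr {V W : Type*} {G : SimpleGraph V} {H : SimpleGraph W} (e : G ≃g H) : (G ≃g G) ≃* (H ≃g H) where
  toFun f := (e.symm.trans f).trans e
  invFun f := (e.trans f).trans e.symm
  left_inv f := RelIso.ext fun x => by simp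
  right_inv f := RelIso.ext fun x => by simp
  map_mul' f g := RelIso.ext fun x => by simp

theorem srg_param {V : Type*} [Fintype V] {G : SimpleGraph V} [DecidableRel G.Adj] {l m : ℕ}
    (h : G.IsSRGWith 100 22 l m) : l = 0 ∧ m = 6 := by
  have h1 := h.param_eq G (by norm_num)
  obtain ⟨v⟩ : Nonempty V := Fintype.card_pos_iff.1 (h.card ▸ by omega)
  have hn : ∀ v, #(G.neighborFinset v) = 22 := h.regular
  have hc : ∀ v w, Fintype.card (G.commonNeighbors v w) = #(G.neighborFinset v ∩ G.neighborFinset w) :=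
    fun v w => by rw [← Set.toFinset_card]; congr 1; ext; simp [mem_commonNeighbors]
  obtain ⟨x, hx⟩ := card_pos.1 (show 0 < #(G.neighborFinset v) by rw [hn]; norm_num)
  have h2 := (hc v x).symm.trans (h.of_adj v x ((mem_neighborFinset ..).1 hx))
  have h3 := card_sdiff_add_card_inter (G.neighborFinset v) (G.neighborFinset x)
  have h4 : x ∈ G.neighborFinset v \ G.neighborFinset x := mem_sdiff.2 ⟨hx, by simp⟩
  have h5 := card_pos.2 ⟨x, h4⟩
  rw [hn, h2] at h3
  have key : ∀ (p : ℕ) [Fact p.Prime] (r c : ZMod p), r * r + 22 - m = 0 → 2 * r + l - m = 0 →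
      m + 2 * c * (22 + r) + 100 * c * c = 0 → 100 * (r + c) = 0 := fun p _ r c e1 e2 e3 => by
    let J : Matrix V V (ZMod p) := Matrix.of fun _ _ => 1
    have a1 : G.adjMatrix (ZMod p) * J = (22 : ZMod p) • J := by
      ext a b; simp [J, hn, card_neighborFinset_eq_degree, h.regular a]
    have a2 : J * G.adjMatrix (ZMod p) = (22 : ZMod p) • J := by
      ext a b; simp [J, hn, card_neighborFinset_eq_degree, h.regular b]
    have a3 : J * J = (100 : ZMod p) • J := by ext a b; simp [J, Matrix.mul_apply, h.card]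
    have a4 : Gᶜ.adjMatrix (ZMod p) = J - 1 - G.adjMatrix (ZMod p) := by
      ext a b
      by_cases e : a = b
      · simp [J, e]
      · by_cases e' : G.Adj a b <;> simp [J, e, e']
    have a5 := h.matrix_eq (α := ZMod p)
    rw [a4, sq] at a5
    have a6 : IsNilpotent (G.adjMatrix (ZMod p) + r • 1 + c • J) := ⟨2, by
      simp only [sq, add_mul, mul_add, a1, a2, a3, a5, Matrix.mul_smul, Matrix.smul_mul, mul_one, one_mul,
        ← Nat.cast_smul_eq_nsmul (ZMod p)]
      calc _ = (r * r + 22 - m) • (1 : Matrix V V (ZMod p)) + (2 * r + l - m) • G.adjMatrix (ZMod p) +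
        (m + 2 * c * (22 + r) + 100 * c * c) • J := by push_cast; module
        _ = 0 := by rw [e1, e2, e3, zero_smul, zero_smul, zero_smul, add_zero, add_zero]⟩
    have a7 := (Matrix.isNilpotent_trace_of_isNilpotent a6).eq_zero
    simp only [Matrix.trace_add, trace_adjMatrix, Matrix.trace_smul, Matrix.trace_one, h.card] at a7
    rw [show J.trace = 100 by simp [J, Matrix.trace, h.card]] at a7
    simp only [smul_eq_mul] at a7
    push_cast at a7
    linear_combination a7
  rcases show l = 0 ∧ m = 6 ∨ l = 7 ∧ m = 4 ∨ l = 14 ∧ m = 2 ∨ l = 21 ∧ m = 0 by omega with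
    e | ⟨rfl, rfl⟩ | ⟨rfl, rfl⟩ | ⟨rfl, rfl⟩
  · exact e
  · exact absurd (key 3 0 (-1) (by decide) (by decide) (by decide)) (by decide)
  · obtain ⟨y, hy, e⟩ := exists_mem_ne (show 1 < #(G.neighborFinset v \ G.neighborFinset x) by omega) x
    rw [mem_sdiff, mem_neighborFinset, mem_neighborFinset] at hy
    have a1 := (hc v y).symm.trans (h.of_adj v y hy.1)
    have a2 := (hc x y).symm.trans (h.of_not_adj e.symm hy.2)
    have a3 := card_union_add_card_inter (G.neighborFinset v ∩ G.neighborFinset x)
      (G.neighborFinset v ∩ G.neighborFinset y)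
    have a4 := card_le_card (show G.neighborFinset v ∩ G.neighborFinset x ∪
      G.neighborFinset v ∩ G.neighborFinset y ⊆ G.neighborFinset v from
        union_subset inter_subset_left inter_subset_left)
    have a5 := card_le_card (show G.neighborFinset v ∩ G.neighborFinset x ∩
      (G.neighborFinset v ∩ G.neighborFinset y) ⊆ G.neighborFinset x ∩ G.neighborFinset y from
        inter_subset_inter inter_subset_right inter_subset_right)
    rw [hn] at a4
    omega
  · exact absurd (@key 23 ⟨by norm_num⟩ 1 0 (by decide) (by decide) (by decide)) (by decide)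

variable {G Ω : Type*} [Group G] [MulAction G Ω] {Γ : SimpleGraph Ω}

/-- the action on an invariant graph -/
def toAut (h : ∀ (g : G) x y, Γ.Adj (g • x) (g • y) ↔ Γ.Adj x y) : G →* (Γ ≃g Γ) where
  toFun g := ⟨MulAction.toPerm g, h g _ _⟩
  map_one' := RelIso.ext fun x => one_smul G x
  map_mul' a b := RelIso.ext fun x => mul_smul a b x

theorem rank3 [Fintype Ω] [DecidableRel Γ.Adj] (h : ∀ (g : G) x y, Γ.Adj (g • x) (g • y) ↔ Γ.Adj x y)
    (hΩ : Fintype.card Ω = 100) [IsPretransitive G Ω] (a : Ω) (ha : Γ.degree a = 22)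
    (ht : ∀ y y', y ≠ a → y' ≠ a → (Γ.Adj a y ↔ Γ.Adj a y') → ∃ g : G, g • a = a ∧ g • y = y') :
    Γ.IsSRGWith 100 22 0 6 := by
  have h1 : ∀ (g : G) x y, Fintype.card (Γ.commonNeighbors (g • x) (g • y)) =
      Fintype.card (Γ.commonNeighbors x y) := fun g x y => Fintype.card_congr
    ((MulAction.toPerm g).subtypeEquiv fun z => by simp [mem_commonNeighbors, h]).symm
  have h2 : ∀ x y x' y', x ≠ y → x' ≠ y' → (Γ.Adj x y ↔ Γ.Adj x' y') →
      Fintype.card (Γ.commonNeighbors x y) = Fintype.card (Γ.commonNeighbors x' y') := fun x y x' y' e e' hh => by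
    obtain ⟨g, rfl⟩ := exists_smul_eq G a x
    obtain ⟨g', rfl⟩ := exists_smul_eq G a x'
    obtain ⟨y, rfl⟩ := MulAction.surjective g y
    obtain ⟨y', rfl⟩ := MulAction.surjective g' y'
    obtain ⟨k, k1, rfl⟩ := ht y y' (fun e1 => e (by rw [e1])) (fun e1 => e' (by rw [e1])) (by rwa [h, h] at hh)
    rw [h1, h1, ← h1 k, k1]
  obtain ⟨b, hb⟩ := (Γ.degree_pos_iff_exists_adj a).1 (by omega)
  obtain ⟨c, hc⟩ : ∃ c, c ∉ insert a (Γ.neighborFinset a) := by
    by_contra! hc
    have := (card_le_card (s := univ) fun x _ => hc x).trans (card_insert_le _ _)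
    rw [card_univ, card_neighborFinset_eq_degree] at this
    omega
  rw [mem_insert, not_or, mem_neighborFinset] at hc
  have h3 : Γ.IsSRGWith 100 22 (Fintype.card (Γ.commonNeighbors a b)) (Fintype.card (Γ.commonNeighbors a c)) :=
    ⟨hΩ, fun x => by
      obtain ⟨g, rfl⟩ := exists_smul_eq G a x
      exact ((toAut h g).degree_eq a).trans ha,
      fun x y e => h2 _ _ _ _ e.ne hb.ne (by simp [e, hb]),
      fun x y e e' => h2 _ _ _ _ e (Ne.symm hc.1) (by simp [e', hc.2])⟩
  obtain ⟨e1, e2⟩ := srg_param h3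
  rwa [e1, e2] at h3

end Cfsg.Agent.L0.HS
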