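/-
The involution centralizer of `PGU₃(q)`, `q` even: abstract properties.
-/
import Cfsg.Agent.H11.U3Aut

set_option autoImplicit false
set_option linter.unusedSectionVars false

namespace Cfsg.Agent.L0.PG

open Subgroup H11

/-- The properties of the involution centralizer used in the characterization. -/
structure CS (q : ℕ) (C : Type*) [Group C] : Prop where
  cen : ∀ u : C, u * u = 1 → ∀ g : C, g * u = u * g
  two : ∃ u v : C, u ≠ 1 ∧ v ≠ 1 ∧ u ≠ v ∧ u * u = 1 ∧ v * v = 1
  syl : ∃ Q : Subgroup C, Q.Normal ∧ IsPGroup 2 Q ∧ Odd Q.index ∧ Nat.card Q = q ^ 3 ∧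
    Nat.card (center Q) = q ∧ centralizer (Q : Set C) ≤ Q

theorem CS.of_equiv {q : ℕ} {C D : Type*} [Group C] [Group D] (h : CS q C) (e : C ≃* D) : CS q D := by
  refine ⟨fun u hu g => ?_, ?_, ?_⟩
  · have := h.cen (e.symm u) (by rw [← map_mul, hu, map_one]) (e.symm g)
    rw [← map_mul, ← map_mul] at this
    exact e.symm.injective this
  · obtain ⟨u, v, h1, h2, h3, h4, h5⟩ := h.two
    exact ⟨e u, e v, by simpa using h1, by simpa using h2, by simpa using h3,
      by rw [← map_mul, h4, map_one], by rw [← map_mul, h5, map_one]⟩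
  · obtain ⟨Q, h1, h2, h3, h4, h5, h6⟩ := h.syl
    have f : Q ≃* Q.map e.toMonoidHom := e.subgroupMap Q
    refine ⟨Q.map e.toMonoidHom, h1.map _ e.surjective, h2.of_equiv f, ?_, ?_, ?_, ?_⟩
    · rwa [show Q.map e.toMonoidHom = Q.map (e : C →* D) from rfl, index_map_equiv]
    · rw [← Nat.card_congr f.toEquiv, h4]
    · rw [← Nat.card_congr (centerCongr f).toEquiv, h5]
    · intro g hg
      refine ⟨e.symm g, h6 (mem_centralizer_iff.2 fun x hx => ?_), by simp⟩
      have := mem_centralizer_iff.1 hg (e x) ⟨x, hx, rfl⟩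
      apply e.injective
      simpa using this

theorem CS.odd_normal {q : ℕ} {C : Type*} [Group C] [Finite C] (h : CS q C) (N : Subgroup C) [N.Normal]
    (hN : Odd (Nat.card N)) : N = ⊥ := by
  obtain ⟨Q, h1, h2, -, -, -, h6⟩ := h.syl
  obtain ⟨k, hk⟩ := h2.exists_card_eq
  have hd : Disjoint N Q := by
    apply disjoint_of_coprime_natCard
    rw [hk]
    exact (Nat.coprime_two_right.2 hN).pow_right k
  have hle : N ≤ Q := fun g hg => h6 (mem_centralizer_iff.2 fun x hx =>
    (commute_of_normal_of_disjoint N Q inferInstance h1 hd g x hg hx).symm)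
  exact hd.eq_bot_of_le hle

variable {E : Type*} [Field E] {σ : E →+* E}

/-- Coordinates on the stabilizer of an isotropic vector in `GU₃`. -/
structure CC (σ : E →+* E) {C : Type*} [Group C] (X Y N : C → E) : Prop where
  cj : Cj σ
  eq : ∀ p, Y p + σ (Y p) = σ (X p) * X p
  nrm : ∀ p, σ (N p) * N p = 1
  mulN : ∀ p r, N (p * r) = N p * N r
  mulX : ∀ p r, X (p * r) = X p * σ (N r) + X r
  mulY : ∀ p r, Y (p * r) = Y p + Y r + σ (X p) * X r * N r
  ext : ∀ p r, X p = X r → Y p = Y r → N p = N r → p = r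
  surj : ∀ x y, y + σ y = σ x * x → ∃ p, X p = x ∧ Y p = y ∧ N p = 1

namespace CC

variable {C : Type*} [Group C] {X Y N : C → E} (h : CC σ X Y N)
include h

theorem N_ne (p : C) : N p ≠ 0 := fun e => by
  have := h.nrm p
  rw [e, mul_zero] at this
  exact zero_ne_one this

theorem N_one : N 1 = 1 := by
  have := h.mulN 1 1
  rw [mul_one] at this
  exact mul_left_cancel₀ (h.N_ne 1) (by rw [← this, mul_one])

/-- `N` as a homomorphism -/
def homN : C →* E := ⟨⟨N, h.N_one⟩, h.mulN⟩

/-- the unipotent radical -/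
def Q : Subgroup C := h.homN.toHomUnits.ker

theorem mem_Q {p : C} : p ∈ h.Q ↔ N p = 1 := by
  rw [Q, MonoidHom.mem_ker, Units.ext_iff]
  rfl

theorem uc : UC σ (T := h.Q) (fun p => X p) (fun p => Y p) := by
  refine ⟨h.cj, fun p => h.eq p, fun p r => ?_, fun p r => ?_, fun p r e1 e2 => ?_, fun x y e => ?_⟩
  · change X (p * r) = _
    rw [h.mulX, h.mem_Q.1 r.2, map_one, mul_one]
  · change Y (p * r) = _
    rw [h.mulY, h.mem_Q.1 r.2, mul_one]
  · exact Subtype.ext (h.ext _ _ e1 e2 (by rw [h.mem_Q.1 p.2, h.mem_Q.1 r.2]))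
  · obtain ⟨p, h1, h2, h3⟩ := h.surj x y e
    exact ⟨⟨p, h.mem_Q.2 h3⟩, h1, h2⟩

theorem of_sq {u : C} (hu : u * u = 1) : X u = 0 ∧ N u = 1 := by
  have h1 : N u = 1 := by
    have := h.mulN u u
    rw [hu, h.N_one] at this
    have h2 : (N u + 1) ^ 2 = 0 := by linear_combination -this + (N u + 1) * h.cj.two
    exact h.cj.eq_of_add (pow_eq_zero_iff two_ne_zero |>.1 h2)
  exact ⟨(h.uc.sq_eq_one_iff (p := ⟨u, h.mem_Q.2 h1⟩)).1 (Subtype.ext hu), h1⟩

theorem cen {u : C} (h1 : X u = 0) (h2 : N u = 1) (g : C) : g * u = u * g := by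
  apply h.ext
  · rw [h.mulX, h.mulX, h1, h2]; simp
  · rw [h.mulY, h.mulY, h1]; simp [add_comm]
  · rw [h.mulN, h.mulN, mul_comm]

theorem cs [Finite E] {q : ℕ} (hq : 2 < q) (hq0 : H12.q0 σ = q) (hE : Nat.card E = q ^ 2) : CS q C := by
  refine ⟨fun u hu g => h.cen (h.of_sq hu).1 (h.of_sq hu).2 g, ?_, h.Q, inferInstanceAs (MonoidHom.ker _).Normal,
    h.uc.isPGroup, ?_, ?_, ?_, ?_⟩
  · have hc : 2 < Nat.card {a : E // σ a = a} := by rw [← hq0] at hq; exact hq
    classical
    have := Fintype.ofFinite {a : E // σ a = a}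
    rw [Nat.card_eq_fintype_card] at hc
    obtain ⟨⟨a, ha⟩, h1, h2⟩ : ∃ a : {a : E // σ a = a}, a ≠ ⟨0, map_zero σ⟩ ∧ a ≠ ⟨1, map_one σ⟩ := by
      by_contra hn
      push Not at hn
      have : (Finset.univ : Finset {a : E // σ a = a}) ⊆ {⟨0, map_zero σ⟩, ⟨1, map_one σ⟩} := fun a _ => by
        by_cases e : a = ⟨0, map_zero σ⟩
        · simp [e]
        · simp [hn a e]
      have := (Finset.card_le_card this).trans Finset.card_le_two
      rw [Finset.card_univ] at this
      omega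
    obtain ⟨u, u1, u2⟩ := h.uc.exists_Z ha
    obtain ⟨v, v1, v2⟩ := h.uc.exists_Z (map_one σ)
    refine ⟨u, v, fun e => h1 (Subtype.ext ?_), fun e => ?_, fun e => h2 (Subtype.ext ?_),
      congrArg Subtype.val (h.uc.sq_eq_one_iff.2 u1), congrArg Subtype.val (h.uc.sq_eq_one_iff.2 v1)⟩
    · change a = 0
      rw [← u2, show u = 1 from Subtype.ext e]; exact h.uc.Y_one
    · rw [show v = 1 from Subtype.ext e] at v2
      exact zero_ne_one (h.uc.Y_one.symm.trans v2)
    · change a = 1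
      rw [← u2, ← v2]; exact congrArg Y e
  · rw [Q, index_ker]
    have h1 := card_subgroup_dvd_card h.homN.toHomUnits.range
    rw [Nat.card_units] at h1
    apply Odd.of_dvd_nat _ h1
    have : Fintype E := Fintype.ofFinite E
    have : CharP E 2 := CharTwo.of_one_ne_zero_of_two_eq_zero one_ne_zero h.cj.two
    have h2 := FiniteField.even_card_of_char_two (F := E) (ringChar.eq E 2)
    have h3 := Fintype.one_lt_card (α := E)
    rw [Nat.card_eq_fintype_card, Nat.odd_iff]
    omega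
  · rw [h.uc.card_eq, hq0, hE]; ring
  · rw [h.uc.card_center, hq0]
  · intro p hp
    obtain ⟨r, hr⟩ := h.uc.exists_X 1
    have h1 := congrArg X (mem_centralizer_iff.1 hp r r.2)
    rw [h.mulX, h.mulX, h.mem_Q.1 r.2, map_one, hr] at h1
    have h2 : σ (N p) = 1 := by linear_combination h1
    have := h.nrm p
    rw [h2, one_mul] at this
    exact h.mem_Q.2 this

end CC

end Cfsg.Agent.L0.PG
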