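/-
The involution centralizer of `PGU₃(q)`, `q` even: matrices.
-/
import Cfsg.Agent.L0.PG1
import Cfsg.Agent.H28.PSUAut
import Cfsg.Agent.S0283

set_option autoImplicit false
set_option linter.unusedSectionVars false

namespace Cfsg.Agent.L0.PG

open Subgroup H11 H12 H28 Matrix
open scoped MatrixGroups

variable {F : Type*} [Field F] [Fintype F] {q : ℕ} (hF : Fintype.card F = q ^ 2)

theorem memGU {g : GL (Fin 3) F} : g ∈ GU 3 F q ↔ ∀ i j, frobq hF (g 0 i) * g 0 j +
    frobq hF (g 1 i) * g 1 j + frobq hF (g 2 i) * g 2 j = (1 : Matrix (Fin 3) (Fin 3) F) i j := by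
  obtain ⟨θ, hθ, -⟩ := exists_frob_two hF
  rw [mem_GU_iff hθ, ← Matrix.ext_iff]
  refine forall_congr' fun i => forall_congr' fun j => ?_
  simp only [mul_apply, cT, transpose_apply, map_apply, Fin.sum_univ_three, hθ]
  rfl

/-- the isotropic vector -/
def vv (F : Type*) [Field F] : Fin 3 → F := ![1, 1, 0]

/-- the stabilizer of the isotropic vector -/
def MM (F : Type*) [Field F] (q : ℕ) : Subgroup (GU 3 F q) where
  carrier := {g | ((g : GL (Fin 3) F) : Matrix (Fin 3) (Fin 3) F) *ᵥ vv F = vv F}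
  mul_mem' := by
    intro a b ha hb
    simp only [Set.mem_ofPred_eq, Subgroup.coe_mul, Units.val_mul] at *
    rw [← mulVec_mulVec, hb, ha]
  one_mem' := by simp
  inv_mem' := by
    intro a ha
    simp only [Set.mem_ofPred_eq] at *
    conv_lhs => rw [← ha]
    rw [mulVec_mulVec, Subgroup.coe_inv, Units.inv_mul, one_mulVec]

theorem mem_MM {g : GU 3 F q} : g ∈ MM F q ↔ g.1 0 0 + g.1 0 1 = 1 ∧ g.1 1 0 + g.1 1 1 = 1 ∧
    g.1 2 0 + g.1 2 1 = 0 := by
  change ((g : GL (Fin 3) F) : Matrix (Fin 3) (Fin 3) F) *ᵥ vv F = vv F ↔ _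
  rw [funext_iff, Fin.forall_fin_succ, Fin.forall_fin_succ, Fin.forall_fin_one]
  simp [mulVec, dotProduct, Fin.sum_univ_three, vv]

/-- the matrices of the stabilizer -/
def mat (x y e : F) : Matrix (Fin 3) (Fin 3) F :=
  !![1 + y, y, frobq hF x; y, 1 + y, frobq hF x; x * e, x * e, e]

variable (h : Cj (frobq hF))
include h

theorem form {g : GU 3 F q} (hg : g ∈ MM F q) : ∃ x y e, (g.1 : Matrix (Fin 3) (Fin 3) F) = mat hF x y e ∧
    y + frobq hF y = frobq hF x * x ∧ frobq hF e * e = 1 := by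
  obtain ⟨a1, a2, a3⟩ := mem_MM.1 hg
  have u := (memGU hF).1 g.2
  have u00 := u 0 0
  have u01 := u 0 1
  have u02 := u 0 2
  have u10 := u 1 0
  have u11 := u 1 1
  have u20 := u 2 0
  have u21 := u 2 1
  have u22 := u 2 2
  simp only [one_apply_eq, one_apply_ne (show (0 : Fin 3) ≠ 1 by decide),
    one_apply_ne (show (0 : Fin 3) ≠ 2 by decide), one_apply_ne (show (1 : Fin 3) ≠ 0 by decide),
    one_apply_ne (show (2 : Fin 3) ≠ 0 by decide), one_apply_ne (show (2 : Fin 3) ≠ 1 by decide)] at *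
  have inj := (frobq hF).injective
  have b1 : g.1 0 0 + g.1 1 0 = 1 := inj (by
    rw [map_add, map_one]
    linear_combination u00 + u01 - frobq hF (g.1 0 0) * a1 - frobq hF (g.1 1 0) * a2 - frobq hF (g.1 2 0) * a3)
  have b3 : g.1 0 2 + g.1 1 2 = 0 := inj (by
    rw [map_add, map_zero]
    linear_combination u20 + u21 - frobq hF (g.1 0 2) * a1 - frobq hF (g.1 1 2) * a2 - frobq hF (g.1 2 2) * a3)
  have t := h.two
  have e00 : g.1 0 0 = 1 + g.1 0 1 := by linear_combination a1 - g.1 0 1 * t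
  have e10 : g.1 1 0 = g.1 0 1 := by linear_combination b1 - a1
  have e11 : g.1 1 1 = 1 + g.1 0 1 := by linear_combination a2 - e10 - g.1 0 1 * t
  have e12 : g.1 1 2 = g.1 0 2 := by linear_combination b3 - g.1 0 2 * t
  have e21 : g.1 2 1 = g.1 2 0 := by linear_combination a3 - g.1 2 0 * t
  rw [e12] at u22 u02
  rw [e00, e10, map_add, map_one] at u02
  rw [e00, e10, e11, e21, map_add, map_one] at u01
  have n : frobq hF (g.1 2 2) * g.1 2 2 = 1 := by
    linear_combination u22 - frobq hF (g.1 0 2) * g.1 0 2 * t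
  have c1 : g.1 0 2 = frobq hF (g.1 2 0) * g.1 2 2 := by
    linear_combination u02 - (frobq hF (g.1 0 1) * g.1 0 2 + frobq hF (g.1 2 0) * g.1 2 2) * t
  have c2 : g.1 2 0 = frobq hF (g.1 0 2) * g.1 2 2 := by
    rw [c1, map_mul, h.inv]
    linear_combination -g.1 2 0 * n
  refine ⟨frobq hF (g.1 0 2), g.1 0 1, g.1 2 2, ?_, ?_, n⟩
  · ext i j
    fin_cases i <;> fin_cases j <;> simp [mat, h.inv, e00, e10, e11, e12, e21, ← c2]
  · rw [h.inv]
    have c3 : frobq hF (g.1 2 0) * g.1 2 0 = g.1 0 2 * frobq hF (g.1 0 2) := by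
      conv_lhs => rw [c2, map_mul, h.inv]
      linear_combination g.1 0 2 * frobq hF (g.1 0 2) * n
    linear_combination u01 - c3 - (frobq hF (g.1 0 1) * g.1 0 1 + g.1 0 2 * frobq hF (g.1 0 2)) * t

theorem det_mat (x y e : F) : (mat hF x y e).det = e := by
  have t := h.two
  simp only [mat, det_fin_three, of_apply, cons_val', cons_val_zero, cons_val_one, cons_val_fin_one, cons_val]
  linear_combination (y * e - frobq hF x * x * e) * t

theorem exists_mat {x y e : F} (h1 : y + frobq hF y = frobq hF x * x) (h2 : frobq hF e * e = 1) :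
    ∃ g : GU 3 F q, g ∈ MM F q ∧ (g.1 : Matrix (Fin 3) (Fin 3) F) = mat hF x y e := by
  have t := h.two
  have he : e ≠ 0 := fun e0 => by simp [e0] at h2
  let g : GL (Fin 3) F := GeneralLinearGroup.mkOfDetNeZero (mat hF x y e) (by rwa [det_mat hF h])
  have hg : ∀ i j, g i j = mat hF x y e i j := fun _ _ => rfl
  refine ⟨⟨g, (memGU hF).2 fun i j => ?_⟩, mem_MM.2 ?_, rfl⟩
  · simp only [hg]
    fin_cases i <;> fin_cases j <;> simp [mat, h.inv]
    · linear_combination h1 + frobq hF x * x * h2 + (frobq hF y * y + frobq hF x * x) * t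
    · linear_combination h1 + frobq hF x * x * h2 + (frobq hF y * y + frobq hF x * x) * t
    · linear_combination frobq hF x * h2 + (frobq hF y * frobq hF x + frobq hF x) * t
    · linear_combination h1 + frobq hF x * x * h2 + (frobq hF y * y + frobq hF x * x) * t
    · linear_combination h1 + frobq hF x * x * h2 + (frobq hF y * y + frobq hF x * x) * t
    · linear_combination frobq hF x * h2 + (frobq hF y * frobq hF x + frobq hF x) * t
    · linear_combination x * h2 + (x * y + x) * t
    · linear_combination x * h2 + (x * y + x) * t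
    · linear_combination h2 + (x * frobq hF x) * t
  · simp only [hg, mat]
    simp
    refine ⟨?_, ?_, ?_⟩
    · linear_combination y * t
    · linear_combination y * t
    · linear_combination (x * e) * t

theorem cc : CC (frobq hF) (C := MM F q) (fun g => frobq hF (g.1.1 0 2)) (fun g => g.1.1 0 1)
    (fun g => g.1.1 2 2) := by
  have t := h.two
  have hm : ∀ (p r : MM F q) i j, (p * r).1.1 i j = ∑ k, p.1.1 i k * r.1.1 k j := fun p r i j => by
    simp [mul_apply]
  have hf : ∀ p : MM F q, ∃ x y e, (∀ i j, p.1.1 i j = mat hF x y e i j) ∧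
      y + frobq hF y = frobq hF x * x ∧ frobq hF e * e = 1 := fun p => by
    obtain ⟨x, y, e, h1, h2⟩ := form hF h p.2
    exact ⟨x, y, e, fun i j => congrFun (congrFun h1 i) j, h2⟩
  refine ⟨h, fun p => ?_, fun p => ?_, fun p r => ?_, fun p r => ?_, fun p r => ?_, fun p r => ?_,
    fun x y e => ?_⟩
  · obtain ⟨x, y, e, h1, h2, h3⟩ := hf p
    simpa [h1, mat, h.inv] using h2
  · obtain ⟨x, y, e, h1, h2, h3⟩ := hf p
    simpa [h1, mat, h.inv] using h3
  · obtain ⟨x, y, e, h1, -⟩ := hf p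
    obtain ⟨x', y', e', h1', -⟩ := hf r
    simp only [hm, Fin.sum_univ_three, h1, h1', mat]
    simp
    linear_combination (x * e * frobq hF x') * t
  · obtain ⟨x, y, e, h1, -⟩ := hf p
    obtain ⟨x', y', e', h1', -⟩ := hf r
    simp only [hm, Fin.sum_univ_three, h1, h1', mat]
    simp [h.inv]
    linear_combination (frobq hF y * x') * t
  · obtain ⟨x, y, e, h1, -⟩ := hf p
    obtain ⟨x', y', e', h1', -⟩ := hf r
    simp only [hm, Fin.sum_univ_three, h1, h1', mat]
    simp [h.inv]
    linear_combination (y * y') * t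
  · obtain ⟨x, y, e, h1, -⟩ := hf p
    obtain ⟨x', y', e', h1', -⟩ := hf r
    simp only [h1, h1', mat]
    simp only [h.inv, of_apply, cons_val', cons_val_zero, cons_val_one, cons_val_fin_one, cons_val]
    rintro rfl rfl rfl
    exact Subtype.ext (Subtype.ext (Units.ext (Matrix.ext fun i j => (h1 i j).trans (h1' i j).symm)))
  · obtain ⟨g, h1, h2⟩ := exists_mat hF h (e := 1) e (by simp)
    have h3 : ∀ i j, g.1 i j = mat hF x y 1 i j := fun i j => congrFun (congrFun h2 i) j
    exact ⟨⟨g, h1⟩, by simp [h3, mat, h.inv], by simp [h3, mat], by simp [h3, mat]⟩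

end Cfsg.Agent.L0.PG
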