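/-
`PGU₃(q)` inside the automorphism group of `PSU₃(q)`, `q` even.
-/
import Cfsg.Agent.L0.PG2

set_option autoImplicit false
set_option linter.unusedSectionVars false

namespace Cfsg.Agent.L0.PG

open Subgroup H11 H12 H28 Matrix
open scoped MatrixGroups

variable {F : Type*} [Field F] [Fintype F] {q : ℕ} (hF : Fintype.card F = q ^ 2)

/-- `PGU₃(q)` -/
abbrev AA (F : Type*) [Field F] (q : ℕ) := ↥(GU 3 F q) ⧸ center ↥(GU 3 F q)

include hF in
theorem center_GU {g : GU 3 F q} : g ∈ center (GU 3 F q) ↔ (g : GL (Fin 3) F) ∈ center (GL (Fin 3) F) := by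
  constructor
  · intro hg
    refine ((triv_SU hF (n := 3) le_rfl).d_eq_one_iff (g := g)).1 ?_
    refine (((dataSU 3 hF).eq_d_iff (g := g)).2 fun s s' e => ?_).symm
    have := congrArg Subtype.val (mem_center_iff.1 hg ⟨_, (dataSU 3 hF).le s⟩)
    simp only [Subgroup.coe_mul] at this
    change _ = g.1 * _ * g.1⁻¹ at e
    rw [← this, mul_inv_cancel_right] at e
    rw [(dataSU 3 hF).inj e]; rfl
  · intro hg
    exact mem_center_iff.2 fun x => Subtype.ext (mem_center_iff.1 hg x)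

/-- the action of `PGU` on `PSU` -/
noncomputable def δ : AA F q →* MulAut (PSU 3 F q) :=
  QuotientGroup.lift _ (dataSU 3 hF).d fun g hg => (dataSU 3 hF).d_of_center ((center_GU hF).1 hg)

theorem δ_mk (g : GU 3 F q) : δ hF (g : AA F q) = (dataSU 3 hF).d g := rfl

theorem δ_inj : Function.Injective (δ hF) := by
  rw [injective_iff_map_eq_one]
  intro a ha
  induction a using QuotientGroup.induction_on with | H g => ?_
  exact (QuotientGroup.eq_one_iff g).2 ((center_GU hF).2
    (((triv_SU hF (n := 3) le_rfl).d_eq_one_iff (g := g)).1 ha))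

/-- `SU` inside `GU` -/
def ι (s : SU 3 F q) : GU 3 F q := ⟨jSU 3 F q s, s.2⟩

theorem δ_ι (s : SU 3 F q) : δ hF (ι s : AA F q) = MulAut.conj (s : PSU 3 F q) := (dataSU 3 hF).d_le s

include hF in
theorem eq_of_mk {g k : GU 3 F q} (hg : g ∈ MM F q) (hk : k ∈ MM F q) (e : (g : AA F q) = k) : g = k := by
  rw [QuotientGroup.eq, center_GU hF, mem_center_GL_iff] at e
  obtain ⟨u, hu⟩ := e
  have h1 := (mem_MM.1 (mul_mem (inv_mem hg) hk)).1
  rw [← hu] at h1
  have h2 : (u : F) = 1 := by simpa using h1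
  rw [show u = 1 from Units.ext h2, map_one] at hu
  exact inv_mul_eq_one.1 (Subtype.ext hu.symm)

variable (h : Cj (frobq hF))
include h

theorem exists_z {c : F} (hc : frobq hF c = c) : ∃ s : SU 3 F q, ι s ∈ MM F q ∧
    ((ι s).1 : Matrix (Fin 3) (Fin 3) F) = mat hF 0 c 1 := by
  obtain ⟨g, h1, h2⟩ := exists_mat hF h (x := 0) (y := c) (e := 1) (by rw [hc, h.add_self, mul_zero]) (by simp)
  obtain ⟨s, hs⟩ := mem_range_jSU.2 ⟨g.2, by rw [h2, det_mat hF h]⟩
  have : ι s = g := Subtype.ext hs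
  exact ⟨s, this ▸ h1, this ▸ h2⟩

theorem cent_z {g k : GU 3 F q} {c : F} (hg : g ∈ MM F q) (hk : k ∈ MM F q)
    (e : (k.1 : Matrix (Fin 3) (Fin 3) F) = mat hF 0 c 1) : g * k = k * g :=
  congrArg Subtype.val ((cc hF h).cen (u := ⟨k, hk⟩) (by simp [e, mat]) (by simp [e, mat]) ⟨g, hg⟩)

theorem sq_z {k : GU 3 F q} {c : F} (e : (k.1 : Matrix (Fin 3) (Fin 3) F) = mat hF 0 c 1) : k * k = 1 := by
  have t := h.two
  refine Subtype.ext (Units.ext ?_)
  simp only [Subgroup.coe_mul, Units.val_mul, e, mat, OneMemClass.coe_one, Units.val_one]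
  ext i j
  fin_cases i <;> fin_cases j <;> simp [mul_apply, Fin.sum_univ_three]
  · linear_combination (c + c * c) * t
  · linear_combination (c + c * c) * t
  · linear_combination (c + c * c) * t
  · linear_combination (c + c * c) * t

theorem exists_MM {k : GU 3 F q} (e : (k.1 : Matrix (Fin 3) (Fin 3) F) = mat hF 0 1 1) {a : AA F q}
    (ha : a * k = k * a) : ∃ g ∈ MM F q, (g : AA F q) = a := by
  have t := h.two
  induction a using QuotientGroup.induction_on with | H g => ?_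
  rw [← QuotientGroup.mk_mul, ← QuotientGroup.mk_mul, QuotientGroup.eq] at ha
  have hk := sq_z hF h e
  have hc : g * k = k * g := by
    set c := (g * k)⁻¹ * (k * g) with hc
    have h1 : k = g * (k * c) * g⁻¹ := by rw [hc]; group
    have h2 : c * c = 1 := by
      have h3 := hk
      rw [h1, show g * (k * c) * g⁻¹ * (g * (k * c) * g⁻¹) = g * (k * (c * k) * c) * g⁻¹ by group,
        ← mem_center_iff.1 ha k, show k * (k * c) * c = k * k * (c * c) by group, hk, one_mul] at h3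
      exact conj_eq_one_iff.1 h3
    obtain ⟨u, hu⟩ := mem_center_GL_iff.1 ((center_GU hF).1 ha)
    have h4 : u * u = 1 := scalarGL_injective (ι := Fin 3) (by
      rw [map_mul, hu, map_one]; exact congrArg Subtype.val h2)
    have h5 : (u : F) = 1 := by
      have h6 : (u : F) * u = 1 := congrArg Units.val h4
      have h7 : ((u : F) + 1) ^ 2 = 0 := by linear_combination h6 + ((u : F) + 1) * t
      exact h.eq_of_add (pow_eq_zero_iff two_ne_zero |>.1 h7)
    rw [show u = 1 from Units.ext h5, map_one] at hu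
    exact inv_mul_eq_one.1 (Subtype.ext hu.symm)
  have hm : ∀ i j, ∑ l, g.1 i l * mat hF 0 1 1 l j = ∑ l, mat hF 0 1 1 i l * g.1 l j := fun i j => by
    have := congrArg (fun x : GU 3 F q => x.1 i j) hc
    simpa [mul_apply, e] using this
  have o : (1 : F) + 1 = 0 := h.add_self 1
  have m00 := hm 0 0
  have m01 := hm 0 1
  have m20 := hm 2 0
  simp [Fin.sum_univ_three, mat, o] at m00 m01 m20
  have u := (memGU hF).1 g.2
  have u00 := u 0 0
  have u01 := u 0 1
  simp only [one_apply_eq, one_apply_ne (show (0 : Fin 3) ≠ 1 by decide)] at u00 u01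
  rw [← m00] at u00 u01
  rw [← m01, m20] at u01
  have n : frobq hF (g.1 0 0 + g.1 0 1) * (g.1 0 0 + g.1 0 1) = 1 := by
    rw [map_add]
    linear_combination u00 + u01 - frobq hF (g.1 2 0) * g.1 2 0 * t
  have n0 : g.1 0 0 + g.1 0 1 ≠ 0 := fun e0 => by simp [e0] at n
  let w : Fˣ := (Units.mk0 _ n0)⁻¹
  have hw : GeneralLinearGroup.scalar (Fin 3) w ∈ GU 3 F q := (scalar_mem_GU hF (by norm_num)).2 (by
    rw [inv_pow, inv_eq_one, pow_succ]
    exact Units.ext n)
  have hw' : (w : F) * (g.1 0 0 + g.1 0 1) = 1 := w.mul_inv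
  refine ⟨⟨_, hw⟩ * g, mem_MM.2 ?_, ?_⟩
  · have : ∀ i j, ((⟨_, hw⟩ * g : GU 3 F q) : GL (Fin 3) F) i j = w * g.1 i j := fun i j => by simp
    simp only [this]
    refine ⟨?_, ?_, ?_⟩
    · linear_combination hw'
    · rw [← m00, ← m01]; linear_combination hw'
    · rw [m20]; linear_combination (w * g.1 2 0) * t
  · rw [QuotientGroup.mk_mul, (QuotientGroup.eq_one_iff _).2 ((center_GU hF).2 (scalar_mem_center w)), one_mul]

theorem cs_cent (hq : 2 < q) {k : GU 3 F q} (hk : k ∈ MM F q)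
    (e : (k.1 : Matrix (Fin 3) (Fin 3) F) = mat hF 0 1 1) :
    CS q (centralizer ({(k : AA F q)} : Set (AA F q))) := by
  let f : MM F q →* centralizer ({(k : AA F q)} : Set (AA F q)) :=
    ((QuotientGroup.mk' _).comp (MM F q).subtype).codRestrict _ fun g =>
      mem_centralizer_singleton_iff.2 (by
        change ((g : GU 3 F q) : AA F q) * k = k * (g : GU 3 F q)
        rw [← QuotientGroup.mk_mul, ← QuotientGroup.mk_mul, cent_z hF h g.2 hk e])
  refine ((cc hF h).cs hq (q0_frobq hF) (by rw [Nat.card_eq_fintype_card, hF])).of_equiv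
    (MulEquiv.ofBijective f ⟨fun a b e => Subtype.ext (eq_of_mk hF a.2 b.2 (congrArg Subtype.val e)), fun a => ?_⟩)
  obtain ⟨g, hg, e⟩ := exists_MM hF h e (mem_centralizer_singleton_iff.1 a.2)
  exact ⟨⟨g, hg⟩, Subtype.ext e⟩

omit h in
theorem even_q [CharP F 2] (hF : Fintype.card F = q ^ 2) : Even q := by
  have := FiniteField.even_card_of_char_two (F := F) (ringChar.eq F 2)
  rw [hF, ← Nat.even_iff, Nat.even_pow] at this
  exact this.1

theorem conj_inj (hq : 2 < q) :
    Function.Injective (MulAut.conj : PSU 3 F q →* MulAut (PSU 3 F q)) := by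
  have : CharP F 2 := CharTwo.of_one_ne_zero_of_two_eq_zero one_ne_zero h.two
  have := S0283.result hF 3 le_rfl (by omega)
  rw [← MonoidHom.ker_eq_bot_iff]
  refine (IsSimpleGroup.eq_bot_or_eq_top_of_normal _ inferInstance).resolve_right fun e => ?_
  obtain ⟨P⟩ : Nonempty (Sylow 2 (PSU 3 F q)) := inferInstance
  obtain ⟨X, Y, hu⟩ := exists_uc_PSU hF (even_q hF) P
  obtain ⟨a, b, hab⟩ := hu.not_comm
  have h1 : MulAut.conj (a : PSU 3 F q) = 1 := (e ▸ mem_top _ : (a : PSU 3 F q) ∈ MulAut.conj.ker)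
  have h2 := congrArg (fun f : MulAut (PSU 3 F q) => f b) h1
  exact hab (Subtype.ext (mul_inv_eq_iff_eq_mul.1 h2))

theorem sq_mem (hq : 2 < q) {s : SU 3 F q} (hk : ι s ∈ MM F q)
    (e : ((ι s).1 : Matrix (Fin 3) (Fin 3) F) = mat hF 0 1 1) (β : MulAut (PSU 3 F q))
    (hβ : ∀ u : PSU 3 F q, u * u = 1 → u * s = s * u → β u = u) : β * β ∈ (δ hF).range := by
  have ci := conj_inj hF h hq
  obtain ⟨g, τ, rfl⟩ := surj_SU hF (n := 3) le_rfl (by omega) β
  have hf : ∀ (c : F) (z z' : SU 3 F q), ((ι z).1 : Matrix (Fin 3) (Fin 3) F) = mat hF 0 c 1 →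
      ((ι z').1 : Matrix (Fin 3) (Fin 3) F) = mat hF 0 (τ c) 1 →
      (dataSU 3 hF).f τ (z : PSU 3 F q) = (z' : PSU 3 F q) := fun c z z' e1 e2 =>
    (dataSU 3 hF).eq_f_iff.1 rfl z z' (Units.ext (by
      rw [coe_fieldGL]
      change ((ι z').1 : Matrix (Fin 3) (Fin 3) F) = ((ι z).1 : Matrix (Fin 3) (Fin 3) F).map τ
      rw [e1, e2]
      ext i j
      fin_cases i <;> fin_cases j <;> simp [mat]))
  have key : ∀ (a : AA F q) (z : SU 3 F q), δ hF a (z : PSU 3 F q) = z ↔ a * ι z = ι z * a := fun a z => by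
    rw [← ci.eq_iff, ← (δ_inj hF).eq_iff, map_mul, map_mul, δ_ι, ← mul_inv_eq_iff_eq_mul]
    have : δ hF a * MulAut.conj (z : PSU 3 F q) * (δ hF a)⁻¹ = MulAut.conj (δ hF a (z : PSU 3 F q)) := by
      ext x; simp
    rw [this]
  have hz : ∀ (c : F) (z : SU 3 F q), ι z ∈ MM F q → ((ι z).1 : Matrix (Fin 3) (Fin 3) F) = mat hF 0 c 1 →
      ((dataSU 3 hF).d g * (dataSU 3 hF).f τ) (z : PSU 3 F q) = z := fun c z h1 h2 => by
    have hι : Function.Injective (ι : SU 3 F q → GU 3 F q) := fun a b e =>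
      jSU_injective (congrArg Subtype.val e)
    have hι' : ∀ a b : SU 3 F q, ι (a * b) = ι a * ι b := fun a b => Subtype.ext (map_mul _ a b)
    apply hβ
    · rw [← QuotientGroup.mk_mul, show z * z = 1 from hι (by
        rw [hι', sq_z hF h h2]; exact Subtype.ext (map_one _).symm)]
      rfl
    · rw [← QuotientGroup.mk_mul, ← QuotientGroup.mk_mul,
        show z * s = s * z from hι (by rw [hι', hι', cent_z hF h h1 hk e])]
  have h1 : δ hF (show GU 3 F q from g) (s : PSU 3 F q) = s := by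
    have := hz 1 s hk e
    rwa [MulAut.mul_apply, hf 1 s s e (by rw [map_one, e])] at this
  obtain ⟨g', hg', e'⟩ := exists_MM hF h e ((key _ s).1 h1)
  have hfix : ∀ c, frobq hF c = c → τ c = c := fun c hc => by
    obtain ⟨z, z1, z2⟩ := exists_z hF h hc
    obtain ⟨z', z1', z2'⟩ := exists_z hF h (c := τ c) (by rw [← h.comm, hc])
    have h2 := hz c z z1 z2
    rw [MulAut.mul_apply, hf c z z' z2 z2'] at h2
    have h3 : δ hF (show GU 3 F q from g) (z' : PSU 3 F q) = z' := (key _ z').2 (by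
      rw [← e', ← QuotientGroup.mk_mul, ← QuotientGroup.mk_mul, cent_z hF h hg' z1' z2'])
    have h4 : (z' : PSU 3 F q) = z := h3.symm.trans h2
    have h5 : (ι z' : AA F q) = ι z := δ_inj hF (by rw [δ_ι, δ_ι, h4])
    rw [eq_of_mk hF z1' z1 h5, z2] at z2'
    simpa [mat] using (congrFun (congrFun z2' 0) 1).symm
  have hτ : τ * τ = 1 := by
    ext x
    have a1 := hfix (x + frobq hF x) (by rw [map_add, h.inv, add_comm])
    have a2 := hfix _ (h.norm x)
    rw [map_add] at a1
    rw [map_mul] at a2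
    have a3 : (τ x - x) * (τ x - frobq hF x) = 0 := by linear_combination τ x * a1 - a2
    change τ (τ x) = x
    rcases mul_eq_zero.1 a3 with a | a
    · rw [sub_eq_zero.1 a, sub_eq_zero.1 a]
    · conv_lhs => rw [sub_eq_zero.1 a, h.comm, sub_eq_zero.1 a, h.inv]
  rw [mul_assoc, ← mul_assoc ((dataSU 3 hF).f τ), MatData.f_mul_d, mul_assoc, ← map_mul, hτ, map_one, mul_one,
    ← map_mul]
  exact ⟨_, δ_mk hF _⟩

omit h in
theorem pack [CharP F 2] (hF : Fintype.card F = q ^ 2) (hq : 2 < q) :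
    ∃ (δ : AA F q →* MulAut (PSU 3 F q)) (y : AA F q) (x : PSU 3 F q), Function.Injective δ ∧
      (∀ p, MulAut.conj p ∈ δ.range) ∧ δ y = MulAut.conj x ∧ orderOf y = 2 ∧
      CS q (centralizer ({y} : Set (AA F q))) ∧
      ∀ β : MulAut (PSU 3 F q), (∀ u, u * u = 1 → u * x = x * u → β u = u) → β * β ∈ δ.range := by
  have h := cj_frobq hF (even_q hF)
  obtain ⟨s, h1, h2⟩ := exists_z hF h (c := 1) (map_one _)
  refine ⟨δ hF, ι s, s, δ_inj hF, fun p => ?_, δ_ι hF s, ?_, cs_cent hF h hq h1 h2, sq_mem hF h hq h1 h2⟩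
  · induction p using QuotientGroup.induction_on with | H p => exact ⟨_, δ_ι hF p⟩
  · refine orderOf_eq_prime ?_ fun e => ?_
    · rw [pow_two, ← QuotientGroup.mk_mul, sq_z hF h h2]; rfl
    · rw [eq_of_mk hF h1 (one_mem _) e] at h2
      simpa [mat] using congrFun (congrFun h2 0) 1

end Cfsg.Agent.L0.PG
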