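import Cfsg.Agent.H12.MaxS
import Cfsg.Agent.H12.SBridge
import Cfsg.Agent.L0.RU6

/-! Regular unipotent elements of symplectic and unitary groups. -/

set_option autoImplicit false

namespace Cfsg.Agent.L0.RV

open Module Cfsg.Agent.H12

universe u

variable {F : Type*} {V : Type u} [Field F] [AddCommGroup V] [Module F V] {σ : F →+* F}
  {B : V →ₛₗ[σ] V →ₗ[F] F}

/-- the nilpotent part -/
def Nm (u : UG B) : Module.End F V := (u.1 : V →ₗ[F] V) - 1

theorem Nm_apply (u : UG B) (x : V) : Nm u x = u.1 x - x := rfl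

theorem u_eq (u : UG B) (x : V) : u.1 x = x + Nm u x := by rw [Nm_apply]; abel

theorem Nm_succ (u : UG B) (k : ℕ) (x : V) : (Nm u ^ (k + 1)) x = Nm u ((Nm u ^ k) x) := by
  rw [pow_succ']; rfl

theorem Nm_succ' (u : UG B) (k : ℕ) (x : V) : (Nm u ^ (k + 1)) x = (Nm u ^ k) (Nm u x) := by
  rw [pow_succ]; rfl

theorem u_comm (u : UG B) (k : ℕ) (x : V) : u.1 ((Nm u ^ k) x) = (Nm u ^ k) (u.1 x) := by
  rw [u_eq, u_eq u x, map_add, ← Nm_succ, Nm_succ']

theorem adj (u : UG B) (k : ℕ) : ∀ y z : V, (Nm u ^ k) z = 0 → B ((Nm u ^ k) y) z = 0 := by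
  induction k with
  | zero => intro y z h; simp only [pow_zero, Module.End.one_apply] at h; simp [h]
  | succ k ih =>
    intro y z h
    have h1 := ih y ((u⁻¹).1 z - z) (u.1.injective (by
      rw [u_comm, map_sub, UG_apply_inv, map_zero, ← neg_sub, ← Nm_apply, map_neg, ← Nm_succ', h, neg_zero]))
    rw [Nm_succ, Nm_apply, map_sub, LinearMap.sub_apply, UG_map_left, ← map_sub, h1]

theorem orth (u : UG B) {d i j : ℕ} (h : Nm u ^ d = 0) (hd : d ≤ i + j) (x y : V) :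
    B ((Nm u ^ i) x) ((Nm u ^ j) y) = 0 := by
  refine adj u i _ _ ?_
  rw [← Module.End.mul_apply, ← pow_add, pow_eq_zero_of_le hd h]; rfl

theorem rank_ge [FiniteDimensional F V] {N : Module.End F V} {d : ℕ} (hN : N ^ d = 0) (k : ℕ) :
    ∀ W : Submodule F V, (∀ w ∈ W, N w ∈ W) → ∀ b ∈ W, (N ^ k) b ≠ 0 → k + 1 ≤ finrank F W := by
  induction k with
  | zero =>
    intro W _ b hb h
    simp only [pow_zero, Module.End.one_apply] at h
    exact Submodule.one_le_finrank_iff.2 fun e => h (by simpa [e] using hb)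
  | succ k ih =>
    intro W hW b hb h
    have h1 : W.map N ≤ W := by rintro _ ⟨w, hw, rfl⟩; exact hW w hw
    have h2 := ih (W.map N) (fun w hw => ⟨w, h1 hw, rfl⟩) (N b) ⟨b, hb, rfl⟩ (by
      rwa [pow_succ] at h)
    have h3 : W.map N < W := lt_of_le_of_ne h1 fun e => by
      have : ∀ m : ℕ, ∀ w ∈ W, ∃ w' ∈ W, (N ^ m) w' = w := fun m => by
        induction m with
        | zero => exact fun w hw => ⟨w, hw, rfl⟩
        | succ m ih' =>
          intro w hw
          obtain ⟨w', h4, rfl⟩ := ih' w hw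
          rw [← e] at h4
          obtain ⟨w'', h5, rfl⟩ := h4
          exact ⟨w'', h5, by rw [pow_succ]; rfl⟩
      obtain ⟨w, -, h4⟩ := this d b hb
      rw [hN] at h4
      exact h (by rw [← h4]; simp)
    have := Submodule.finrank_lt_finrank_of_lt h3
    omega

/-- the bottom of the flag of a regular unipotent element -/
structure Ch (u : UG B) (e f1 f2 : V) : Prop where
  u0 : u.1 e = e
  u1 : u.1 f1 = f1 + e
  u2 : u.1 f2 = f2 + f1
  ne : e ≠ 0
  b00 : B e e = 0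
  b01 : B e f1 = 0
  b02 : B e f2 = 0
  b11 : B f1 f1 = 0
  uni : ∀ W : Submodule F V, (∀ w ∈ W, u.1 w ∈ W) → ∀ b ∈ W, B e b = 0 → B f1 b ≠ 0 →
    ∀ w, B e w = 0 → w ∈ W

theorem exists_ch [FiniteDimensional F V] (D : SD B) (u : UG B) {m : ℕ} (hd : finrank F V = m + 4)
    (h : Nm u ^ (m + 4) = 0) {x : V} (hx : (Nm u ^ (m + 3)) x ≠ 0) :
    ∃ e f1 f2, Ch u e f1 f2 ∧ (m ≠ 0 → B f1 f2 = 0) := by
  have h0 : u.1 ((Nm u ^ (m + 3)) x) = (Nm u ^ (m + 3)) x := by
    rw [u_eq, ← Nm_succ, h]; simp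
  refine ⟨(Nm u ^ (m + 3)) x, (Nm u ^ (m + 2)) x, (Nm u ^ (m + 1)) x,
    ⟨h0, by rw [u_eq, ← Nm_succ], by rw [u_eq, ← Nm_succ], hx, orth u h (by omega) _ _,
      orth u h (by omega) _ _, orth u h (by omega) _ _, orth u h (by omega) _ _, ?_⟩,
    fun hm => orth u h (by omega) _ _⟩
  intro W hW b hb h1 h2 w hw
  set e := (Nm u ^ (m + 3)) x
  have h3 := rank_ge h (m + 2) (W ⊓ sperp B (F ∙ e)) (fun w hw => ⟨W.sub_mem (hW w hw.1) hw.1, by
    have := mem_sperp_singleton.1 hw.2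
    refine mem_sperp_singleton.2 ?_
    rw [Nm_apply, map_sub, this, sub_zero, ← h0, UG_map, this]⟩) b ⟨hb, mem_sperp_singleton.2 h1⟩
    (fun h4 => h2 (adj u _ _ _ h4))
  have h4 := D.finrank_sperp (F ∙ e)
  rw [finrank_span_singleton hx] at h4
  have h5 : W ⊓ sperp B (F ∙ e) = sperp B (F ∙ e) :=
    Submodule.eq_of_le_of_finrank_le inf_le_right (by omega)
  exact (h5.ge (mem_sperp_singleton.2 hw)).1

theorem step [FiniteDimensional F V] (D : SD B) {e f : V} (h : SP B e f) {u' : UG (res B (spp B e f))}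
    (hu : u' ∈ SUG _) {x : spp B e f} {c : F} (hc : Adm B e x c) {k : ℕ} (h1 : Nm u' ^ (k + 1) = 0)
    (h2 : B x ((Nm u' ^ k) x : spp B e f) ≠ 0) :
    ∃ u ∈ SUG B, Nm u ^ (k + 3) = 0 ∧ B f ((Nm u ^ (k + 2)) f) ≠ 0 ∧ u.1 e = e ∧ u.1 f = f + x + c • e ∧
      ∀ y : spp B e f, u.1 y = u'.1 y + B x (u'.1 y : spp B e f) • e := by
  obtain ⟨a1, a2⟩ := (h.mem_range_ext D).1 ⟨u', rfl⟩
  set u := rho B e x c * extUG D (h.isCompl D) u' with hu0
  have e1 : u.1 e = e := by rw [hu0, UG_mul_apply, a1, rho_apply_self D]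
  have e2 : u.1 f = f + x + c • e := by
    rw [hu0, UG_mul_apply, a2, rho_apply D hc, h.ef, D.spp_right' x]; simp
  have e3 : ∀ y : spp B e f, u.1 y = u'.1 y + B x (u'.1 y : spp B e f) • e := fun y => by
    rw [hu0, UG_mul_apply, extUG_apply_mem, rho_apply D hc, spp_left]; simp
  have n1 : Nm u e = 0 := by rw [Nm_apply, e1, sub_self]
  have n2 : ∀ (j : ℕ) (y : spp B e f), (Nm u ^ (j + 1)) y =
      ((Nm u' ^ (j + 1)) y : spp B e f) + B x (u'.1 ((Nm u' ^ j) y) : spp B e f) • e := fun j y => by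
    induction j with
    | zero => simp only [zero_add, pow_one, pow_zero, Module.End.one_apply, Nm_apply, e3, Submodule.coe_sub]; abel
    | succ j ih =>
      rw [Nm_succ, ih, map_add, map_smul, n1, Nm_apply, e3, Nm_succ u' (j + 1), Nm_apply u', Submodule.coe_sub]
      simp only [smul_zero]; abel
  have n3 : ∀ y : spp B e f, (Nm u ^ (k + 1)) y = B x ((Nm u' ^ k) y : spp B e f) • e := fun y => by
    rw [n2, u_eq u', ← Nm_succ, h1]; simp
  have n4 : ∀ j, (Nm u ^ (j + 1)) e = 0 := fun j => by rw [Nm_succ', n1, map_zero]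
  have n5 : (Nm u ^ (k + 2)) f = B x ((Nm u' ^ k) x : spp B e f) • e := by
    rw [Nm_succ', Nm_apply, e2, add_assoc, add_sub_cancel_left, map_add, map_smul, n4, n3]; simp
  refine ⟨u, mul_mem (rho_mem_SUG D _ _ _) ?_, ?_, ?_, e1, e2, e3⟩
  · rw [SUG, MonoidHom.mem_ker, udet_extUG]; exact hu
  · ext z
    obtain ⟨a, b, w, rfl⟩ := h.exists_eq D z
    rw [map_add, map_add, map_smul, map_smul, n4, Nm_succ, n5, map_smul, n1, Nm_succ, Nm_succ, n3, map_smul, n1]
    simp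
  · rw [n5, map_smul, h.fe D]; simpa using h2

/-- a window vector -/
def Win (u : UG B) (w : V) : Prop := B w w = 0 ∧ B w (u.1 w) = 0 ∧ B w (u.1 (u.1 w)) ≠ 0

theorem model (hN : NS σ) (k : ℕ) : ∀ {V : Type u} [AddCommGroup V] [Module F V] [FiniteDimensional F V]
    {B : V →ₛₗ[σ] V →ₗ[F] F}, SD B → finrank F V = k + 1 → (σ = RingHom.id F ↔ k % 2 = 1) →
    ∃ u ∈ SUG B, ∃ x, Nm u ^ (k + 1) = 0 ∧ B x ((Nm u ^ k) x) ≠ 0 ∧ (k ≠ 0 → B x x = 0) ∧
      (k < 3 → B x (u.1 x) ≠ 0) ∧ (3 ≤ k → ∃ w, Win u w) := by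
  induction k using Nat.strong_induction_on with
  | _ k ih =>
  intro V _ _ _ B D hd hk
  rcases k with _ | k
  · have : Nontrivial V := Module.nontrivial_of_finrank_pos (R := F) (by omega)
    obtain ⟨x, hx⟩ := D.exists_aniso (fun e => by simpa using hk.1 e)
    exact ⟨1, one_mem _, x, by ext z; simp [Nm_apply], by simpa using hx, by simp, fun _ => hx, by simp⟩
  obtain ⟨e, he0, he⟩ := D.exists_iso hN (by omega)
  obtain ⟨f, h⟩ := D.exists_SP he he0
  have hr := h.finrank_spp D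
  rcases k with _ | k
  · have hσ := hk.2 rfl
    have e1 : ∀ z, Nm (tv B e 1) z = B e z • e := fun z => by
      rw [Nm_apply, tv_apply D he (map_one σ)]; simp
    refine ⟨tv B e 1, tv_mem_SUG D _ _, f, ?_, ?_, fun _ => h.ff, fun _ => ?_, by omega⟩
    · ext z; rw [Nm_succ, Nm_succ, e1, e1]; simp [he]
    · simp [e1, h.ef, h.fe D]
    · simp [u_eq, e1, h.ef, h.fe D, h.ff]
  obtain ⟨u', hu', x, h1, h2, h3, h4, h5⟩ := ih k (by omega) (h.sd D) (by omega) (by rw [hk]; omega)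
  obtain ⟨c, hc, hc'⟩ : ∃ c, Adm B e x c ∧ (k ≠ 0 → c = 0) := by
    by_cases hk0 : k = 0
    · obtain ⟨c, hc⟩ := exists_adm D he (spp_left x)
      exact ⟨c, hc, fun h => absurd hk0 h⟩
    · exact ⟨0, ⟨he, spp_left x, by simpa using (h3 hk0).symm⟩, fun _ => rfl⟩
  obtain ⟨u, hu, a1, a2, a3, a4, a5⟩ := step D h hu' hc h1 h2
  have a6 : B f (u.1 f) = -c := by
    rw [a4]; simp [h.ff, spp_right, h.fe D]
  refine ⟨u, hu, f, a1, a2, fun _ => h.ff, fun hk' => ?_, fun hk' => ?_⟩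
  · obtain rfl : k = 0 := by omega
    rw [a6, neg_ne_zero]
    rintro rfl
    exact h2 (by simpa using hc.cc.symm)
  · by_cases hk3 : k < 3
    · have := hc' (by omega)
      subst this
      refine ⟨f, h.ff, by simp [a6], ?_⟩
      rw [a4, zero_smul, add_zero, map_add, map_add, a6, a5]
      simpa [spp_right, h.fe D] using h4 hk3
    · obtain ⟨w, b1, b2, b3⟩ := h5 (by omega)
      refine ⟨w, b1, ?_, ?_⟩
      · rw [a5]; simpa [D.spp_left'] using b2
      · rw [a5, map_add, map_smul, a3, a5]; simpa [D.spp_left'] using b3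

end Cfsg.Agent.L0.RV
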