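import Cfsg.Agent.L0.RV1

/-! Generation from a window. -/

set_option autoImplicit false

namespace Cfsg.Agent.L0.RV

open Module Cfsg.Agent.H12
open scoped commutatorElement

universe u

variable {F : Type*} {V : Type u} [Field F] [AddCommGroup V] [Module F V] {σ : F →+* F}
  {B : V →ₛₗ[σ] V →ₗ[F] F} {H : Subgroup (UG B)}

/-- the image of `H ∩ Q_e` -/
def Wm (H : Subgroup (UG B)) (e w : V) : Prop := ∃ c, Adm B e w c ∧ rho B e w c ∈ H

theorem Wm.add (D : SD B) {e w w' : V} (h : Wm H e w) (h' : Wm H e w') : Wm H e (w + w') := by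
  obtain ⟨c, h1, h2⟩ := h
  obtain ⟨c', h3, h4⟩ := h'
  exact ⟨_, h1.add D h3, rho_mul D h1 h3 ▸ mul_mem h2 h4⟩

theorem Wm.neg (D : SD B) {e w : V} (h : Wm H e w) : Wm H e (-w) := by
  obtain ⟨c, h1, h2⟩ := h
  exact ⟨_, h1.neg D, rho_inv D h1 ▸ inv_mem h2⟩

theorem Wm.map (D : SD B) {e w : V} (h : Wm H e w) {k : UG B} (hk : k ∈ H) : Wm H (k.1 e) (k.1 w) := by
  obtain ⟨c, h1, h2⟩ := h
  exact ⟨c, (adm_conj k).2 h1, conj_rho D k e w c ▸ mul_mem (mul_mem hk h2) (inv_mem hk)⟩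

theorem Wm.self (D : SD B) {e : V} (he : B e e = 0) (a : F) : Wm H e (a • e) := by
  have h : Adm B e 0 (-(a + σ a)) := adm_zero he (by rw [map_neg, map_add, D.invol, add_comm])
  refine ⟨-(a + σ a), by simpa only [zero_add] using h.add_smul D a, ?_⟩
  have := rho_add_smul D h a
  rw [zero_add, neg_add_cancel, rho_zero D] at this
  exact this ▸ one_mem H

theorem Wm.of_smul (D : SD B) {e w : V} {a : F} (h : Wm H (a • e) w) (ha : a ≠ 0) : Wm H e (σ a • w) := by
  obtain ⟨c, h1, h2⟩ := h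
  have h3 : Adm B e w c := ⟨by simpa [ha, D.σ_ne_zero ha] using h1.ee, by simpa [D.σ_ne_zero ha] using h1.eu, h1.cc⟩
  rw [rho_smul D h3] at h2
  exact ⟨_, by simpa [D.invol, mul_comm] using h3.smul_right D (σ a), h2⟩

theorem tv_map (D : SD B) {e : V} {t : F} (h : tv B e t ∈ H) {k : UG B} (hk : k ∈ H) : tv B (k.1 e) t ∈ H :=
  conj_tv D k e t ▸ mul_mem (mul_mem hk h) (inv_mem hk)

/-- the commutator with a transvection -/
theorem Wm.tv (D : SD B) {e a z : V} {s : F} (h : Wm H e a) (hz : B z z = 0) (hez : B e z = 0)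
    (hs : σ s = s) (ht : tv B z s ∈ H) :
    Adm B e ((s * B z a) • z) (-(s * (B z a * σ (B z a)))) ∧
      rho B e ((s * B z a) • z) (-(s * (B z a * σ (B z a)))) ∈ H := by
  obtain ⟨c, h1, h2⟩ := h
  have h3 := mul_mem (mul_mem (mul_mem ht h2) (inv_mem ht)) (inv_mem h2)
  have h4 := (adm_conj (H12.tv B z s)).2 h1
  rw [conj_rho D, rho_inv D h1] at h3
  rw [tv_apply_of_perp D _ (D.comm0 hez), tv_apply D hz hs] at h3 h4
  rw [rho_mul D h4 (h1.neg D)] at h3
  have h5 := h4.add D (h1.neg D)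
  have e1 : a + (s * B z a) • z + -a = (s * B z a) • z := by abel
  have e2 : c + -σ c + B (a + (s * B z a) • z) (-a) = -(s * (B z a * σ (B z a))) := by
    simp only [map_add, map_neg, LinearMap.add_apply, LinearMap.map_smulₛₗ, LinearMap.smul_apply, smul_eq_mul,
      map_mul, hs]
    linear_combination h1.cc
  rw [e1, e2] at h3 h5
  exact ⟨h5, h3⟩

theorem comm_u (D : SD B) {u : UG B} {e a b : V} {c : F} (h0 : u.1 e = e) (h1 : u.1 a = a + b) (hc : Adm B e a c) :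
    Adm B e b (-B b a) ∧ u * rho B e a c * u⁻¹ * (rho B e a c)⁻¹ = rho B e b (-B b a) := by
  have h4 := (adm_conj u).2 hc
  rw [conj_rho D, rho_inv D hc]
  rw [h0, h1] at h4 ⊢
  rw [rho_mul D h4 (hc.neg D)]
  have h5 := h4.add D (hc.neg D)
  have e1 : a + b + -a = b := by abel
  have e2 : c + -σ c + B (a + b) (-a) = -B b a := by
    simp only [map_add, map_neg, LinearMap.add_apply]
    linear_combination hc.cc
  rw [e1, e2] at h5 ⊢
  exact ⟨h5, rfl⟩

theorem fin [FiniteDimensional F V] (D : SD B) (hN : NS σ) {e : V} (hS : ∀ s, σ s = s → tv B e s ∈ H)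
    (he : B e e = 0) (hW : ∀ w, B e w = 0 → Wm H e w) {k : UG B} (hk : k ∈ H) (hx : B e (k.1 e) ≠ 0) :
    SUG B ≤ H := by
  have h1 : ES H e := ES.of_adm he fun w c hc => by
    obtain ⟨c', h1, h2⟩ := hW w hc.eu
    rw [rho_eq_tv_mul_rho D h1 hc]
    exact mul_mem (hS _ (by rw [map_sub]; linear_combination h1.cc - hc.cc)) h2
  have h2 := h1.map D hk
  refine D.SUG_le_of_ES hN fun z hz h0 => ?_
  by_cases a1 : B e z = 0
  swap
  · exact ⟨e, h1, a1⟩
  by_cases a2 : B (k.1 e) z = 0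
  swap
  · exact ⟨_, h2, a2⟩
  by_cases a3 : ∀ w, B e w = 0 → B z w = 0
  · obtain ⟨a, rfl⟩ := Submodule.mem_span_singleton.1 (D.mem_span_of_perp a3)
    rw [map_smul, smul_eq_mul, mul_eq_zero] at a2
    rcases a2 with rfl | a2
    · simp at h0
    · exact absurd (D.comm0 a2) hx
  push Not at a3
  obtain ⟨w, a3, a4⟩ := a3
  obtain ⟨c, hc⟩ := exists_adm D he a3
  refine ⟨_, h2.map D (h1.2 w c), ?_⟩
  rw [rho_apply D hc]
  simpa [a1, a2, D.σ_ne_zero hx] using D.ne0 a4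

theorem core [Finite F] (D : SD B) {u v : UG B} {e f1 f2 : V} (C : Ch u e f1 f2) (hu : u ∈ H) (hv : v ∈ H)
    {τ t : F} (hτ : τ ≠ 0) (h1 : v.1 e = τ • f1) (hc : B e (v.1 (v.1 e)) ≠ 0) (ht : σ t = t) (ht0 : t ≠ 0)
    (hT : tv B e t ∈ H) (hg : ∀ E : Subfield F, t ^ 2 * (B e (v.1 (v.1 e)) * σ (B e (v.1 (v.1 e)))) ∈ E →
      ∀ k, σ k = k → k ∈ E) {l : F} (hl : Wm H e (l • f1))
    (hl' : ∀ a, ∃ k k', σ k = k ∧ σ k' = k' ∧ a = k + k' * l) :
    (∀ w, B e w = 0 → Wm H e w) ∧ ∃ z, B e z = 0 ∧ B f1 z ≠ 0 := by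
  set c := B e (v.1 (v.1 e))
  set z := (v⁻¹).1 e with hz
  have z1 : B z z = 0 := by rw [hz, UG_map, C.b00]
  have z2 : B e z = 0 := by
    refine D.comm0 ?_
    rw [hz, ← UG_map_right, h1, map_smul, C.b01, smul_zero]
  have z3 : B z f1 = c / τ := by
    rw [eq_div_iff hτ, mul_comm, ← smul_eq_mul, ← map_smul, ← h1, hz, ← UG_map_right]
  have z4 : B f1 z = -σ (c / τ) := by rw [D.skew, z3]
  have a1 : B (τ • f1) (τ • f1) = 0 := by simp [C.b11]
  have a2 : B e (τ • f1) = 0 := by simp [C.b01]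
  have t1 : tv B (τ • f1) t ∈ H := h1 ▸ tv_map D hT hv
  have t2 : tv B z t ∈ H := tv_map D hT (inv_mem hv)
  have hστ := D.σ_ne_zero hτ
  let A : AddSubgroup F :=
    { carrier := {a | Wm H e (a • f1)}
      add_mem' := fun ha hb => by simpa [add_smul] using ha.add D hb
      zero_mem' := by simpa using Wm.self (H := H) D C.b00 0
      neg_mem' := fun ha => by simpa using ha.neg D }
  have s1 : ∀ a ∈ A, Wm H e ((t * a * (c / τ)) • z) := fun a ha => by
    have := Wm.tv D ha z1 z2 ht t2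
    rw [map_smul, z3, smul_eq_mul, ← mul_assoc] at this
    exact ⟨_, this⟩
  have s2 : ∀ k, σ k = k → ∀ a ∈ A, a * k ∈ A := fun k hk => hg (RU.stab A) (by
    rw [← neg_mem_iff]
    intro a ha
    have := Wm.tv D (s1 a ha) a1 a2 ht t1
    have e1 : (t * B (τ • f1) ((t * a * (c / τ)) • z)) • τ • f1 = (a * -(t ^ 2 * (c * σ c))) • f1 := by
      simp only [smul_smul, LinearMap.map_smulₛₗ, LinearMap.smul_apply, smul_eq_mul, z4, map_div₀, RingHom.id_apply]
      congr 1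
      field_simp
    rw [e1] at this
    exact ⟨_, this⟩) k hk
  have s3 : σ τ * τ * t ∈ A := by
    have h2 := tv_map D t1 hu
    rw [map_smul, C.u1, smul_add, add_comm] at h2
    have h3 := mul_mem h2 (inv_mem t1)
    have h4 : B (τ • e) (τ • e) = 0 := by simp [C.b00]
    have h5 : B (τ • e) (τ • f1) = 0 := by simp [C.b01]
    rw [tv_inv D, ← rho_eq_tv_mul D h4 a1 h5 ht] at h3
    have := Wm.of_smul D (⟨t, ⟨h4, by simp [C.b01], by simp [ht, C.b11]⟩, h3⟩ : Wm H _ _) hτ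
    rwa [smul_smul, smul_smul, mul_right_comm] at this
  have s4 : ∀ a, a ∈ A := fun a => by
    obtain ⟨k, k', h2, h3, rfl⟩ := hl' a
    refine A.add_mem ?_ (mul_comm l k' ▸ s2 k' h3 l hl)
    have := s2 (k / (σ τ * τ * t)) (by rw [map_div₀, map_mul, map_mul, D.invol, ht, h2, mul_comm τ]) _ s3
    rwa [mul_div_cancel₀ _ (by simp [hτ, hστ, ht0])] at this
  have z5 : B f1 z ≠ 0 := D.ne0 (by rw [z3]; exact div_ne_zero hc hτ)
  refine ⟨fun w hw => ?_, z, z2, z5⟩
  let W : Submodule F V :=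
    { carrier := {w | ∀ a : F, Wm H e (a • w)}
      add_mem' := fun ha hb a => by simpa using (ha a).add D (hb a)
      zero_mem' := fun a => by simpa using Wm.self (H := H) D C.b00 0
      smul_mem' := fun b w hw a => by simpa [smul_smul] using hw (a * b) }
  have := C.uni W (fun w hw a => by simpa [C.u0] using (hw a).map D hu) z (fun a => by
    have := s1 (a / (t * (c / τ))) (s4 _)
    rwa [show t * (a / (t * (c / τ))) * (c / τ) = a by field_simp] at this) z2 z5 w hw 1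
  rwa [one_smul] at this

theorem gen_fix [Finite F] {k : F} (hk : σ k = k) (h0 : k ≠ 0) : ∃ ζ, σ ζ = ζ ∧ ζ ≠ 0 ∧
    ∀ E : Subfield F, ζ ^ 2 * k ∈ E → ∀ x, σ x = x → x ∈ E := by
  let K : Subfield F := RingHom.eqLocusField σ (RingHom.id F)
  cases nonempty_fintype K
  obtain ⟨l, hl⟩ := RU.exists_gen (F := K)
  obtain ⟨j, hj⟩ := hl (Units.mk0 ⟨k, hk⟩ (fun e => h0 (congrArg Subtype.val e)))
  have hj' : (l.1.1 : F) ^ j = k := by
    have := congrArg (fun x : Kˣ => (x.1 : F)) hj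
    simpa using this
  have l0 : (l.1.1 : F) ≠ 0 := fun e => l.ne_zero (Subtype.ext e)
  have key : ∀ E : Subfield F, (l.1.1 : F) ^ 2 ∈ E → ∀ x, σ x = x → x ∈ E := fun E h x hx => by
    have := RU.subfield_top (E.comap K.subtype) hl two_pos h (by simpa using Fintype.one_lt_card)
    exact (this.ge (Subfield.mem_top (⟨x, hx⟩ : K)) : _)
  have lf : σ l.1.1 = l.1.1 := l.1.2
  obtain ⟨i, rfl | rfl⟩ := Nat.even_or_odd' j
  · refine ⟨l.1.1 / l.1.1 ^ i, by simp [lf], by simp [l0], fun E h => key E ?_⟩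
    convert h using 1
    rw [← hj']; field_simp; ring
  · refine ⟨1 / l.1.1 ^ i, by simp [lf], by simp [l0], fun E h => key E (pow_mem ?_ 2)⟩
    convert h using 1
    rw [← hj']; field_simp; ring

theorem decomp (h2 : ∀ a, σ (σ a) = a) {l : F} (hl : σ l ≠ l) (a : F) :
    ∃ k k', σ k = k ∧ σ k' = k' ∧ a = k + k' * l := by
  have h1 : l - σ l ≠ 0 := sub_ne_zero.2 hl.symm
  have h3 : σ l - l ≠ 0 := sub_ne_zero.2 hl
  refine ⟨a - (a - σ a) / (l - σ l) * l, (a - σ a) / (l - σ l), ?_, ?_, by ring⟩ <;>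
  · simp only [map_sub, map_mul, map_div₀, h2]
    field_simp
    ring

theorem exists_g [FiniteDimensional F V] (D : SD B) (hn : σ = RingHom.id F ∨ 5 ≤ finrank F V) {u : UG B}
    {e f1 f2 w : V} (C : Ch u e f1 f2) (hw : Win u w) {μ τ : F} (hμ : μ ≠ 0) (hτ : τ ≠ 0) :
    ∃ g ∈ SUG B, (g * u * g⁻¹).1 e = τ • f1 ∧
      B e ((g * u * g⁻¹).1 ((g * u * g⁻¹).1 e)) = σ μ * μ * B w (u.1 (u.1 w)) := by
  obtain ⟨w1, w2, w3⟩ := hw
  obtain ⟨g, hg, h1, h2⟩ := D.witt_SUG_two (x := μ • w) (y := u.1 (μ • w)) (x' := e) (y' := τ • f1)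
    (li_pair_of_notMem (by rintro h; simp [hμ] at h; simp [h] at w3) (by
      intro h
      obtain ⟨a, ha⟩ := Submodule.mem_span_singleton.1 h
      rw [map_smul, smul_comm, smul_right_inj hμ] at ha
      rw [← ha, map_smul, map_smul, w2, smul_zero] at w3
      exact w3 rfl))
    (li_pair_of_notMem C.ne (by
      intro h
      obtain ⟨a, ha⟩ := Submodule.mem_span_singleton.1 h
      have := congrArg u.1 ha
      rw [map_smul, map_smul, C.u0, C.u1, ha, smul_add, left_eq_add] at this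
      exact C.ne (by simpa [hτ] using this)))
    (by simp [C.b00, w1]) (by simp [C.b01, w2]) (by simp [C.b11, UG_map, w1]) hn
  refine ⟨g, hg, by rw [← h1, ← h2]; simp, ?_⟩
  rw [← h1]
  simp only [UG_mul_apply, UG_inv_apply_apply, UG_map]
  simp [mul_assoc, mul_left_comm]

end Cfsg.Agent.L0.RV
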