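import Cfsg.Agent.L0.RV2

/-! Three conjugate regular unipotent generators, dimension at least four. -/

set_option autoImplicit false

namespace Cfsg.Agent.L0.RV

open Module Cfsg.Agent.H12
open scoped commutatorElement

universe u

variable {F : Type*} {V : Type u} [Field F] [AddCommGroup V] [Module F V] {σ : F →+* F}
  {B : V →ₛₗ[σ] V →ₗ[F] F}

/-- three conjugates generate -/
def G3 (u : UG B) : Prop := ∃ y ∈ SUG B, ∃ g ∈ SUG B, ∀ H : Subgroup (UG B), u ∈ H → y * u * y⁻¹ ∈ H →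
  g * u * g⁻¹ ∈ H → SUG B ≤ H

theorem big1 [Finite F] [FiniteDimensional F V] (D : SD B) (hn : σ = RingHom.id F ∨ 5 ≤ finrank F V) {u : UG B}
    {e f1 f2 w : V} (C : Ch u e f1 f2) (hw : Win u w) (h2 : σ = RingHom.id F → (2 : F) ≠ 0) : G3 u := by
  have c0 := hw.2.2
  set c := B w (u.1 (u.1 w))
  obtain ⟨ζ, z1, z2, z3⟩ := gen_fix (σ := σ) (k := c * σ c) (by rw [map_mul, D.invol, mul_comm])
    (mul_ne_zero c0 (D.σ_ne_zero c0))
  obtain ⟨l, μ, h3, h4⟩ : ∃ l μ, (l + σ l) * (σ μ * μ) = ζ ∧ ∀ a, ∃ k k', σ k = k ∧ σ k' = k' ∧ a = k + k' * l := by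
    by_cases hσ : σ = RingHom.id F
    · have := h2 hσ
      exact ⟨ζ / 2, 1, by simp [hσ]; field_simp; ring, fun a => ⟨a, 0, by simp [hσ], by simp, by simp⟩⟩
    obtain ⟨l, h3, h4⟩ : ∃ l, σ l ≠ l ∧ l + σ l ≠ 0 := by
      obtain ⟨l, hl⟩ : ∃ l, σ l ≠ l := by
        by_contra h; push Not at h; exact hσ (RingHom.ext h)
      by_cases h : l + σ l = 0
      · refine ⟨l + 1, by simpa using hl, fun h' => hl ?_⟩
        rw [map_add, map_one] at h'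
        linear_combination (1 + l) * h - l * h'
      · exact ⟨l, hl, h⟩
    obtain ⟨μ, hμ⟩ := D.ns.resolve_left hσ (ζ / (l + σ l)) (by rw [map_div₀, map_add, D.invol, z1, add_comm])
    exact ⟨l, μ, by rw [hμ]; field_simp, decomp D.invol h3⟩
  have t0 : l + σ l ≠ 0 := by rintro h; exact z2 (by rw [← h3, h, zero_mul])
  have μ0 : μ ≠ 0 := by rintro rfl; exact z2 (by simpa using h3.symm)
  have t1 : σ (l + σ l) = l + σ l := by rw [map_add, D.invol, add_comm]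
  obtain ⟨g, hg, g1, g2⟩ := exists_g D hn C hw μ0 one_ne_zero
  obtain ⟨cy, hy⟩ := exists_adm D C.b00 (u := l • f2) (by simp [C.b02])
  refine ⟨_, rho_mem_SUG D e (l • f2) cy, g, hg, fun H hu h5 hv => ?_⟩
  obtain ⟨a1, a2⟩ := comm_u D C.u0 (a := l • f2) (b := l • f1) (by rw [map_smul, C.u2, smul_add]) hy
  have a3 := mul_mem hu (inv_mem h5)
  rw [show ∀ y, u * (y * u * y⁻¹)⁻¹ = (u * y⁻¹ * u⁻¹)⁻¹⁻¹⁻¹ * y⁻¹ from fun y => by group] at a3
  replace a3 : rho B e (l • f1) (-B (l • f1) (l • f2)) ∈ H := by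
    rw [← a2]; convert a3 using 1; group
  have a4 := mul_mem (mul_mem (mul_mem hu a3) (inv_mem hu)) (inv_mem a3)
  rw [conj_rho D, C.u0, map_smul, C.u1, smul_add, rho_add_smul D a1,
    rho_eq_tv_mul_rho D a1 ⟨a1.ee, a1.eu, by rw [map_add, t1]; linear_combination a1.cc⟩, add_sub_cancel_left,
    mul_inv_cancel_right] at a4
  have c1 : B e ((g * u * g⁻¹).1 ((g * u * g⁻¹).1 e)) ≠ 0 := by
    rw [g2]; exact mul_ne_zero (mul_ne_zero (D.σ_ne_zero μ0) μ0) c0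
  obtain ⟨b1, z, b2, b3⟩ := core D C hu hv one_ne_zero g1 c1 t1 t0 a4 (fun E h => z3 E (by
    convert h using 1
    rw [g2, ← h3]; simp only [map_mul, D.invol]; ring)) ⟨_, a1, a3⟩ h4
  refine fin D D.ns (fun s hs => ?_) C.b00 b1 (mul_mem hv hv) c1
  obtain ⟨d, d1, d2⟩ := b1 f1 C.b01
  obtain ⟨d', d3, d4⟩ := b1 ((s * l / (l + σ l) / B f1 z) • z) (by simp [b2])
  have := mul_mem (mul_mem (mul_mem d2 d4) (inv_mem d2)) (inv_mem d4)
  rw [← commutatorElement_def, commutator_rho D d1 d3] at this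
  convert this using 2
  rw [map_smul, smul_eq_mul, div_mul_cancel₀ _ b3, map_div₀, map_mul, t1, hs]
  field_simp

theorem big2 [Finite F] [FiniteDimensional F V] {B : V →ₛₗ[RingHom.id F] V →ₗ[F] F} (D : SD B) {u : UG B}
    {e f1 f2 w : V} (C : Ch u e f1 f2) (hw : Win u w) (h2 : (2 : F) = 0)
    (hδ : B f1 f2 = 0 ∨ ∃ a : F, a ≠ 0 ∧ a ≠ 1) : G3 u := by
  have c0 := hw.2.2
  set c := B w (u.1 (u.1 w))
  set δ := B f1 f2 with hδ0
  have : CharP F 2 := CharTwo.of_one_ne_zero_of_two_eq_zero one_ne_zero h2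
  have sq : ∀ a : F, ∃ b, b ^ 2 = a := fun a => (bijective_frobenius F 2).2 a
  have ch : ∀ k : F, ∃ s, s ≠ 0 ∧ 1 + s * k * δ ≠ 0 := fun k => by
    rcases hδ with h | ⟨a, a0, a1⟩
    · exact ⟨1, one_ne_zero, by simp [h]⟩
    · by_cases h : 1 + 1 * k * δ = 0
      · exact ⟨a, a0, fun h' => a1 (by linear_combination a * h - h')⟩
      · exact ⟨1, one_ne_zero, h⟩
  obtain ⟨ζ, -, z2, z3⟩ := gen_fix (σ := RingHom.id F) (k := c * c) rfl (mul_ne_zero c0 c0)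
  obtain ⟨s, s0, s1⟩ := ch 1
  have t0 : s + s ^ 2 * δ ≠ 0 := by
    rw [show s + s ^ 2 * δ = s * (1 + s * 1 * δ) by ring]; exact mul_ne_zero s0 s1
  set t := s + s ^ 2 * δ with ht
  obtain ⟨τ', τ0, τ1⟩ := ch t
  obtain ⟨τ, rfl⟩ := sq τ'
  obtain ⟨μ, hμ⟩ := sq (ζ / t)
  have μ0 : μ ≠ 0 := by rintro rfl; exact div_ne_zero z2 t0 (by simpa using hμ.symm)
  have τ2 : τ ≠ 0 := by rintro rfl; simp at τ0
  obtain ⟨g, hg, g1, g2⟩ := exists_g D (Or.inl rfl) C hw μ0 τ2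
  have iso := D.self_eq_zero rfl
  have ad : ∀ {x : V} (d : F), B e x = 0 → Adm B e x d := fun d h => ⟨C.b00, h, by simp [iso]⟩
  have key : u * (tv B f1 s * rho B e (s • f2) 0) * u⁻¹ = tv B f1 s * rho B e (s • f2) 0 * tv B e t := by
    have a1 := rho_eq_tv_mul D C.b00 C.b11 C.b01 (c := s) rfl
    have a2 : tv B (e + f1) s = tv B f1 s * rho B e (s • f1) s := by
      have : Commute (tv B (e + f1) s) (tv B f1 s) := by
        have := conj_tv D (tv B f1 s) (e + f1) s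
        rw [tv_apply_of_perp D _ (by simp [C.b11, D.comm0 C.b01])] at this
        exact (mul_inv_eq_iff_eq_mul.1 this).symm
      rw [a1, ← tv_inv D, ← mul_assoc, ← this.eq, mul_inv_cancel_right]
    rw [show ∀ a b, u * (a * b) * u⁻¹ = (u * a * u⁻¹) * (u * b * u⁻¹) from fun a b => by group, conj_tv D,
      conj_rho D, C.u0, C.u1, map_smul, C.u2, add_comm f1, a2, mul_assoc, mul_assoc, tv,
      rho_mul D (ad _ (by simp [C.b01])) (ad _ (by simp [C.b01, C.b02])), tv,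
      rho_mul D (ad _ (by simp [C.b02])) (ad _ (by simp))]
    congr 2
    · rw [add_zero, smul_add, add_comm, add_assoc, ← add_smul, CharTwo.add_self_eq_zero]; simp
    · simp [C.b11, ht, hδ0]; ring
  refine ⟨(tv B f1 s * rho B e (s • f2) 0)⁻¹, inv_mem (mul_mem (tv_mem_SUG D _ _) (rho_mem_SUG D _ _ _)), g, hg,
    fun H hu h5 hv => ?_⟩
  have a4 : tv B e t ∈ H := by
    convert mul_mem h5 (inv_mem hu) using 1
    rw [inv_inv, mul_assoc, mul_assoc, ← mul_assoc u, key, inv_mul_cancel_left]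
  have c1 : B e ((g * u * g⁻¹).1 ((g * u * g⁻¹).1 e)) ≠ 0 := by
    rw [g2]; exact mul_ne_zero (mul_ne_zero μ0 μ0) c0
  obtain ⟨b1, z, b2, b3⟩ := core D C hu hv τ2 g1 c1 rfl t0 a4 (fun E h => z3 E (by
    convert h using 1
    rw [g2, show ζ = μ ^ 2 * t by rw [hμ]; field_simp]; simp only [RingHom.id_apply]; ring))
    (l := 0) (by simpa using Wm.self D C.b00 0) (fun a => ⟨a, 0, rfl, rfl, by simp⟩)
  refine fin D D.ns (fun r _ => ?_) C.b00 b1 (mul_mem hv hv) c1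
  obtain ⟨β, hβ⟩ := sq (r / (t * (1 + τ ^ 2 * t * δ)))
  obtain ⟨d1, d2⟩ := Wm.tv D (b1 ((β / τ / B f1 z) • z) (by simp [b2])) (iso (τ • f1)) (by simp [C.b01]) rfl
    (g1 ▸ tv_map D a4 hv)
  have e1 : B (τ • f1) ((β / τ / B f1 z) • z) = β := by simp; field_simp
  rw [e1, smul_smul] at d1 d2
  obtain ⟨d, d3, d4⟩ := b1 ((t * β * τ) • f2) (by simp [C.b02])
  obtain ⟨d5, d6⟩ := comm_u D C.u0 (b := (t * β * τ) • f1) (by rw [map_smul, C.u2, smul_add]) d3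
  have d7 := mul_mem (mul_mem (mul_mem hu d4) (inv_mem hu)) (inv_mem d4)
  rw [d6, rho_eq_tv_mul_rho D d1 d5, mul_mem_cancel_right d2] at d7
  convert d7 using 2
  rw [show r = β ^ 2 * (t * (1 + τ ^ 2 * t * δ)) by rw [hβ, div_mul_cancel₀ _ (mul_ne_zero t0 τ1)]]
  simp only [LinearMap.map_smulₛₗ, LinearMap.smul_apply, smul_eq_mul, RingHom.id_apply, ← hδ0]
  linear_combination (β ^ 2 * t ^ 2 * τ ^ 2 * δ) * h2

theorem finish {u : UG B} (hu : u ∈ SUG B) (h : G3 u) : ∃ y g : SUG B,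
    Subgroup.closure {⟨u, hu⟩, y * ⟨u, hu⟩ * y⁻¹, g * ⟨u, hu⟩ * g⁻¹} = (⊤ : Subgroup (SUG B)) := by
  obtain ⟨y, hy, g, hg, h⟩ := h
  refine ⟨⟨y, hy⟩, ⟨g, hg⟩, eq_top_iff.2 fun x _ => ?_⟩
  obtain ⟨x', h1, h2⟩ := h (Subgroup.map (SUG B).subtype (Subgroup.closure {⟨u, hu⟩, ⟨y, hy⟩ * ⟨u, hu⟩ * ⟨y, hy⟩⁻¹,
    ⟨g, hg⟩ * ⟨u, hu⟩ * ⟨g, hg⟩⁻¹})) ⟨_, Subgroup.subset_closure (Or.inl rfl), rfl⟩
    ⟨_, Subgroup.subset_closure (Or.inr (Or.inl rfl)), rfl⟩ ⟨_, Subgroup.subset_closure (Or.inr (Or.inr rfl)), rfl⟩ x.2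
  rwa [← Subtype.ext h2]

theorem transfer {G G' : Type*} [Group G] [Group G'] (φ : G ≃* G') {a y g : G'}
    (h : Subgroup.closure {a, y * a * y⁻¹, g * a * g⁻¹} = ⊤) :
    Subgroup.closure {φ.symm a, φ.symm y * φ.symm a * (φ.symm y)⁻¹, φ.symm g * φ.symm a * (φ.symm g)⁻¹} = ⊤ := by
  have := congrArg (Subgroup.map φ.symm.toMonoidHom) h
  rw [MonoidHom.map_closure, Subgroup.map_top_of_surjective _ φ.symm.surjective] at this
  simpa [Set.image_insert_eq] using this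

theorem mat_pow {ι : Type*} [Fintype ι] [DecidableEq ι] {B : (ι → F) →ₛₗ[σ] (ι → F) →ₗ[F] F} (u : UG B)
    {A : Matrix ι ι F} (h : ∀ x, A.mulVec x = u.1 x) (k : ℕ) (x : ι → F) :
    ((A - 1) ^ k).mulVec x = (Nm u ^ k) x := by
  induction k with
  | zero => simp
  | succ k ih => rw [Nm_succ, pow_succ', ← Matrix.mulVec_mulVec, ih, Matrix.sub_mulVec, h, Nm_apply, Matrix.one_mulVec]

theorem mat_reg {ι : Type*} [Fintype ι] [DecidableEq ι] {B : (ι → F) →ₛₗ[σ] (ι → F) →ₗ[F] F} (u : UG B)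
    {A : Matrix ι ι F} (h : ∀ x, A.mulVec x = u.1 x) {k : ℕ} (h1 : Nm u ^ (k + 1) = 0) {x : ι → F}
    (h2 : (Nm u ^ k) x ≠ 0) : IsNilpotent (A - 1) ∧ (A - 1) ^ k ≠ 0 :=
  ⟨⟨k + 1, mat_ext_mulVec fun v => by rw [mat_pow u h, h1]; simp⟩, fun e => h2 (by rw [← mat_pow u h, e]; simp)⟩

end Cfsg.Agent.L0.RV
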