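import Cfsg.Agent.L0.RV3
import Cfsg.Agent.S0801

/-! Three conjugate regular unipotent generators of `SU₃`. -/

set_option autoImplicit false

namespace Cfsg.Agent.L0.RV

open Module Cfsg.Agent.H12
open scoped commutatorElement MatrixGroups

universe u

variable {F : Type*} {V : Type u} [Field F] [AddCommGroup V] [Module F V] {σ : F →+* F}
  {B : V →ₛₗ[σ] V →ₗ[F] F} {H : Subgroup (UG B)}

theorem weyl (D : SD B) {e f : V} (h : SP B e f) :
    (tv B e 1 * tv B f 1 * tv B e 1).1 f = e ∧ (tv B e 1 * tv B f 1 * tv B e 1).1 e = -f ∧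
      ∀ w : spp B e f, (tv B e 1 * tv B f 1 * tv B e 1).1 w = w := by
  refine ⟨?_, ?_, fun w => ?_⟩
  · simp [tv_apply D h.ee (map_one σ), tv_apply D h.ff (map_one σ), h.ee, h.ff, h.ef, h.fe D]
  · simp [tv_apply D h.ee (map_one σ), tv_apply D h.ff (map_one σ), h.ee, h.ff, h.ef, h.fe D]
  · rw [UG_mul_apply, UG_mul_apply, tv_apply_of_perp D _ (spp_left w), tv_apply_of_perp D _ (spp_right w),
      tv_apply_of_perp D _ (spp_left w)]

theorem torus (D : SD B) {e f : V} (h : SP B e f) {a : F} (ha : a ≠ 0) (hσ : σ a = a) :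
    (tv B f (-a⁻¹) * tv B e (1 - a) * tv B f 1).1 e = a • e ∧
      ∀ w : spp B e f, (tv B f (-a⁻¹) * tv B e (1 - a) * tv B f 1).1 w = w := by
  refine ⟨?_, fun w => ?_⟩
  · rw [UG_mul_apply, UG_mul_apply, tv_apply D h.ff (by simp [hσ]), tv_apply D h.ee (by simp [hσ]),
      tv_apply D h.ff (map_one σ)]
    simp only [map_add, map_smul, h.ee, h.ff, h.ef, h.fe D, smul_eq_mul]
    match_scalars <;> field_simp <;> ring
  · rw [UG_mul_apply, UG_mul_apply, tv_apply_of_perp D _ (spp_right w),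
      tv_apply_of_perp D _ (spp_left w), tv_apply_of_perp D _ (spp_right w)]

theorem Wm.fix (D : SD B) {e f : V} (h : SP B e f) (he : IS H e) (hf : IS H f) {w : spp B e f} (hw : Wm H e w)
    {a : F} (hσ : σ a = a) : Wm H e (a • w) := by
  by_cases ha : a = 0
  · simpa [ha] using Wm.self (H := H) D h.ee 0
  obtain ⟨h1, h2⟩ := torus D h ha hσ
  have := hw.map D (mul_mem (mul_mem (hf.2 (-a⁻¹)) (he.2 (1 - a))) (hf.2 1))
  rw [h1, h2] at this
  simpa only [hσ] using this.of_smul D ha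

theorem wm_of_is (D : SD B) {e f : V} (h : SP B e f) (he : IS H e) (hf : IS H f) {w : spp B e f} {c : F}
    (hc : Adm B e w c) (hz : IS H ((rho B e w c).1 f)) (hq : ∃ a, σ a = a ∧ a ≠ 0 ∧ a ≠ 1) : Wm H e w := by
  obtain ⟨a, hσ, ha, ha1⟩ := hq
  obtain ⟨h1, h2⟩ := torus D h ha hσ
  set t := tv B f (-a⁻¹) * tv B e (1 - a) * tv B f 1 with ht
  have h3 : t ∈ H := mul_mem (mul_mem (hf.2 _) (he.2 _)) (hf.2 _)
  have h4 : rho B e w c * t * (rho B e w c)⁻¹ ∈ H := by
    rw [ht, show ∀ r x y z : UG B, r * (x * y * z) * r⁻¹ = (r * x * r⁻¹) * (r * y * r⁻¹) * (r * z * r⁻¹) from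
      fun r x y z => by group, conj_tv D, conj_tv D, conj_tv D, rho_apply_self D]
    exact mul_mem (mul_mem (hz.2 _) (he.2 _)) (hz.2 _)
  have h5 := mul_mem h4 (inv_mem h3)
  have h6 := (hc.neg D).smul_right D a
  rw [rho_inv D hc, mul_assoc, mul_assoc, ← mul_assoc t, conj_rho D, h1, map_neg, h2, rho_smul D (hc.neg D), hσ,
    rho_mul D hc (by rwa [hσ] at h6)] at h5
  have h7 : Wm H e ((1 - a) • w : spp B e f) := ⟨_, by
    convert hc.add D (hσ ▸ h6) using 1
    simp [add_smul, sub_eq_add_neg], by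
    convert h5 using 2
    simp [add_smul, sub_eq_add_neg]⟩
  have := h7.fix D h he hf (a := (1 - a)⁻¹) (by simp [hσ])
  rwa [Submodule.coe_smul, smul_smul, inv_mul_cancel₀ (sub_ne_zero.2 ha1.symm), one_smul] at this

theorem su3_fin [Finite F] [FiniteDimensional F V] (D : SD B) (hd : finrank F V = 3) {e f : V} (h : SP B e f)
    {w : spp B e f} {c : F} (hc : Adm B e w c) (hw : σ c ≠ c) (hu : rho B e w c ∈ H) (he : IS H e) (hf : IS H f)
    (hq : ∃ a, σ a = a ∧ a ≠ 0 ∧ a ≠ 1) : SUG B ≤ H := by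
  have c0 : c ≠ 0 := by rintro rfl; simp at hw
  have c1 := D.σ_ne_zero c0
  obtain ⟨n1, n2, n3⟩ := weyl D h
  have hn := mul_mem (mul_mem (he.2 1) (hf.2 1)) (he.2 1)
  have a1 : Adm B e ((-c⁻¹) • w : spp B e f) (-c⁻¹) := ⟨h.ee, spp_left _, by
    simp only [Submodule.coe_smul, LinearMap.map_smulₛₗ, LinearMap.smul_apply, smul_eq_mul, ← hc.cc, map_neg,
      map_inv₀, RingHom.id_apply]
    field_simp; ring⟩
  have a2 := (hf.map D hu).map D hn
  rw [rho_apply D hc, h.ef, D.spp_right' w] at a2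
  simp only [map_add, map_smul, n1, n2, n3] at a2
  have a3 := wm_of_is D h he hf a1 (IS.of_smul D (a := -c) (by
    convert a2 using 1
    rw [rho_apply D a1, h.ef, D.spp_right']
    simp only [Submodule.coe_smul]
    match_scalars <;> field_simp <;> ring) (neg_ne_zero.2 c0)) hq
  have w0 : w ≠ 0 := by
    rintro rfl
    exact hw (by have := hc.cc; simp only [ZeroMemClass.coe_zero, map_zero] at this; linear_combination -this)
  refine fin D D.ns (fun s _ => he.2 s) h.ee (fun x hx => ?_) hn (by rw [n2]; simp [h.ef])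
  obtain ⟨a, x, rfl⟩ := h.exists_eq_of_perp D hx
  have := h.finrank_spp D
  obtain ⟨b, rfl⟩ := (finrank_eq_one_iff_of_nonzero' (K := F) w w0).1 (by omega) x
  obtain ⟨k, k', h1, h2, rfl⟩ := decomp D.invol (l := -c⁻¹) (by simpa using hw) b
  have := ((Wm.fix D h he hf ⟨_, hc, hu⟩ h1).add D (a3.fix D h he hf h2)).add D (Wm.self D h.ee a)
  simpa only [Submodule.coe_smul, Submodule.coe_add, smul_smul, add_smul] using this

theorem su3_g3 [Finite F] [FiniteDimensional F V] (D : SD B) (hσ : σ ≠ RingHom.id F) (hd : finrank F V = 3)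
    {c t : F} (hc : σ c ≠ c) (ht : σ t = t) (hq : ∃ a, σ a = a ∧ a ≠ 0 ∧ a ≠ 1)
    (hS : ∀ {e f : V} {w : V} {H : Subgroup (UG B)}, SP B e f → Adm B e w c → rho B e w c ∈ H → tv B e t ∈ H →
      (∀ s, σ s = s → tv B e s ∈ H → tv B f (s * (c * σ c)) ∈ H) → ∀ s, σ s = s → tv B e s ∈ H) :
    ∃ u ∈ SUG B, ∃ x, Nm u ^ 3 = 0 ∧ (Nm u ^ 2) x ≠ 0 ∧ G3 u := by
  obtain ⟨e, he0, he⟩ := D.exists_iso D.ns (by omega)
  obtain ⟨f, h⟩ := D.exists_SP he he0
  obtain ⟨w, hw⟩ := (h.sd D).exists_self_eq D.ns (Or.inr (h.nontrivial_spp D hd.ge)) c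
  have a1 : Adm B e w c := ⟨he, spp_left w, hw.symm⟩
  have w0 : B w w ≠ 0 := by rw [← a1.cc]; exact sub_ne_zero.2 hc.symm
  have c0 : c ≠ 0 := by rintro rfl; simp at hc
  obtain ⟨u, hu, b1, b2, b3, b4, b5⟩ := step D h (one_mem _) a1 (k := 0) (by ext; simp [Nm_apply]) (by simpa using w0)
  obtain rfl : u = rho B e w c := h.UG_ext D (by rw [b3, rho_apply_self D])
    (by rw [b4, rho_apply D a1, h.ef, D.spp_right']; simp) fun y => by rw [b5, rho_apply D a1, spp_left]; simp
  obtain ⟨l, hl⟩ := exists_sub_conj_eq hσ D.invol (t := t / B w w) (by rw [map_div₀, ht, D.σ_map, div_neg])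
  obtain ⟨cy, hy⟩ := exists_adm D he (spp_left (l • w))
  obtain ⟨g, g1⟩ := D.witt (e := ![f, (rho B e w c).1 f]) (f := ![e, (-c) • f])
    (li_pair_of_notMem h.ne_right (by
      intro h1
      obtain ⟨a, ha⟩ := Submodule.mem_span_singleton.1 h1
      have := congrArg (B f) ha
      rw [b4] at this
      exact c0 (by simpa [h.ff, spp_right, h.fe D] using this)))
    (li_pair_of_notMem he0 (by
      intro h1
      exact h.notMem (by simpa [c0] using Submodule.smul_mem _ (-c)⁻¹ h1)))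
    (by
      intro i j
      fin_cases i <;> fin_cases j <;>
        simp [UG_map, he, h.ff, h.ef, h.fe D]
      all_goals simp [b4, h.ff, spp_right, h.fe D, h.ef, D.spp_right'])
  obtain ⟨k, k1, k2⟩ := D.exists_fix_det g (S := {e, f}) (Or.inr ⟨w, w0, by
    rintro _ (rfl | rfl)
    exacts [D.spp_left' w, D.spp_right' w]⟩)
  have g2 : (k * g).1 f = e := by rw [UG_mul_apply, show g.1 f = e from g1 0, k2 e (by simp)]
  have g3 : (k * g * rho B e w c * (k * g)⁻¹).1 e = (-c) • f := by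
    rw [UG_mul_apply, UG_inv_apply_eq g2, UG_mul_apply, UG_mul_apply, show g.1 ((rho B e w c).1 f) = (-c) • f from g1 1]
    simp [k2 f (by simp)]
  refine ⟨_, hu, f, b1, fun e => b2 (by simp [e]), _, rho_mem_SUG D e (l • w : spp B e f) cy, _, k1,
    fun H h1 h2 h3 => ?_⟩
  have h4 := mul_mem h1 (inv_mem h2)
  rw [show ∀ a y : UG B, a * (y * a * y⁻¹)⁻¹ = ⁅a, y⁆ from fun a y => by group, commutator_rho D a1 hy] at h4
  have h5 := hS h a1 h1 (by
    convert h4 using 2
    rw [Submodule.coe_smul, map_smul, smul_eq_mul, map_mul, D.σ_map]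
    field_simp at hl
    linear_combination -hl) fun s hs h5 => by
      have := tv_map D h5 h3
      rwa [g3, tv_smul D h.ff hs, map_neg, neg_mul_neg] at this
  have h6 : IS H e := IS.of_fix he h5
  exact su3_fin D hd h a1 hc h1 h6 (IS.of_smul D (g3 ▸ h6.map D h3) (neg_ne_zero.2 c0)) hq

theorem sl2_full (D : SD B) {e f : V} (h : SP B e f) {K : Type*} [Field K] (ι : K →+* F) (hι : ∀ a, σ (ι a) = ι a)
    {l : K} (hl : Subgroup.closure {g : SL(2, K) | g.1 = !![1, 0; 1, 1] ∨ g.1 = !![1, l; 0, 1]} = ⊤)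
    (h1 : tv B f 1 ∈ H) (h2 : tv B e (ι l) ∈ H) (s : K) : tv B e (ι s) ∈ H := by
  let M : Subgroup SL(2, K) :=
    { carrier := {A | ∃ k ∈ H, k.1 e = ι (A 0 0) • e + ι (A 1 0) • f ∧ k.1 f = ι (A 0 1) • e + ι (A 1 1) • f ∧
        ∀ w : spp B e f, k.1 w = w}
      one_mem' := ⟨1, one_mem _, by simp, by simp, fun _ => rfl⟩
      mul_mem' := by
        rintro A A' ⟨k, a1, a2, a3, a4⟩ ⟨k', b1, b2, b3, b4⟩
        refine ⟨k * k', mul_mem a1 b1, ?_, ?_, fun w => by rw [UG_mul_apply, b4, a4]⟩ <;>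
        · simp only [UG_mul_apply, b2, b3, map_add, map_smul, a2, a3, Matrix.SpecialLinearGroup.coe_mul,
            Matrix.mul_apply, Fin.sum_univ_two, map_mul]
          module
      inv_mem' := by
        rintro A ⟨k, a1, a2, a3, a4⟩
        have := congrArg ι A.2
        rw [Matrix.det_fin_two, map_sub, map_mul, map_mul, map_one] at this
        refine ⟨k⁻¹, inv_mem a1, ?_, ?_, fun w => UG_inv_apply_eq (a4 w)⟩ <;>
        · refine UG_inv_apply_eq ?_
          simp only [map_add, map_smul, a2, a3, Matrix.SpecialLinearGroup.coe_inv, Matrix.adjugate_fin_two,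
            Matrix.of_apply, Matrix.cons_val', Matrix.cons_val_zero, Matrix.cons_val_one, Matrix.cons_val_fin_one,
            map_neg]
          match_scalars <;> first | linear_combination this | ring }
  have hM : ⊤ ≤ M := by
    rw [← hl, Subgroup.closure_le]
    rintro A (hA | hA)
    · refine ⟨_, inv_mem h1, ?_, ?_, fun w => ?_⟩ <;> rw [tv_inv D]
      · simp [tv_apply D h.ff (c := -1) (by simp), hA, h.fe D]
      · simp [tv_apply D h.ff (c := -1) (by simp), hA, h.ff]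
      · exact tv_apply_of_perp D _ (spp_right w)
    · refine ⟨_, h2, ?_, ?_, fun w => tv_apply_of_perp D _ (spp_left w)⟩
      · simp [tv_apply D h.ee (hι l), hA, h.ee]
      · simp [tv_apply D h.ee (hι l), hA, h.ef, add_comm]
  obtain ⟨k, a1, a2, a3, a4⟩ := hM (Subgroup.mem_top (upper s))
  convert a1 using 1
  refine h.UG_ext D ?_ ?_ fun w => by rw [a4, tv_apply_of_perp D _ (spp_left w)]
  · rw [a2]; simp [tv_apply D h.ee (hι s), h.ee, upper]
  · rw [a3]; simp [tv_apply D h.ee (hι s), h.ef, upper, add_comm]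

theorem su3_odd [Finite F] [FiniteDimensional F V] (D : SD B) (hσ : σ ≠ RingHom.id F) (hd : finrank F V = 3)
    (h2 : (2 : F) ≠ 0) : ∃ u ∈ SUG B, ∃ x, Nm u ^ 3 = 0 ∧ (Nm u ^ 2) x ≠ 0 ∧ G3 u := by
  let K : Subfield F := RingHom.eqLocusField σ (RingHom.id F)
  cases nonempty_fintype K
  obtain ⟨l, hl⟩ := RU.exists_gen (F := K)
  have lf : σ l.1.1 = l.1.1 := l.1.2
  have l0 : (l.1.1 : F) ≠ 0 := fun e => l.ne_zero (Subtype.ext e)
  obtain ⟨c, c1, c2⟩ : ∃ c, σ c ≠ c ∧ c * σ c = (l.1.1 : F)⁻¹ := by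
    obtain ⟨c, hc⟩ := D.ns.resolve_left hσ (l.1.1 : F)⁻¹ (by simp [lf])
    by_cases h : σ c = c
    swap
    · exact ⟨c, h, by rw [mul_comm, hc]⟩
    obtain ⟨a, a0, ha⟩ := exists_skew hσ D.invol
    have c0 : c ≠ 0 := by rintro rfl; exact l0 (by simpa using hc.symm)
    have a1 : 1 + a ≠ 0 := fun e => h2 (by
      have := congrArg σ e
      rw [map_add, map_one, ha, map_zero] at this
      linear_combination e + this)
    have a2 : 1 - a ≠ 0 := fun e => h2 (by
      have := congrArg σ e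
      rw [map_sub, map_one, ha, map_zero] at this
      linear_combination e + this)
    have a3 : σ (c * (1 + a) / (1 - a)) = c * (1 - a) / (1 + a) := by simp [h, ha, sub_eq_add_neg]
    refine ⟨c * (1 + a) / (1 - a), fun e => ?_, by rw [a3, ← hc, h]; field_simp⟩
    rw [a3] at e
    field_simp at e
    exact mul_ne_zero (mul_ne_zero h2 h2) a0 (by linear_combination -e)
  refine su3_g3 D hσ hd c1 lf ⟨-1, by simp, by simp, fun e => h2 (by linear_combination -e)⟩
    fun {e f w H} h _ _ h3 h4 s hs => ?_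
  have h5 := h4 _ lf h3
  rw [c2, mul_inv_cancel₀ l0] at h5
  refine sl2_full D h K.subtype (fun a => a.2) ?_ h5 h3 ⟨s, hs⟩
  refine ((S0801.result (fun e => h2 (congrArg K.subtype e)) l.1 l.ne_zero (RU.subfield_top _ hl one_pos
    (by rw [pow_one]; exact Subfield.subset_closure rfl) (by simpa using Fintype.card_pos))).resolve_right ?_).1
  rintro ⟨h6, h7, -⟩
  have h8 : orderOf l = 8 := by
    classical
    rw [orderOf_eq_card_of_forall_mem_powers hl, Nat.card_eq_fintype_card, Fintype.card_units, h6]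
  have h9 := orderOf_dvd_of_pow_eq_one (x := l) (n := 4) (Units.ext (by
    rw [Units.val_pow_eq_pow_val, show 4 = 2 * 2 from rfl, pow_mul, h7]; simp))
  rw [h8] at h9
  omega

theorem su3_even [Fintype F] [FiniteDimensional F V] (D : SD B) (hσ : σ ≠ RingHom.id F) (hd : finrank F V = 3)
    (h2 : (2 : F) = 0) {q : ℕ} (hF : Fintype.card F = q ^ 2) (hq : ∀ x, σ x = x ^ q) (h3 : 3 ≤ q0 σ) :
    ∃ u ∈ SUG B, ∃ x, Nm u ^ 3 = 0 ∧ (Nm u ^ 2) x ≠ 0 ∧ G3 u := by
  obtain ⟨l, hl⟩ := RU.exists_gen (F := F)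
  have q2 := two_le_of_card_eq_sq hF
  have l1 : σ l ≠ l := fun e => hσ (RingHom.ext fun x => by
    by_cases hx : x = 0
    · simp [hx]
    obtain ⟨j, hj⟩ := hl (Units.mk0 x hx)
    rw [show x = l ^ j by simpa using (congrArg Units.val hj).symm, map_pow, e]; rfl)
  have l2 : l + σ l ≠ 0 := fun e => l1 (by linear_combination e - l * h2)
  have l3 := l.ne_zero
  set c : F := l / (l + σ l) with hc
  have c1 : σ c = σ l / (l + σ l) := by rw [hc, map_div₀, map_add, D.invol, add_comm]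
  have c2 : c + σ c = 1 := by rw [c1, hc]; field_simp
  have c3 : σ c ≠ c := fun e => one_ne_zero (α := F) (by rw [← c2, e]; linear_combination c * h2)
  have c0 : c ≠ 0 := div_ne_zero l3 l2
  have c4 := mul_ne_zero c0 (D.σ_ne_zero c0)
  have c5 : σ (c * σ c) = c * σ c := by rw [map_mul, D.invol, mul_comm]
  have gen : ∀ E : Subfield F, c * σ c ∈ E → ∀ k, σ k = k → k ∈ E := fun E hE k hk => by
    let A : AddSubgroup F :=
      { carrier := {x | ∃ a ∈ E, ∃ b ∈ E, σ a = a ∧ σ b = b ∧ x = a + b * c}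
        zero_mem' := ⟨0, zero_mem _, 0, zero_mem _, by simp, by simp, by simp⟩
        add_mem' := by
          rintro _ _ ⟨a, a1, b, b1, a2, b2, rfl⟩ ⟨a', a3, b', b3, a4, b4, rfl⟩
          exact ⟨a + a', add_mem a1 a3, b + b', add_mem b1 b3, by simp [a2, a4], by simp [b2, b4], by ring⟩
        neg_mem' := by
          rintro _ ⟨a, a1, b, b1, a2, b2, rfl⟩
          exact ⟨-a, neg_mem a1, -b, neg_mem b1, by simp [a2], by simp [b2], by ring⟩ }
    have a1 : c ∈ RU.stab A := by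
      rintro _ ⟨a, a1, b, b1, a2, b2, rfl⟩
      exact ⟨-(b * (c * σ c)), neg_mem (mul_mem b1 hE), a + b, add_mem a1 b1, by rw [map_neg, map_mul, b2, c5],
        by simp [a2, b2], by linear_combination (b * c) * c2⟩
    have a2 := RU.subfield_top (RU.stab A) hl (k := q - 1) (by omega) (by
      convert sub_mem (inv_mem a1) (one_mem _) using 1
      rw [hc, hq, inv_div, show q = q - 1 + 1 by omega, pow_succ]
      field_simp; simp) (by rw [hF]; exact Nat.pow_lt_pow_left (by omega) two_ne_zero)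
    obtain ⟨a, a3, b, -, a4, b4, rfl⟩ := RU.full_of_stab a2 (s := 1) ⟨1, one_mem _, 0, zero_mem _, by simp, by simp,
      by simp⟩ one_ne_zero k
    rw [map_add, map_mul, a4, b4, add_right_inj] at hk
    rwa [(mul_eq_mul_left_iff.1 hk).resolve_left c3, zero_mul, add_zero]
  refine su3_g3 D hσ hd c3 (t := (c * σ c)⁻¹) (by rw [map_inv₀, c5]) (exists_fix_ne_of_three_le h3)
    fun {e f w H} h a1 h4 h5 h6 s hs => ?_
  have h7 : tv B e 1 ∈ H := by
    have := mul_mem h4 h4
    rw [rho_mul D a1 a1, ← a1.cc, ← two_smul F w, h2, zero_smul] at this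
    convert this using 1
    rw [tv]; congr 1; linear_combination -c2 + (σ c - c) * h2
  have h8 := h6 _ (by rw [map_inv₀, c5]) h5
  rw [inv_mul_cancel₀ c4] at h8
  let S : AddSubgroup F :=
    { carrier := {s | σ s = s ∧ tv B e s ∈ H}
      zero_mem' := ⟨map_zero _, tv_zero D e ▸ one_mem _⟩
      add_mem' := fun ha hb => ⟨by rw [map_add, ha.1, hb.1], tv_mul D h.ee ha.1 hb.1 ▸ mul_mem ha.2 hb.2⟩
      neg_mem' := fun ha => ⟨by rw [map_neg, ha.1], tv_inv D e _ ▸ inv_mem ha.2⟩ }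
  have := gen (RU.stab S) (fun s hs => ⟨by rw [map_mul, c5, hs.1], by
    simpa only [(weyl D h).1] using tv_map D (h6 s hs.1 hs.2) (mul_mem (mul_mem h7 h8) h7)⟩) s hs 1 ⟨map_one _, h7⟩
  exact one_mul s ▸ this.2

end Cfsg.Agent.L0.RV
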