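import Cfsg.Agent.L0.Rk2
import Cfsg.Agent.L0.MetaQ
import Cfsg.Agent.L0.FEss2

/-!
# `3`-groups of rank two
-/

set_option autoImplicit false

namespace Cfsg.Agent.L0

open Subgroup Cfsg.Agent.H24
open scoped commutatorElement IsMulCommutative

universe u

variable {G : Type*} [Group G] {p : ℕ} {A B H M N T X Z L : Subgroup G} {a b c e g u v w x y z : G}

theorem conj_eq_mul_cm (x a : G) : x * a * x⁻¹ = a * ⁅a⁻¹, x⁆ := by rw [commutatorElement_def]; group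

theorem conj_three (h1 : x * a * x⁻¹ = a * u) (h2 : x * u * x⁻¹ = u * v) (h3 : x * v * x⁻¹ = v * w)
    (h : Commute u v) : x ^ 3 * a * (x ^ 3)⁻¹ = a * (u ^ 3 * (v ^ 3 * w)) := by
  have e : x ^ 3 * a * (x ^ 3)⁻¹ = MulAut.conj x (MulAut.conj x (MulAut.conj x a)) := by
    simp only [MulAut.conj_apply, pow_succ, pow_zero, one_mul, mul_inv_rev, mul_assoc]
  have a1 : MulAut.conj x a = a * u := h1
  have a2 : MulAut.conj x u = u * v := h2
  have a3 : MulAut.conj x v = v * w := h3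
  rw [e, a1, map_mul, a1, a2, map_mul, map_mul, map_mul, a1, a2, a3]
  simp only [pow_succ, pow_zero, one_mul, mul_assoc]
  rw [← mul_assoc v u, ← h.eq, mul_assoc]

variable [Finite G]

theorem cyc_of_card [hp : Fact p.Prime] (h2 : p ≠ 2) (hG : IsPGroup p G) (hZ : Nat.card Z = p)
    (hA : ∀ e ∈ A, e ^ p = 1 → e ∈ Z) : IsCyclic A := by
  refine (H1.isCyclic_or_quaternion_gens (hG.to_subgroup A) fun x y hx hy => ?_).resolve_right fun e => h2 e.1
  have x1 : (x : G) ∈ Z := hA _ x.2 (by rw [← hx, ← Subgroup.coe_pow, pow_orderOf_eq_one]; rfl)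
  obtain ⟨k, hk⟩ := exists_zpow_of_card hZ x1
    (fun e => hp.out.ne_one (by rw [← hx, orderOf_eq_one_iff]; exact Subtype.ext e))
    (hA _ y.2 (by rw [← Subgroup.coe_pow, hy]; rfl))
  exact ⟨k, Subtype.ext hk.symm⟩

variable [Fact (Nat.Prime 3)]

theorem pc (hG : IsPGroup 3 G) (hx : x ^ 3 ∈ 𝐂[A]) (hB : ∀ b ∈ A, b ^ 3 ∈ T → b ∈ 𝐂[A] ∧ ⁅b⁻¹, x⁆ ∈ T) :
    ∀ H ≤ A, x ∈ 𝐍[H] → ∀ h ∈ H, ⁅h⁻¹, x⁆ ^ 3 ∈ T := by
  intro H
  induction hn : Nat.card H using Nat.strong_induction_on generalizing H with | _ n ih =>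
  intro h1 h2 h hh
  by_cases h0 : H = ⊥
  · subst h0; rw [mem_bot.1 hh]; simp
  have lt := commutator_lt (hG.to_subgroup H) (hG.to_subgroup (zpowers x)) (zpowers_le.2 h2) h0
  have m := commutator_mem_commutator (inv_mem hh) (mem_zpowers x)
  have n1 := right_le_normalizer_commutator H (zpowers x) (mem_zpowers x)
  have i := ih _ (hn ▸ card_lt_of_lt lt) _ rfl (lt.le.trans h1) n1 _ m
  have m2 : ⁅⁅h⁻¹, x⁆⁻¹, x⁆ ∈ A := h1 (lt.le (commutator_le_left_of_le_normalizer (zpowers_le.2 n1)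
    (commutator_mem_commutator (inv_mem m) (mem_zpowers x))))
  obtain ⟨b1, b2⟩ := hB _ m2 i
  have e := conj_three (conj_eq_mul_cm x h) (conj_eq_mul_cm x _) (conj_eq_mul_cm x _) (b1 _ (h1 (lt.le m)))
  rw [← hx h (h1 hh), mul_inv_cancel_right, left_eq_mul, mul_eq_one_iff_eq_inv] at e
  rw [e]
  exact inv_mem (mul_mem i b2)

theorem cube_inj (n : ℕ) : ∀ (G : Type u) [Group G] [Finite G], Nat.card G = n → IsPGroup 3 G →
    (∀ g : G, g ^ 3 = 1 → g ∈ center G) → ∀ a b : G, a ^ 3 = b ^ 3 → (a * b⁻¹) ^ 3 = 1 := by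
  induction n using Nat.strong_induction_on with | _ n ih =>
  intro G _ _ hn hG h a b e
  let L : Subgroup G :=
    { carrier := {g | g ^ 3 = 1}
      mul_mem' := fun {a b} ha hb => by
        have : Commute a b := mem_center_iff.1 (h b hb) a
        rw [Set.mem_ofPred_eq, this.mul_pow, ha, hb, one_mul]
      one_mem' := one_pow 3
      inv_mem' := fun {a} ha => by rw [Set.mem_ofPred_eq, inv_pow, ha, inv_one] }
  haveI : L.Normal := ⟨fun a ha g => by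
    rw [mem_center_iff.1 (h a ha) g, mul_inv_cancel_right]; exact ha⟩
  by_cases h0 : L = ⊥
  · by_contra h1
    obtain ⟨j, h2, h3⟩ := H3.exists_pow_not_mem_pow_mem (p := 3) (N := L) h1
      (let ⟨k, hk⟩ := hG (a * b⁻¹); ⟨k, hk ▸ L.one_mem⟩)
    exact h2 (mem_bot.1 (h0.le h3))
  have k1 : ∀ g : G, g ^ 3 ∈ L → ∀ t, ⁅t, g⁆ ∈ L := fun g hg t => by
    have := pc (A := ⊤) (T := ⊥) hG (centralizer_top'.ge (h _ hg)) (fun b _ hb => ⟨centralizer_top'.ge (h b hb),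
      mem_bot.2 (cm_eq_one.2 (Commute.inv_right (mem_center_iff.1 (h b hb) g)))⟩) ⊤ le_rfl
      (top_le_normalizer ⊤ trivial) t⁻¹ trivial
    rwa [inv_inv] at this
  have k2 := ih _ (by
      rw [← hn, card_eq_card_quotient_mul_card_subgroup L]
      exact lt_mul_of_one_lt_right Nat.card_pos ((one_lt_card_iff_ne_bot L).2 h0)) (G ⧸ L) rfl (hG.to_quotient L)
    (fun g hg => mem_center_iff.2 fun t => by
      obtain ⟨g, rfl⟩ := QuotientGroup.mk_surjective g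
      obtain ⟨t, rfl⟩ := QuotientGroup.mk_surjective t
      exact cm_eq_one'.1 ((QuotientGroup.eq_one_iff ⁅t, g⁆).2 (k1 g ((QuotientGroup.eq_one_iff _).1 hg) t)))
    a b (congrArg QuotientGroup.mk e)
  have k3 := k1 _ ((QuotientGroup.eq_one_iff ((a * b⁻¹) ^ 3)).1 k2) b
  have k4 := mul_pow_of_central (x := a * b⁻¹) (y := b) (mem_center_iff.1 (h _ k3) _) (mem_center_iff.1 (h _ k3) _) 3
  rw [inv_mul_cancel_right, e, show Nat.choose 3 2 = 3 from rfl, k3, mul_one] at k4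
  simpa using k4.symm

theorem card_le_cube (hG : IsPGroup 3 G) (h1 : ∀ a ∈ A, a ^ 3 = 1 → a ∈ L) (h2 : L ≤ 𝐂[A])
    (h3 : ∀ a ∈ A, a ^ 3 ∈ M) : Nat.card A ≤ Nat.card L * Nat.card M := by
  rw [card_eq_card_quotient_mul_card_subgroup (L.subgroupOf A), mul_comm]
  refine Nat.mul_le_mul (Nat.card_le_card_of_injective (fun a : L.subgroupOf A => (⟨a.1, a.2⟩ : L))
      fun a b e => Subtype.ext (Subtype.ext (congrArg (fun t : L => (t : G)) e)))
    (Nat.card_le_card_of_injective (fun q => (⟨(q.out : G) ^ 3, h3 _ q.out.2⟩ : M)) fun q r e => ?_)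
  have := cube_inj _ A rfl (hG.to_subgroup A) (fun g hg => mem_center_iff.2 fun t => Subtype.ext
    (h2 (h1 g g.2 (congrArg Subtype.val hg)) t t.2)) q.out⁻¹ r.out⁻¹ (by
      rw [inv_pow, inv_pow, inv_inj]; exact Subtype.ext (congrArg (fun t : M => (t : G)) e))
  rw [inv_inv] at this
  rw [← q.out_eq, ← r.out_eq]
  exact QuotientGroup.eq.2 (h1 _ (q.out⁻¹ * r.out).2 (congrArg Subtype.val this))

theorem three_case (hG : IsPGroup 3 G) (hr : PRankLE 3 2 G) (hm : ¬ IsMetacyclic G)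
    (hX : ∀ X : Subgroup G, X.Normal → Nat.card X = 3 ^ 3 → ¬ ∀ x ∈ X, x ^ 3 = 1) :
    ∃ A : Subgroup G, Nat.card A = 3 ^ 2 ∧ 𝐂[A] = A := by
  have pg := hG.to_subgroup
  have mt : ¬ IsMetacyclic (⊤ : Subgroup G) := fun h => hm (H23.LF.meta_of_equiv h topEquiv)
  obtain ⟨N, n1, n2, n3⟩ : ∃ N : Subgroup G, N.Normal ∧ (∀ g, g ^ 3 ∈ N) ∧ 9 * Nat.card N < Nat.card G := by
    by_contra! hh
    refine mt (BG.agemo_metacyclic (pg ⊤) (by omega) fun N h1 h2 => ?_)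
    have := hh N (top_le_normalizer_iff.1 h1.2) fun g => h2 g trivial
    obtain ⟨k, hk⟩ := hG.index N
    rw [← N.index_mul_card, hk] at this
    rw [relIndex_top_right, hk]
    exact pow_dvd_pow 3 ((Nat.pow_le_pow_iff_right (by omega)).1 (Nat.le_of_mul_le_mul_right this Nat.card_pos))
  obtain ⟨L, l1, -, ⟨l2, l3⟩, l4⟩ := BG.ex_odd_normal_p2Elem (pg ⊤) (H21.odd_of_pgroup (by omega) (pg ⊤)) fun h =>
    mt ⟨⊤, inferInstance, (topEquiv.isCyclic.2 h), inferInstance⟩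
  haveI nL := top_le_normalizer_iff.1 l1.2
  replace l2 := isMulCommutative_iff_le_centralizer.1 l2
  obtain ⟨Z, nZ, -, z1, z2⟩ := H3.exists_normal_card_eq hG (N := ⊥) (M := L) bot_le 1 (by simp [l4])
  simp only [card_bot, pow_one, mul_one] at z2
  have z3 : ∀ u ∈ Z, ∀ g, Commute g u := fun u hu g => cm_eq_one.1 (mem_bot.1 (cm_le_of_card (pg Z) (pg ⊤)
    (top_le_normalizer Z) (top_le_normalizer ⊥) bot_le (by simp [z2]) (commutator_mem_commutator hu (mem_top g))))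
  have z4 : ∀ u ∈ L, ∀ g, ⁅u, g⁆ ∈ Z := fun u hu g => cm_le_of_card (pg L) (pg ⊤) (top_le_normalizer L)
    (top_le_normalizer Z) z1 (by simp [z2, l4]) (commutator_mem_commutator hu (mem_top g))
  have om : ∀ e ∈ 𝐂[L], e ^ 3 = 1 → e ∈ L := fun e he h1 => by
    by_contra h0
    have hn := top_le_normalizer L (mem_top e)
    have h2 := hr (L ⊔ zpowers e) (H3.isMulCommutative_sup_zpowers (isMulCommutative_iff_le_centralizer.2 l2) he)
      fun a ha => by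
        obtain ⟨c, hc, k, rfl⟩ := (mem_sup_zpowers' hn).1 ha
        have : Commute c (e ^ k) := Commute.zpow_right (he c hc) k
        rw [this.mul_pow, l3 c hc, ← zpow_natCast, ← zpow_mul, mul_comm k, zpow_mul, zpow_natCast, h1]; simp
    rw [H3.card_sup_zpowers (p := 3) hn h0 (h1 ▸ L.one_mem), l4] at h2
    omega
  have cA : ∀ M : Subgroup G, (∀ a ∈ 𝐂[L], a ^ 3 ∈ M) → Nat.card 𝐂[L] ≤ 9 * Nat.card M := fun M hM =>
    (card_le_cube hG om (le_centralizer_centralizer L) hM).trans (by rw [l4]; rfl)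
  have lz : ∀ x ∉ 𝐂[L], ∀ u ∈ L, Commute x u → u ∈ Z := fun x hx u hu h => by
    by_contra h0
    refine hx fun t ht => ?_
    rw [eq_sup_zpowers_of_card (pg L) z1 (by simp [z2, l4]) hu h0] at ht
    obtain ⟨c, hc, k, rfl⟩ := (mem_sup_zpowers' (top_le_normalizer Z (mem_top u))).1 ht
    exact ((z3 c hc x).mul_right (h.zpow_right k)).symm.eq
  obtain ⟨y, hy, hy'⟩ := exists_not_mem_of_card (U := L) (V := Z) (by simp [z2, l4])
  have cy : ∀ g, Commute g y → g ∈ 𝐂[L] := fun g hg => by_contra fun h => hy' (lz g h y hy hg)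
  have cl : ∀ x ∉ 𝐂[L], ∀ g, ∃ k : ℤ, g * x ^ k ∈ 𝐂[L] := fun x hx g => by
    obtain ⟨k, hk⟩ := exists_zpow_of_card z2 (z4 y hy x) (fun e => hx (cy x (cm_eq_one.1 e))) (inv_mem (z4 y hy g))
    refine ⟨k, cy _ (cm_eq_one.1 ?_)⟩
    rw [cm_mul_right, cm_zpow_right (z3 _ (z4 y hy x) x), ← hk, (z3 _ (inv_mem (z4 y hy g)) g).eq]
    group
  have c3 : ∀ x : G, x ^ 3 ∈ 𝐂[L] := fun x => cy _ (cm_eq_one.1 (by
    rw [cm_pow_right (z3 _ (z4 y hy x) x), l3 _ (z1 (z4 y hy x))]))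
  obtain ⟨x, hx⟩ : ∃ x, x ∉ 𝐂[L] := by
    by_contra! hh
    have := cA N fun a _ => n2 a
    rw [show 𝐂[L] = ⊤ from eq_top_iff.2 fun a _ => hh a, card_top] at this
    omega
  have cG : Nat.card G = 3 * Nat.card 𝐂[L] := by
    rw [← H3.card_sup_zpowers (top_le_normalizer _ (mem_top x)) hx (c3 x), ← card_top]
    congr 2
    refine (eq_top_iff.2 fun g _ => ?_).symm
    obtain ⟨k, hk⟩ := cl x hx g
    simpa using mul_mem (mem_sup_left hk : _ ∈ 𝐂[L] ⊔ zpowers x) (mem_sup_right (inv_mem (zpow_mem_zpowers x k)))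
  by_contra hc
  have ec : ∀ x ∉ 𝐂[L], ∃ c ∈ 𝐂[L], Commute x c ∧ c ^ 3 ∈ Z ∧ c ^ 3 ≠ 1 := fun x hx => by
    obtain ⟨c, c1, c2, c4⟩ : ∃ c ∈ 𝐂[L], Commute x c ∧ c ∉ Z := by
      by_contra! hh
      refine hc ⟨Z ⊔ zpowers x, by
        rw [H3.card_sup_zpowers (p := 3) (top_le_normalizer Z (mem_top x)) (fun e => hx (l2 (z1 e)))
          (hh _ (c3 x) ((Commute.refl x).pow_right 3)), z2]; rfl, le_antisymm (fun g hg => ?_)
        (isMulCommutative_iff_le_centralizer.1 (H3.isMulCommutative_sup_zpowers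
          (isMulCommutative_iff_le_centralizer.2 fun u hu t _ => (z3 u hu t).eq) fun u hu => (z3 u hu x).symm.eq))⟩
      obtain ⟨k, hk⟩ := cl x hx g
      simpa using mul_mem (mem_sup_left (hh _ hk (Commute.mul_right (hg x (mem_sup_right (mem_zpowers x)))
        ((Commute.refl x).zpow_right k))) : _ ∈ Z ⊔ zpowers x) (mem_sup_right (inv_mem (zpow_mem_zpowers x k)))
    obtain ⟨j, h2, h3⟩ := H3.exists_pow_not_mem_pow_mem (p := 3) c4 (let ⟨k, hk⟩ := hG c; ⟨k, hk ▸ Z.one_mem⟩)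
    exact ⟨_, pow_mem c1 _, c2.pow_right _, h3, fun e => h2 (lz x hx _ (om _ (pow_mem c1 _) e) (c2.pow_right _))⟩
  have pA : ∀ b ∈ 𝐂[L], b ^ 3 ∈ L → ∀ a ∈ 𝐂[L], ⁅b, a⁆ ∈ L := fun b hb h a ha => by
    have := pc (T := ⊥) hG (le_centralizer_centralizer L h) (fun t ht h1 => ⟨le_centralizer_centralizer L (om t ht h1),
      mem_bot.2 (cm_eq_one'.2 (Commute.inv_left (hb t (om t ht h1))))⟩) _ le_rfl (le_normalizer hb) a⁻¹ (inv_mem ha)
    rw [inv_inv] at this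
    exact cm_inv_mem (om _ (commutator_le_of_le le_rfl le_rfl (commutator_mem_commutator ha hb)) this)
  have cb : ∀ b ∈ 𝐂[L], b ^ 3 ∈ L → ∀ a ∈ 𝐂[L], (a * b) ^ 3 = a ^ 3 * b ^ 3 := fun b hb h a ha => by
    have := pA b hb h a ha
    rw [mul_pow_of_central (ha _ this).symm (hb _ this).symm, show Nat.choose 3 2 = 3 from rfl, l3 _ this, mul_one]
  have dl : ∀ c ∈ 𝐂[L], c ^ 3 ∈ Z → c ^ 3 ≠ 1 → ∀ b ∈ 𝐂[L], b ^ 3 ∈ Z → ∃ k : ℤ, b * c ^ k ∈ L :=
    fun c c1 c2 c4 b hb h => by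
      obtain ⟨k, hk⟩ := exists_zpow_of_card z2 c2 c4 (inv_mem h)
      have e : (c ^ k) ^ 3 = (b ^ 3)⁻¹ := by rw [hk, ← zpow_natCast, ← zpow_natCast, zpow_comm]
      exact ⟨k, om _ (mul_mem hb (zpow_mem c1 k)) (by
        rw [cb _ (zpow_mem c1 k) (e ▸ z1 (inv_mem h)) b hb, e, mul_inv_cancel])⟩
  have dz : ∀ x ∉ 𝐂[L], ∀ b ∈ 𝐂[L], b ^ 3 ∈ Z → ⁅b⁻¹, x⁆ ∈ Z := fun x hx b hb h => by
    obtain ⟨c, c1, c2, c4, c5⟩ := ec x hx
    obtain ⟨k, hk⟩ := dl c c1 c4 c5 b hb h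
    have : b⁻¹ = c ^ k * (b * c ^ k)⁻¹ := by group
    rw [this, cm_mul_left, cm_eq_one.2 (c2.zpow_right k), mul_one]
    exact nZ.conj_mem _ (z4 _ (inv_mem hk) x) _
  have tri : ∀ x ∉ 𝐂[L], ∀ a ∈ 𝐂[L], ⁅a⁻¹, x⁆ ^ 3 ∈ Z → Commute (x ^ 3) a → ⁅a⁻¹, x⁆ ^ 3 = 1 :=
    fun x hx a ha h h1 => by
      have m : ⁅a⁻¹, x⁆ ∈ 𝐂[L] := commutator_le_left_of_le_normalizer (top_le_normalizer 𝐂[L])
        (commutator_mem_commutator (inv_mem ha) (mem_top x))
      have m2 := dz x hx _ m h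
      have e := conj_three (conj_eq_mul_cm x a) (conj_eq_mul_cm x _)
        (w := 1) (by rw [(z3 _ m2 x).eq]; simp) (z3 _ m2 _)
      rwa [h1.eq, mul_inv_cancel_right, l3 _ (z1 m2), mul_one, mul_one, left_eq_mul] at e
  by_cases h1 : ∃ b ∈ 𝐂[L], b ^ 3 ∈ L ∧ b ^ 3 ∉ Z
  · obtain ⟨b, b1, b2, b3⟩ := h1
    have m : x * b * x⁻¹ ∈ 𝐂[L] := Normal.conj_mem inferInstance _ b1 x
    have e : ⁅b⁻¹, x⁆ ^ 3 = ⁅(b ^ 3)⁻¹, x⁆ := by
      have : ⁅b⁻¹, x⁆ = b⁻¹ * (x * b * x⁻¹) := by rw [commutatorElement_def]; group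
      rw [this, cb _ m (by rw [conj_pow]; exact nL.conj_mem _ b2 x) _ (inv_mem b1), conj_pow, commutatorElement_def]
      group
    refine b3 (lz x hx _ b2 ?_)
    have k : Commute (x ^ 3) b := by
      by_contra h0
      have a1 := cA (N ⊓ centralizer {b}) fun a ha => ⟨n2 a, mem_centralizer_singleton_iff.2 (cm_eq_one.1 (by
        rw [cm_pow_right (ha _ (pA b b1 b2 a ha)).symm, l3 _ (pA b b1 b2 a ha)]))⟩
      have a2 := mul_card_le hG (lt_of_le_of_ne (inf_le_left : N ⊓ centralizer {b} ≤ N) fun e =>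
        h0 (mem_centralizer_singleton_iff.1 (e.ge (n2 x)).2))
      omega
    have := tri x hx b b1 (e ▸ z4 _ (inv_mem b2) x) k
    rw [e] at this
    simpa using (cm_eq_one.1 this).inv_right
  push Not at h1
  have ab : 𝐂[L] ≤ 𝐂[𝐂[L]] := by
    haveI : IsCyclic (𝐂[L] ⧸ L.subgroupOf 𝐂[L]) := by
      refine (H1.isCyclic_or_quaternion_gens ((pg _).to_quotient _) fun a b ha hb => ?_).resolve_right
        fun e => by omega
      obtain ⟨a, rfl⟩ := QuotientGroup.mk_surjective a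
      obtain ⟨b, rfl⟩ := QuotientGroup.mk_surjective b
      have a1 : (a : G) ^ 3 ∈ L := (QuotientGroup.eq_one_iff (a ^ 3)).1 (ha ▸ pow_orderOf_eq_one _)
      obtain ⟨k, hk⟩ := dl a a.2 (h1 _ a.2 a1) (fun e => by
        rw [(QuotientGroup.eq_one_iff a).2 (om _ a.2 e), orderOf_one] at ha; omega) b b.2
        (h1 _ b.2 ((QuotientGroup.eq_one_iff (b ^ 3)).1 hb))
      have := (QuotientGroup.eq_one_iff (N := L.subgroupOf 𝐂[L]) (b * a ^ k)).2 hk
      rw [QuotientGroup.mk_mul, QuotientGroup.mk_zpow, mul_eq_one_iff_eq_inv] at this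
      exact this ▸ inv_mem (zpow_mem_zpowers _ k)
    intro a ha b hb
    exact congrArg Subtype.val ((MonoidHom.isMulCommutative_of_isCyclic_of_ker_le_center
      (QuotientGroup.mk' (L.subgroupOf 𝐂[L])) fun t ht => mem_center_iff.2 fun s =>
        Subtype.ext (s.2 t ((QuotientGroup.eq_one_iff t).1 ht)).symm).is_comm.comm ⟨b, hb⟩ ⟨a, ha⟩)
  have f1 : ∀ x ∉ 𝐂[L], ∀ a ∈ 𝐂[L], ⁅a⁻¹, x⁆ ∈ L := fun x hx a ha =>
    om _ (commutator_le_left_of_le_normalizer (top_le_normalizer 𝐂[L])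
      (commutator_mem_commutator (inv_mem ha) (mem_top x))) (tri x hx a ha (pc hG (ab (c3 x))
        (fun b hb h => ⟨ab hb, dz x hx b hb h⟩) _ le_rfl (top_le_normalizer _ (mem_top x)) a ha) (ab ha _ (c3 x)))
  have f2 : ∀ x ∉ 𝐂[L], x ^ 3 ≠ 1 := fun x hx h => by
    have hn := top_le_normalizer L (mem_top x)
    refine hX (L ⊔ zpowers x) (H3.normal_sup_zpowers fun g => ?_)
      (by rw [H3.card_sup_zpowers (p := 3) hn (fun e => hx (l2 e)) (h ▸ L.one_mem), l4]; rfl) fun a ha => ?_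
    · obtain ⟨k, hk⟩ := cl x hx g
      have := f1 x hx _ (inv_mem hk)
      rw [inv_inv, cm_mul_left, cm_eq_one'.2 ((Commute.refl x).zpow_left k)] at this
      simpa using this
    · obtain ⟨c, hc, k, rfl⟩ := (mem_sup_zpowers' hn).1 ha
      have := cm_inv_mem (z4 c hc (x ^ k))
      rw [mul_pow_of_central (z3 _ this _) (z3 _ this _), show Nat.choose 3 2 = 3 from rfl, l3 _ (z1 this), l3 c hc,
        ← zpow_natCast, zpow_comm, zpow_natCast, h]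
      simp
  obtain ⟨t, ht⟩ := (Subgroup.isCyclic_iff_exists_zpowers_eq_top _).1 (cyc_of_card (A := centralizer {x}) (by omega) hG
    z2 fun e he h => lz x hx e (om e (by_contra fun h0 => f2 e h0 h) h) (mem_centralizer_singleton_iff.1 he).symm)
  have t1 : t ∉ 𝐂[L] := fun e => hx (zpowers_le.2 e (ht.ge (mem_centralizer_singleton_iff.2 rfl)))
  have f3 : ∀ a ∈ 𝐂[L], a ^ 3 ≠ t ^ 3 := fun a ha e => by
    have u1 := f1 t t1 _ (inv_mem ha)
    have u2 := z4 _ (inv_mem u1) t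
    have t2 : a⁻¹ * t ∉ 𝐂[L] := fun e => t1 (by simpa using mul_mem ha e)
    have t3 : (a⁻¹ * t) ^ 3 ∈ Z := by
      have e1 : (a⁻¹ * t) ^ 3 = a⁻¹ * (t * a⁻¹ * t⁻¹) * (t * (t * a⁻¹ * t⁻¹) * t⁻¹) * t ^ 3 := by
        simp only [pow_succ]; group
      have e2 : ∀ u v : G, t * (u * v) * t⁻¹ = t * u * t⁻¹ * (t * v * t⁻¹) := fun u v => by group
      rw [e1, conj_eq_mul_cm t a⁻¹, e2, conj_eq_mul_cm t a⁻¹, conj_eq_mul_cm t ⁅_, _⁆, ← e]
      generalize ⁅⁅a⁻¹⁻¹, t⁆⁻¹, t⁆ = v at u2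
      generalize ⁅a⁻¹⁻¹, t⁆ = u at u1
      have c1 : Commute u a⁻¹ := inv_mem ha u u1
      have : a⁻¹ * (a⁻¹ * u) * (a⁻¹ * u * (u * v)) * a ^ 3 = (a⁻¹ ^ 3 * u ^ 3) * (v * a ^ 3) := by
        simp only [pow_succ, pow_zero, one_mul, mul_assoc]
        rw [← mul_assoc u a⁻¹, c1.eq, mul_assoc]
      rw [this, l3 u u1, ← (z3 v u2 _).eq]
      simpa using u2
    obtain ⟨c, c1, c2, c4, c5⟩ := ec _ t2
    obtain ⟨k, hk⟩ := exists_zpow_of_card z2 c4 c5 (inv_mem t3)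
    refine f2 (a⁻¹ * t * c ^ k) (fun e => t2 (by simpa using mul_mem e (inv_mem (zpow_mem c1 k)))) ?_
    rw [(c2.zpow_right k).mul_pow, ← zpow_natCast (c ^ k), zpow_comm, zpow_natCast, ← hk, mul_inv_cancel]
  have f4 : 𝐂[L] ≤ N ⊔ zpowers y := fun a ha => by
    obtain ⟨k, hk⟩ := ht.ge (mem_centralizer_singleton_iff.2 (show a ^ 3 * x = x * a ^ 3 by
      have u1 := f1 x hx a ha
      have : x * a ^ 3 * x⁻¹ = a ^ 3 := by
        rw [← conj_pow, conj_eq_mul_cm, (Commute.symm (ha _ u1)).mul_pow, l3 _ u1, mul_one]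
      rw [← this, inv_mul_cancel_right, this]))
    simp only at hk
    obtain ⟨j, rfl⟩ : ((3 : ℕ) : ℤ) ∣ k := by_contra fun h0 => t1 (mem_of_zpow_mem (c3 t) h0 (hk ▸ c3 a))
    rw [zpow_mul, zpow_natCast] at hk
    obtain ⟨i, rfl⟩ : ((3 : ℕ) : ℤ) ∣ j := by
      by_contra h0
      obtain ⟨m, hm⟩ := (IsPGroup.iff_orderOf.1 hG) (t ^ 3)
      obtain ⟨r, hr⟩ := (mem_zpowers_zpow_iff (g := t ^ 3) (k := j)).2 (by
        rw [hm, ← Int.isCoprime_iff_gcd_eq_one]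
        push_cast
        exact ((Int.prime_three.coprime_iff_not_dvd.2 h0).symm).pow_right)
      refine f3 (a ^ r) (zpow_mem ha r) ?_
      rw [← hr, hk, ← zpow_natCast, ← zpow_natCast, zpow_comm]
    have m : (t ^ 3) ^ i ∈ 𝐂[L] := zpow_mem (c3 t) i
    have l : a * ((t ^ 3) ^ i)⁻¹ ∈ L := om _ (mul_mem ha (inv_mem m)) (by
      rw [(Commute.inv_right (ab m a ha)).mul_pow, inv_pow, ← hk, mul_comm _ i, zpow_mul, zpow_natCast, mul_inv_cancel])
    obtain ⟨c, -, -, c4, c5⟩ := ec x hx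
    have : L ≤ N ⊔ zpowers y := (eq_sup_zpowers_of_card (pg L) z1 (by simp [z2, l4]) hy hy').le.trans
      (sup_le_sup_right ((eq_zpowers_of_card z2 c4 c5).le.trans (zpowers_le.2 (n2 c))) _)
    simpa using mul_mem (this l) (mem_sup_left (zpow_mem (n2 t) i))
  have a1 := card_le_of_le f4
  by_cases h0 : y ∈ N
  · rw [sup_eq_left.2 (zpowers_le.2 h0)] at a1; omega
  · rw [H3.card_sup_zpowers (p := 3) (top_le_normalizer N (mem_top y)) h0 (n2 y)] at a1; omega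

end Cfsg.Agent.L0
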