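import Cfsg.Agent.L0.Rk3
import Cfsg.Agent.L0.FRk2

/-!
# Generators and relations for the two families of `p`-groups of rank two
-/

set_option autoImplicit false

namespace Cfsg.Agent.L0

open Subgroup Cfsg.Agent.H24
open scoped commutatorElement IsMulCommutative

variable {G : Type*} [Group G] {p n : ℕ} {X Z L : Subgroup G} {u x y z : G} [hp : Fact p.Prime] [Finite G]

omit hp [Finite G] in
theorem inv_conj_eq (x y : G) : x⁻¹ * y * x = y * ⁅y⁻¹, x⁻¹⁆ := by rw [commutatorElement_def]; group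

omit [Finite G] in
theorem pow_pred_ne_one {m : ℕ} (h : orderOf z = p ^ (m + 1)) : z ^ p ^ m ≠ 1 ∧ (z ^ p ^ m) ^ p = 1 :=
  ⟨pow_ne_one_of_lt_orderOf (pow_pos hp.out.pos m).ne' (h ▸ Nat.pow_lt_pow_right hp.out.one_lt (by omega)),
    by rw [← pow_mul, ← pow_succ, ← h, pow_orderOf_eq_one]⟩

theorem RL.X_le (h : RL p X Z L) (hx : x ∈ X) (hx' : x ∉ L) (hy : y ∈ L) (hy' : y ∉ Z) {K : Subgroup G} (h1 : Z ≤ K)
    (h2 : x ∈ K) (h3 : y ∈ K) : X ≤ K :=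
  (h.X_eq hx hx').le.trans (sup_le ((h.L_eq hy hy').le.trans (sup_le h1 (zpowers_le.2 h3))) (zpowers_le.2 h2))

theorem RL.fam1 (h : RL p X Z L) (h0 : X ⊔ 𝐂[X] = ⊤) (hn : Nat.card G = p ^ n) :
    3 ≤ n ∧ ∃ x y z : G, closure ({x, y, z} : Set G) = ⊤ ∧ x ^ p = 1 ∧ y ^ p = 1 ∧ z ^ p ^ (n - 2) = 1 ∧
      x * z = z * x ∧ y * z = z * y ∧ x⁻¹ * y * x = y * z ^ p ^ (n - 3) := by
  obtain ⟨z, hz⟩ := (Subgroup.isCyclic_iff_exists_zpowers_eq_top _).1 h.cycC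
  obtain ⟨x, hx, hx'⟩ := h.exists_x
  obtain ⟨y, hy, hy'⟩ := h.exists_y
  obtain ⟨m, hm⟩ := IsPGroup.iff_orderOf.1 h.pg z
  have z1 := hz.le (mem_zpowers z)
  have c := card_sup_mul_card_inf' (centralizer_le_normalizer' X)
  rw [h0, h.ZX, card_top, hn, h.cZ, h.cX, ← hz, Nat.card_zpowers, hm, ← pow_succ, ← pow_add,
    Nat.pow_right_inj hp.out.two_le] at c
  have c2 := card_le_of_le (h.Z_le X)
  rw [h.cZ, ← hz, Nat.card_zpowers, hm] at c2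
  obtain _ | m := m
  · exact absurd c2 (by simpa using hp.out.one_lt)
  obtain rfl : n = m + 3 := by omega
  obtain ⟨w1, w2⟩ := pow_pred_ne_one hm
  have y1 := h.h2 _ (inv_mem hy) x⁻¹
  obtain ⟨k, hk⟩ := exists_zpow_of_card h.cZ y1 (h.ne (inv_mem hx) (by simpa using hx') (inv_mem hy)
    (by simpa using hy')) (h.mem_Z (pow_mem z1 _) w2)
  have e : x⁻¹ * y ^ k * x = y ^ k * z ^ p ^ m := by
    rw [hk, ← (h.cmZ y1 y).mul_zpow, ← inv_conj_eq]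
    simpa using (conj_zpow (a := x⁻¹) (b := y) (i := k)).symm
  have hK : 𝐂[X] ≤ closure {x, y ^ k, z} := hz.ge.trans (zpowers_le.2 (subset_closure (by simp)))
  refine ⟨by omega, x, y ^ k, z, eq_top_iff.2 (h0.ge.trans (sup_le (h.X_le hx hx' (zpow_mem hy k) (fun e' => w1 ?_)
    ((h.Z_le X).trans hK) (subset_closure (by simp)) (subset_closure (by simp))) hK)), h.pow x hx,
    h.pow _ (h.LX (zpow_mem hy k)), by rw [← pow_orderOf_eq_one z, hm]; rfl, z1 x hx,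
    z1 _ (h.LX (zpow_mem hy k)), e⟩
  rw [(h.cmZ e' _).eq] at e
  simpa using e

theorem R2.cm_pow (h : R2 p X Z L z) (hu : u ∈ X) (j : ℕ) : ∃ c ∈ Z, ⁅u ^ j, z⁆ = c * ⁅u, z⁆ ^ j := by
  induction j with
  | zero => exact ⟨1, Z.one_mem, by simp⟩
  | succ j ih =>
    obtain ⟨c, hc, e⟩ := ih
    refine ⟨⁅u ^ j, ⁅u, z⁆⁆ * c, mul_mem (cm_inv_mem (h.h2 _ (h.cm u z) _)) hc, ?_⟩
    rw [pow_succ, cm_mul_left, e, pow_succ', mul_assoc _ c, ← mul_assoc c, ← (h.cmZ hc ⁅u, z⁆).eq]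
    generalize ⁅u, z⁆ = y
    rw [commutatorElement_def]; group

theorem R2.fam2 (h : R2 p X Z L z) (hn : Nat.card G = p ^ n) :
    4 ≤ n ∧ ∃ (s : ℕ) (x y z : G), (s = 1 ∨ ¬ IsSquare (s : ZMod p)) ∧ closure ({x, y, z} : Set G) = ⊤ ∧
      x ^ p = 1 ∧ y ^ p = 1 ∧ z ^ p ^ (n - 2) = 1 ∧ y * z = z * y ∧ x⁻¹ * y * x = y * z ^ (s * p ^ (n - 3)) ∧
      x⁻¹ * z * x = y * z := by
  obtain ⟨m, hm⟩ := IsPGroup.iff_orderOf.1 h.pg z
  have c := h.card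
  rw [hn, hm, ← pow_add, Nat.pow_right_inj hp.out.two_le] at c
  have m2 : 2 ≤ m := by
    by_contra h0
    have : z ^ p = 1 := orderOf_dvd_iff_pow_eq_one.1 (hm ▸ (pow_dvd_pow p (by omega : m ≤ 1)).trans (by simp))
    have c2 := card_le_of_le (h.Z_le X)
    rw [h.cZ, h.CX, this] at c2
    exact absurd c2 (by simpa using hp.out.one_lt)
  obtain ⟨m, rfl⟩ : ∃ k, m = k + 2 := ⟨m - 2, by omega⟩
  obtain rfl : n = m + 4 := by omega
  obtain ⟨w1, w2⟩ := pow_pred_ne_one hm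
  have w3 : z ^ p ^ (m + 1) ∈ Z := h.mem_Z (h.CX.ge (by rw [pow_succ', pow_mul]; exact npow_mem_zpowers _ _)) w2
  have o : orderOf (z ^ p ^ (m + 1)) = p := orderOf_eq_prime w2 w1
  have fin : ∀ u ∈ X, u ∉ L → ∀ s : ℕ, (s = 1 ∨ ¬ IsSquare (s : ZMod p)) → ⁅⁅u, z⁆⁻¹, u⁆ = (z ^ p ^ (m + 1)) ^ s →
      ∃ (s : ℕ) (x y z : G), (s = 1 ∨ ¬ IsSquare (s : ZMod p)) ∧ closure ({x, y, z} : Set G) = ⊤ ∧
      x ^ p = 1 ∧ y ^ p = 1 ∧ z ^ p ^ (m + 4 - 2) = 1 ∧ y * z = z * y ∧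
      x⁻¹ * y * x = y * z ^ (s * p ^ (m + 4 - 3)) ∧ x⁻¹ * z * x = y * z := fun u hu hu' s hs e => by
    have k1 : z ∈ closure {u⁻¹, ⁅u, z⁆, z} := subset_closure (by simp)
    have k2 : X ≤ closure {u⁻¹, ⁅u, z⁆, z} := h.X_le (inv_mem hu) (by simpa using hu') (h.cm u z) (h.out u hu hu')
      ((h.Z_le X).trans (h.CX.le.trans (zpowers_le.2 (pow_mem k1 p)))) (subset_closure (by simp))
      (subset_closure (by simp))
    refine ⟨s, u⁻¹, ⁅u, z⁆, z, hs, eq_top_iff.2 fun g _ => ?_, h.pow _ (inv_mem hu), h.pow _ (h.LX (h.cm u z)),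
      by rw [← pow_orderOf_eq_one z, hm]; rfl, h.zCL _ (h.cm u z), ?_, by rw [commutatorElement_def]; group⟩
    · obtain ⟨k, hk⟩ := h.exists_CL hu hu' g
      simpa using mul_mem ((h.CL.le.trans (sup_le (h.LX.trans k2) (zpowers_le.2 k1))) hk)
        (inv_mem (k2 (zpow_mem hu k)))
    · rw [inv_conj_eq, inv_inv, e, ← pow_mul, mul_comm s]; rfl
  refine ⟨by omega, ?_⟩
  obtain ⟨u, hu, hu'⟩ := h.exists_x
  have y1 := h.h2 _ (inv_mem (h.cm u z)) u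
  have y2 := h.ne hu hu' (inv_mem (h.cm u z)) (fun e => h.out u hu hu' (inv_mem_iff.1 e))
  obtain ⟨s, hs⟩ := mem_powers_iff_mem_zpowers.2 ((eq_zpowers_of_card h.cZ w3 w1).le y1)
  simp only at hs
  by_cases hq : IsSquare (s : ZMod p)
  swap
  · exact fin u hu hu' s (.inr hq) hs.symm
  obtain ⟨r, hr⟩ := hq
  have r0 : r ≠ 0 := fun e => y2 (by
    rw [e, mul_zero, ZMod.natCast_eq_zero_iff] at hr
    rw [← hs, ← orderOf_dvd_iff_pow_eq_one, o]; exact hr)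
  obtain ⟨c, hc, e⟩ := h.cm_pow hu (r⁻¹).val
  have e2 : ⁅⁅u ^ (r⁻¹).val, z⁆⁻¹, u ^ (r⁻¹).val⁆ = (z ^ p ^ (m + 1)) ^ 1 := by
    rw [cm_pow_right (h.cmZ (h.h2 _ (inv_mem (h.cm _ z)) u) u), e, mul_inv_rev, cm_mul_left,
      cm_eq_one.2 (h.cmZ (inv_mem hc) u), mul_one, mul_inv_cancel, one_mul, ← inv_pow, cm_pow_left (h.cmZ y1 _), ← hs,
      ← pow_mul _ s, ← pow_mul _ (s * _), pow_inj_mod, o, ← ZMod.natCast_eq_natCast_iff']
    push_cast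
    rw [ZMod.natCast_zmod_val, hr]; field_simp
  refine fin _ (pow_mem hu _) (fun e' => w1 ?_) 1 (.inl rfl) e2
  rw [pow_one] at e2
  rw [← e2]
  exact cm_eq_one'.2 (h.abL e' _ (inv_mem (h.cm _ z)))

end Cfsg.Agent.L0
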