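import Mathlib
namespace Cfsg.Agent.L0
/-- a recursive definition, to test the structural rules -/
def tf : ℕ → List ℕ → ℕ
  | 0, _ => 1
  | _, [] => 2
  | n+1, a :: l => tf n l + a
theorem tf_test : tf 2 [3, 4, 5] = 8 := by decide +kernel
end Cfsg.Agent.L0
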