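import Cfsg.Agent.L0.Th3
import Cfsg.Agent.S0375
import Cfsg.Agent.H21.Leech1

/-! A lattice with a coordinate frame as in the Leech lattice is the Leech lattice. -/

set_option autoImplicit false

namespace Cfsg.Agent.L0.Th

open Matrix Finset Cfsg.Agent.LL

/-- the properties of the coordinates with respect to a frame -/
structure LP (L : AddSubgroup Z24) (x0 : Z24) : Prop where
  dot : ∀ x ∈ L, ∀ y ∈ L, 8 ∣ x ⬝ᵥ y
  nrm : ∀ x ∈ L, 16 ∣ x ⬝ᵥ x
  n16 : ∀ x ∈ L, x ⬝ᵥ x ≠ 16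
  mem0 : x0 ∈ L
  mod0 : ∀ i, 4 ∣ x0 i - 1
  par : ∀ x ∈ L, ∀ i j, 2 ∣ x i - x j
  four : ∀ z : Z24, 2 ∣ ∑ i, z i → (4 : ℤ) • z ∈ L
  nd : ∀ u ∈ L, (∀ x ∈ L, 16 ∣ u ⬝ᵥ x) → ∃ w ∈ L, u = (2 : ℤ) • w

variable {L : AddSubgroup Z24} {x0 : Z24}

theorem LP.dot0 (h : LP L x0) (z : Z24) : 4 ∣ z ⬝ᵥ x0 - ∑ i, z i := by
  rw [dotProduct, ← sum_sub_distrib]
  exact dvd_sum fun i _ => by rw [← mul_sub_one]; exact (h.mod0 i).mul_left _

theorem LP.sum4 (h : LP L x0) {y : Z24} (hy : (2 : ℤ) • y ∈ L) : 4 ∣ ∑ i, y i := by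
  have h1 := h.dot _ hy _ h.mem0
  have h2 := h.dot0 y
  rw [smul_dotProduct, smul_eq_mul] at h1
  omega

theorem LP.sum0 (h : LP L x0) : 8 ∣ ∑ i, x0 i - 4 := by
  choose t ht using h.mod0
  have h1 := h.nrm _ h.mem0
  have h2 : x0 ⬝ᵥ x0 = 24 + 8 * ∑ i, t i + 16 * ∑ i, t i * t i := by
    rw [mul_sum, mul_sum, show (24 : ℤ) = ∑ _i : Fin 24, 1 by simp, ← sum_add_distrib,
      ← sum_add_distrib]
    exact sum_congr rfl fun i _ => by rw [show x0 i = 1 + 4 * t i by have := ht i; omega]; ring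
  have h3 : ∑ i, x0 i = 24 + 4 * ∑ i, t i := by
    rw [mul_sum, show (24 : ℤ) = ∑ _i : Fin 24, 1 by simp, ← sum_add_distrib]
    exact sum_congr rfl fun i _ => by have := ht i; omega
  omega

theorem LP.cases (h : LP L x0) {x : Z24} (hx : x ∈ L) :
    (∃ y, x = (2 : ℤ) • y) ∨ ∃ y, x - x0 = (2 : ℤ) • y := by
  have h1 := h.par x hx 0
  by_cases h2 : 2 ∣ x 0
  · exact .inl ⟨fun i => x i / 2, funext fun i => by
      have := h1 i
      simp only [Pi.smul_apply, smul_eq_mul]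
      omega⟩
  · exact .inr ⟨fun i => (x i - x0 i) / 2, funext fun i => by
      have := h1 i
      have := h.mod0 i
      simp only [Pi.smul_apply, smul_eq_mul, Pi.sub_apply]
      omega⟩

/-- the binary code of the lattice -/
def code (L : AddSubgroup Z24) : Submodule (ZMod 2) F24 := AddSubgroup.toZModSubmodule 2
  { carrier := {c | ∃ y, (2 : ℤ) • y ∈ L ∧ red y = c}
    zero_mem' := ⟨0, by simp, by ext; simp [red]⟩
    add_mem' := by
      rintro _ _ ⟨y, hy, rfl⟩ ⟨z, hz, rfl⟩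
      exact ⟨y + z, by rw [smul_add]; exact add_mem hy hz, red_add y z⟩
    neg_mem' := by
      rintro _ ⟨y, hy, rfl⟩
      exact ⟨-y, by rw [smul_neg]; exact neg_mem hy, by ext; simp [red]⟩ }

theorem mem_code {c : F24} : c ∈ code L ↔ ∃ y, (2 : ℤ) • y ∈ L ∧ red y = c := Iff.rfl

theorem red_dot (x y : Z24) : red x ⬝ᵥ red y = ((x ⬝ᵥ y : ℤ) : ZMod 2) := by
  simp [red, dotProduct]

theorem lft_cases (c : F24) (i : Fin 24) : c i = 0 ∧ lft c i = 0 ∨ c i ≠ 0 ∧ lft c i = 1 := by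
  simp only [lft]
  generalize c i = a
  revert a
  decide

theorem sum_lft (c : F24) : ∑ i, lft c i = hammingNorm c := by
  rw [hammingNorm, card_eq_sum_ones, sum_filter]
  push_cast
  exact sum_congr rfl fun i _ => by rcases lft_cases c i with h | h <;> simp [h.1, h.2]

theorem dot_lft (c : F24) : lft c ⬝ᵥ lft c = hammingNorm c := by
  rw [← sum_lft]
  exact sum_congr rfl fun i _ => by rcases lft_cases c i with h | h <;> simp [h.2]

theorem LP.mem_of (h : LP L x0) {y y' : Z24} (hy : (2 : ℤ) • y ∈ L) (e : red y' = red y)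
    (hs : 4 ∣ ∑ i, y' i) : (2 : ℤ) • y' ∈ L := by
  obtain ⟨w, rfl⟩ := red_eq_iff.1 e
  have h1 := h.sum4 hy
  simp only [Pi.add_apply, Pi.smul_apply, smul_eq_mul, sum_add_distrib, ← mul_sum] at hs
  rw [smul_add, smul_smul]
  exact add_mem hy (h.four w (by omega))

theorem LP.wt4 (h : LP L x0) {c : F24} (hc : c ∈ code L) : 4 ∣ hammingNorm c := by
  obtain ⟨y, hy, rfl⟩ := hc
  obtain ⟨w, hw⟩ := red_eq_iff.1 (red_lft (red y))
  have h1 := h.nrm _ hy
  have h2 := dot_lft (red y)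
  rw [hw] at h2
  simp only [add_dotProduct, dotProduct_add, smul_dotProduct, dotProduct_smul, smul_eq_mul,
    dotProduct_comm w y] at h1 h2
  omega

theorem LP.no4 (h : LP L x0) {c : F24} (hc : c ∈ code L) : hammingNorm c ≠ 4 := fun e => by
  obtain ⟨y, hy, rfl⟩ := hc
  refine h.n16 _ (h.mem_of hy (red_lft (red y)) (by rw [sum_lft, e]; norm_num)) ?_
  rw [smul_dotProduct, dotProduct_smul, dot_lft, e]
  norm_num

theorem LP.orth (h : LP L x0) {c d : F24} (hc : c ∈ code L) (hd : d ∈ code L) : c ⬝ᵥ d = 0 := by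
  obtain ⟨y, hy, rfl⟩ := hc
  obtain ⟨z, hz, rfl⟩ := hd
  have h1 := h.dot _ hy _ hz
  rw [smul_dotProduct, dotProduct_smul, smul_eq_mul, smul_eq_mul] at h1
  rw [red_dot, ZMod.intCast_zmod_eq_zero_iff_dvd]
  omega

theorem LP.perp (h : LP L x0) {c : F24} (hc : ∀ d ∈ code L, d ⬝ᵥ c = 0) : c ∈ code L := by
  have h1 : ∀ y, (2 : ℤ) • y ∈ L → 2 ∣ y ⬝ᵥ lft c := fun y hy => by
    have := hc _ ⟨y, hy, rfl⟩
    rw [← red_lft c, red_dot, ZMod.intCast_zmod_eq_zero_iff_dvd] at this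
    exact this
  have h2 := h1 x0 (L.zsmul_mem h.mem0 2)
  have h3 := h.dot0 (lft c)
  rw [dotProduct_comm] at h2
  obtain ⟨k, hk⟩ : 2 ∣ ∑ i, lft c i := by omega
  let z : Z24 := lft c + (2 : ℤ) • Pi.single 0 (-k)
  have h4 : ∑ i, z i = 0 := by
    simp only [z, Pi.add_apply, Pi.smul_apply, smul_eq_mul, sum_add_distrib, ← mul_sum, hk,
      Fintype.sum_pi_single']
    ring
  have h5 : ∀ y, (2 : ℤ) • y ∈ L → 16 ∣ ((4 : ℤ) • z) ⬝ᵥ ((2 : ℤ) • y) := fun y hy => by
    have := h1 y hy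
    simp only [z, add_dotProduct, smul_dotProduct, dotProduct_smul, smul_eq_mul,
      dotProduct_comm (lft c)]
    omega
  obtain ⟨w, hw, e⟩ := h.nd _ (h.four z (by simp [h4])) fun x hx => by
    rcases h.cases hx with ⟨y, rfl⟩ | ⟨y, hy⟩
    · exact h5 y hx
    · have h6 := h5 y (hy ▸ sub_mem hx h.mem0)
      have h7 := h.dot0 z
      rw [← hy, dotProduct_sub, smul_dotProduct 4 z x0, smul_eq_mul] at h6
      omega
  refine ⟨z, ?_, (red_eq_iff.2 ⟨_, rfl⟩).trans (red_lft c)⟩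
  convert hw using 1
  ext i
  have := congrFun e i
  simp only [Pi.smul_apply, smul_eq_mul] at this ⊢
  omega

theorem LP.rank (h : LP L x0) : Module.finrank (ZMod 2) (code L) = 12 := by
  have h1 := LinearMap.BilinForm.finrank_orthogonal
    (B := Matrix.toBilin' (1 : Matrix (Fin 24) (Fin 24) (ZMod 2)))
    (Matrix.nondegenerate_of_det_ne_zero (by simp)).toBilin' (code L)
  rw [show LinearMap.BilinForm.orthogonal _ (code L) = code L from ?_, Module.finrank_fin_fun] at h1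
  · change Module.finrank (ZMod 2) (code L) = 24 - Module.finrank (ZMod 2) (code L) at h1
    omega
  ext c
  simp only [LinearMap.BilinForm.mem_orthogonal_iff, Matrix.toBilin'_apply', one_mulVec]
  exact ⟨h.perp, fun hc d hd => h.orth hd hc⟩

theorem LP.leech (h : LP L x0) : ∃ e : Fin 24 ≃ GolayPt,
    ∀ X : GolayPt → ℤ, X ∈ leechLattice ↔ X ∘ e ∈ L := by
  obtain ⟨e, he⟩ := S0375.result (code L) h.rank (fun _ hc _ hd => h.orth hc hd) (fun _ => h.wt4)
    fun _ => h.no4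
  have hs : ∀ X : GolayPt → ℤ, ∑ i, X (e i) = ∑ p, X p := fun X => Equiv.sum_comp e X
  have h0 : IsL (x0 ∘ e.symm) 1 ∅ := ⟨H16.empty_mem_gSets, fun p => by simpa [ind] using h.mod0 _, by
    rw [← hs]; simpa using h.sum0⟩
  have h1 : ∀ X C, IsL X 0 C → X ∘ e ∈ L := fun X C hX => by
    obtain ⟨w, hw, rfl⟩ := hX.code
    obtain ⟨y, hy, ey⟩ := (he w).1 hw
    have h2 : ∀ i, 4 ∣ X (e i) - 2 * lft (fun i => w (e i)) i := fun i => by
      have := hX.mod4 (e i)
      rcases lft_cases (fun i => w (e i)) i with h3 | h3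
      · rw [ind_of_not_mem (by simp [support₂, h3.1])] at this; omega
      · rw [ind_of_mem (by simpa [support₂] using h3.1)] at this; omega
    have h3 : X ∘ e = (2 : ℤ) • fun i => X (e i) / 2 := funext fun i => by
      have := h2 i
      simp only [Pi.smul_apply, smul_eq_mul, Function.comp_apply]
      omega
    rw [h3]
    refine h.mem_of hy ?_ ?_
    · rw [ey, ← red_lft fun i => w (e i)]
      exact red_eq_iff.2 ⟨fun i => (X (e i) - 2 * lft (fun i => w (e i)) i) / 4, funext fun i => by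
        have := h2 i
        simp only [Pi.smul_apply, smul_eq_mul, Pi.add_apply]
        omega⟩
    · have h4 := hX.sum8
      have h5 := congrArg (fun x : Z24 => ∑ i, x i) h3
      simp only [Pi.smul_apply, smul_eq_mul, Function.comp_apply, ← mul_sum, hs] at h5
      omega
  have h2 : ∀ X y, X ∘ e = (2 : ℤ) • y → X ∘ e ∈ L → X ∈ leechLattice := fun X y hy hX => by
    refine IsL.mem (m := 0) (C := support₂ (red y ∘ e.symm)) ⟨⟨_, (he _).2 ⟨y, hy ▸ hX, by
      ext; simp⟩, rfl⟩, fun p => ?_, ?_⟩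
    · obtain ⟨i, rfl⟩ := e.surjective p
      obtain ⟨w, hw⟩ := red_eq_iff.1 (red_lft (red y))
      have h3 := congrFun hy i
      have h4 := congrFun hw i
      simp only [Pi.smul_apply, smul_eq_mul, Function.comp_apply, Pi.add_apply] at h3 h4
      rcases lft_cases (red y) i with h5 | h5
      · rw [ind_of_not_mem (by simp [support₂, h5.1])]; omega
      · rw [ind_of_mem (by simpa [support₂] using h5.1)]; omega
    · have h4 := h.sum4 (hy ▸ hX)
      have h5 := congrArg (fun x : Z24 => ∑ i, x i) hy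
      simp only [Pi.smul_apply, smul_eq_mul, Function.comp_apply, ← mul_sum, hs] at h5
      omega
  have h3 : ∀ X : GolayPt → ℤ, (X - x0 ∘ e.symm) ∘ e = X ∘ e - x0 := fun X => by ext; simp
  refine ⟨e, fun X => ⟨fun hX => ?_, fun hX => ?_⟩⟩
  · rcases exists_isL hX with ⟨C, hC⟩ | ⟨C, hC⟩
    · exact h1 X C hC
    · have h4 := h1 _ _ ((hC.add h0.neg).shift (m' := 0) (by norm_num))
      rw [← sub_eq_add_neg, h3] at h4
      simpa using add_mem h4 h.mem0
  · rcases h.cases hX with ⟨y, hy⟩ | ⟨y, hy⟩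
    · exact h2 X y hy hX
    · simpa using add_mem (h2 _ y ((h3 X).trans hy) (h3 X ▸ sub_mem hX h.mem0)) h0.mem

variable {B : Matrix (Fin 24) (Fin 24) ℤ}

theorem RL.frame (h : RL B) : ∃ (v : Fin 24 → Z24) (x : Z24),
    (∀ i j, v i ⬝ᵥ B *ᵥ v j = if i = j then 8 else 0) ∧ (∀ i j, red (v i) = red (v j)) ∧
      ∀ i, 4 ∣ v i ⬝ᵥ B *ᵥ x - 1 := by
  obtain ⟨U, hU, h8, hr, ho⟩ := h.main.1
  let e := (U.equivFinOfCardEq hU).symm
  obtain ⟨x, hx⟩ : ∃ x, ¬ 2 ∣ (e 0 : Z24) ⬝ᵥ B *ᵥ x := by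
    by_contra! hc
    obtain ⟨w, hw⟩ := h.nondeg hc
    have h1 := h8 _ (e 0).2
    rw [hw, Qf_two] at h1
    exact h.n2 w (by omega)
  let s : Fin 24 → ℤ := fun i => if 4 ∣ (e i : Z24) ⬝ᵥ B *ᵥ x - 1 then 1 else -1
  have hs : ∀ i, s i = 1 ∨ s i = -1 := fun i => by simp only [s]; split_ifs <;> simp
  have h1 : ∀ i, red (s i • (e i : Z24)) = red (e i) := fun i => by
    rcases hs i with h1 | h1 <;> simp [h1, red_neg]
  refine ⟨fun i => s i • (e i : Z24), x, fun i j => ?_, fun i j => ?_, fun i => ?_⟩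
  · rw [mulVec_smul, smul_dotProduct, dotProduct_smul]
    split_ifs with hij
    · subst hij
      rw [show (e i : Z24) ⬝ᵥ B *ᵥ (e i : Z24) = 8 from h8 _ (e i).2]
      rcases hs i with h1 | h1 <;> simp [h1]
    · rw [ho _ (e i).2 _ (e j).2 fun e' => hij (e.injective (Subtype.ext e')), smul_zero, smul_zero]
  · rw [h1, h1, hr _ (e i).2 _ (e j).2]
  · obtain ⟨w, hw⟩ := red_eq_iff.1 (hr _ (e i).2 _ (e 0).2)
    have h2 : (e i : Z24) ⬝ᵥ B *ᵥ x = (e 0 : Z24) ⬝ᵥ B *ᵥ x + 2 * (w ⬝ᵥ B *ᵥ x) := by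
      rw [hw, add_dotProduct, smul_dotProduct, smul_eq_mul]
    simp only [s, smul_dotProduct, smul_eq_mul]
    split_ifs <;> omega

theorem RL.leech (h : RL B) : ∃ f : Z24 ≃+ leechLattice, ∀ x, sqNorm (f x : GolayPt → ℤ) = 8 * Qf B x := by
  obtain ⟨v, x0, h1, h2, h3⟩ := h.frame
  let V : Matrix (Fin 24) (Fin 24) ℤ := Matrix.of v
  have e1 : V * (B * Vᵀ) = (8 : ℤ) • 1 := by
    ext i j
    have := h1 i j
    simp only [dotProduct, mulVec] at this
    simp only [mul_apply, V, of_apply, transpose_apply, this, Matrix.smul_apply, one_apply, smul_eq_mul,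
      mul_ite, mul_one, mul_zero]
  have e2 : B * Vᵀ * V = (8 : ℤ) • 1 := by
    have hd : V.det ≠ 0 := fun e => by
      have := congrArg det e1
      rw [det_mul, e, zero_mul, det_smul, det_one] at this
      norm_num at this
    have := congrArg (fun M => V.adjugate * M * V) e1
    simp only [← Matrix.mul_assoc, adjugate_mul, Matrix.mul_smul, Matrix.smul_mul, Matrix.one_mul,
      Matrix.mul_one] at this
    rw [smul_comm] at this
    exact smul_right_injective _ hd this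
  let g : Z24 →+ Z24 := (Matrix.toLin' (V * B)).toAddMonoidHom
  have hg : ∀ x i, g x i = v i ⬝ᵥ B *ᵥ x := fun x i => by
    simp only [g, LinearMap.toAddMonoidHom_coe, toLin'_apply, ← mulVec_mulVec]
    rfl
  have hp : ∀ x y, g x ⬝ᵥ g y = 8 * (x ⬝ᵥ B *ᵥ y) := fun x y => by
    simp only [g, LinearMap.toAddMonoidHom_coe, toLin'_apply]
    rw [dotProduct_comm, dotProduct_mulVec, ← mulVec_transpose, mulVec_mulVec, transpose_mul, h.symm,
      ← Matrix.mul_assoc, e2, Matrix.smul_mul, Matrix.one_mul, smul_mulVec, smul_dotProduct,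
      dotProduct_comm, smul_eq_mul]
  choose w hw using fun i => red_eq_iff.1 (h2 i 0)
  have hL : LP g.range (g x0) := by
    refine ⟨?_, ?_, ?_, ⟨x0, rfl⟩, fun i => by rw [hg]; exact h3 i, ?_, fun z hz => ?_, ?_⟩
    · rintro _ ⟨x, rfl⟩ _ ⟨y, rfl⟩
      rw [hp]
      exact dvd_mul_right _ _
    · rintro _ ⟨x, rfl⟩
      have := h.even x
      rw [hp, ← Qf]
      omega
    · rintro _ ⟨x, rfl⟩
      have := h.n2 x
      rw [hp, ← Qf]
      omega
    · rintro _ ⟨x, rfl⟩ i j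
      rw [hg, hg, hw i, hw j, add_dotProduct, add_dotProduct, smul_dotProduct, smul_dotProduct,
        smul_eq_mul, smul_eq_mul]
      omega
    · obtain ⟨k, hk⟩ := hz
      refine ⟨∑ j, z j • w j + k • v 0, funext fun i => ?_⟩
      have h4 : ∀ j, g (w j) i = (if i = j then 4 else 0) - if i = 0 then 4 else 0 := fun j => by
        have h5 := h1 i j
        rw [hw j, mulVec_add, mulVec_smul, dotProduct_add, dotProduct_smul, h1, smul_eq_mul] at h5
        rw [hg]
        split_ifs at h5 ⊢ <;> omega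
      simp only [map_add, map_sum, map_zsmul, Pi.add_apply, Finset.sum_apply, Pi.smul_apply,
        smul_eq_mul, h4, hg (v 0), h1, mul_sub, sum_sub_distrib, ← sum_mul, hk, mul_ite, mul_zero,
        sum_ite_eq, mem_univ, if_true]
      split_ifs <;> simp [← sum_mul, hk] <;> ring
    · rintro _ ⟨u, rfl⟩ hu
      obtain ⟨y, rfl⟩ := h.nondeg (u := u) fun x => by
        have := hu _ ⟨x, rfl⟩
        rw [hp] at this
        omega
      exact ⟨g y, ⟨y, rfl⟩, map_zsmul g 2 y⟩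
  obtain ⟨e, he⟩ := hL.leech
  let F : Z24 →+ leechLattice :=
    { toFun := fun x => ⟨g x ∘ e.symm, (he _).2 ⟨x, by ext; simp⟩⟩
      map_zero' := by ext; simp
      map_add' := fun x y => by ext; simp }
  have hF : ∀ x, sqNorm (F x : GolayPt → ℤ) = 8 * Qf B x := fun x => by
    rw [Qf, ← hp, sqNorm, ← Equiv.sum_comp e]
    simp [F, dotProduct, sq]
  refine ⟨AddEquiv.ofBijective F ⟨(injective_iff_map_eq_zero F).2 fun x hx => ?_, fun X => ?_⟩, hF⟩
  · by_contra hc
    have h4 := h.pos x hc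
    have h5 := hF x
    rw [hx, ZeroMemClass.coe_zero, sqNorm_zero] at h5
    omega
  · obtain ⟨x, hx⟩ := (he X).1 X.2
    exact ⟨x, Subtype.ext (by ext p; simp [F, hx])⟩

end Cfsg.Agent.L0.Th
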